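import Cfsg.Agent.H383.Rg.AllTv
import Cfsg.Agent.H449.Reg.Real

/-!
# S3691, case C-: the group `G` acts on the vectors and on the quadratic forms (helper383)

* `form_scalar` : a semilinear map normalising the transvections is a semisimilarity;
* `Lf R g σ M` : normalised lifts; `exists_lf`, `Lf.uniq`, `Lf.mul`, `Lf.of`, `Lf.mem_T`
* `lf`, `sg` : the lift and its automorphism; `ac` : the action on the forms.
-/

set_option autoImplicit false
set_option linter.unusedSectionVars false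

namespace Cfsg.Agent.H383.Rg

open Module QuadraticMap
open Cfsg.Agent.LieClassical.OrthCore Cfsg.Agent.LieClassical.OrthTrans
open Cfsg.Agent.BpCl (Iso)
open Cfsg.Agent.H454.Reg Cfsg.Agent.H449.Reg

universe u v

section

variable {F V : Type*} [Field F] [Finite F] [CharP F 2] [AddCommGroup V] [Module F V]
  {f : LinearMap.BilinForm F V}

/-- a semilinear map normalising the transvections is a semisimilarity -/
theorem form_scalar (hA : ∀ v, f v v = 0) {σ : F ≃+* F} {M : V → V}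
    (hM1 : ∀ u v, M (u + v) = M u + M v) (hM2 : ∀ (a : F) v, M (a • v) = σ a • M v)
    (hinv : ∀ u x y, f (M (tv hA u 1 x)) (M (tv hA u 1 y)) = f (M x) (M y)) :
    ∃ c : F, ∀ x y, f (M x) (M y) = c * σ (f x y) := by
  have key : ∀ u x y, σ (f u y) * f (M x) (M u) = σ (f u x) * f (M u) (M y) := by
    intro u x y
    have h1 := hinv u x y
    rw [tv_apply, tv_apply, hM1, hM1, hM2, hM2, map_add, map_add, LinearMap.add_apply, LinearMap.add_apply, map_smul,
      map_smul, map_smul, LinearMap.smul_apply, LinearMap.smul_apply, hA, smul_zero, smul_zero, add_zero, one_mul,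
      one_mul, smul_eq_mul, smul_eq_mul] at h1
    have h2 := add_self' (σ (f u x) * f (M u) (M y))
    linear_combination h1 - h2
  by_cases h0 : ∀ x y, f x y = 0
  · refine ⟨1, fun x y => ?_⟩
    rw [h0, h0, map_zero, mul_zero]
  push Not at h0
  obtain ⟨u0, v1, h0⟩ := h0
  obtain ⟨v0, huv⟩ : ∃ v0, f u0 v0 = 1 := ⟨(f u0 v1)⁻¹ • v1, by rw [map_smul, smul_eq_mul, inv_mul_cancel₀ h0]⟩
  have sym := symm_of_alt hA
  have hvu : f v0 u0 = 1 := by rw [sym, huv]
  refine ⟨f (M u0) (M v0), fun u y => ?_⟩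
  have hA1 : ∀ x, f (M u0) (M x) = f (M u0) (M v0) * σ (f u0 x) := by
    intro x
    have h1 := key u0 x v0
    rw [huv, map_one, one_mul, sym (M x)] at h1
    rw [h1, mul_comm]
  have hB1 : ∀ x, f (M v0) (M x) = f (M u0) (M v0) * σ (f v0 x) := by
    intro x
    have h1 := key v0 x u0
    rw [hvu, map_one, one_mul, sym (M x), sym (M v0) (M u0)] at h1
    rw [h1, mul_comm]
  -- general vectors not orthogonal to `u0` or `v0`
  have hC1 : ∀ u, f u u0 ≠ 0 → ∀ y, f (M u) (M y) = f (M u0) (M v0) * σ (f u y) := by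
    intro u hu y
    have h1 := key u u0 y
    rw [hA1, sym u0 u] at h1
    have h2 : σ (f u u0) ≠ 0 := fun h => hu ((map_eq_zero_iff σ σ.injective).1 h)
    apply mul_left_cancel₀ h2
    rw [← h1]; ring
  have hD1 : ∀ u, f u v0 ≠ 0 → ∀ y, f (M u) (M y) = f (M u0) (M v0) * σ (f u y) := by
    intro u hu y
    have h1 := key u v0 y
    rw [hB1, sym v0 u] at h1
    have h2 : σ (f u v0) ≠ 0 := fun h => hu ((map_eq_zero_iff σ σ.injective).1 h)
    apply mul_left_cancel₀ h2
    rw [← h1]; ring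
  by_cases hu : f u v0 = 0
  · have h1 := hD1 (u + u0) (by rw [map_add, LinearMap.add_apply, hu, zero_add, huv]; exact one_ne_zero) y
    rw [hM1, map_add, LinearMap.add_apply, map_add f, LinearMap.add_apply, map_add σ, hA1] at h1
    linear_combination h1
  · exact hD1 u hu y

end

variable {G : Type u} [Group G] {T : Subgroup G} {F : Type*} {V : Type*} [Field F] [Finite F] [CharP F 2]
  [AddCommGroup V] [Module F V] {f : LinearMap.BilinForm F V}

/-- a normalised lift of `g` -/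
structure Lf (R : Real T (Iso (F := F) fun x y => f x y)) (g : G) (σ : F ≃+* F) (M : Semi F V) : Prop where
  ind : Induces R.π M g
  add : ∀ u v, M.1 (u + v) = M.1 u + M.1 v
  smul : ∀ (a : F) v, M.1 (a • v) = σ a • M.1 v
  form : ∀ u v, f (M.1 u) (M.1 v) = σ (f u v)

/-- multiplication by a scalar -/
def scal (b : F) (hb : b ≠ 0) : Semi F V :=
  ⟨{ toFun := fun v => b • v, invFun := fun v => b⁻¹ • v
     left_inv := fun v => by change b⁻¹ • b • v = v; rw [smul_smul, inv_mul_cancel₀ hb, one_smul]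
     right_inv := fun v => by change b • b⁻¹ • v = v; rw [smul_smul, mul_inv_cancel₀ hb, one_smul] },
   RingEquiv.refl F, fun u v => smul_add b u v, fun a v => smul_comm b a v⟩

theorem scal_apply (b : F) (hb : b ≠ 0) (v : V) : (scal b hb).1 v = b • v := rfl

variable (R : Real T (Iso (F := F) fun x y => f x y))

theorem scal_ind (b : F) (hb : b ≠ 0) : Induces R.π (scal b hb : Semi F V) (1 : G) := by
  refine ⟨fun x => ⟨x, fun v => ?_⟩, fun x y h => ?_⟩
  · rw [scal_apply, scal_apply, map_smul]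
  · have h1 : y = x := by
      apply Subtype.ext
      apply LinearEquiv.ext
      intro v
      have h2 := h v
      rw [scal_apply, scal_apply, map_smul] at h2
      exact smul_right_injective V hb h2
    rw [h1]; group

variable (hA : ∀ v, f v v = 0) (hnd : ∀ u, (∀ v, f u v = 0) → u = 0) (hV : ∃ v : V, v ≠ 0)

include hA hnd hV in
theorem exists_lf (g : G) : ∃ σ M, Lf R g σ M := by
  obtain ⟨M, hM⟩ := R.ind g
  obtain ⟨σ, hM1, hM2⟩ := M.2
  obtain ⟨c, hc⟩ := form_scalar (f := f) hA (σ := σ) (M := M.1) hM1 hM2 (by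
    intro u x y
    obtain ⟨z, hz⟩ := hM.1 ⟨tv hA u 1, tv_mem hA u 1⟩
    have h1 := hz x
    have h2 := hz y
    change z.1 (M.1 x) = M.1 (tv hA u 1 x) at h1
    change z.1 (M.1 y) = M.1 (tv hA u 1 y) at h2
    rw [← h1, ← h2]
    exact z.2 _ _)
  have hc0 : c ≠ 0 := by
    rintro rfl
    obtain ⟨v, hv⟩ := hV
    apply hv
    have h1 : M.1 v = 0 := by
      apply hnd
      intro w
      obtain ⟨w, rfl⟩ := M.1.surjective w
      rw [hc, zero_mul]
    have h2 : M.1 0 = 0 := by
      have := hM2 0 0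
      rwa [zero_smul, map_zero σ, zero_smul] at this
    exact M.1.injective (h1.trans h2.symm)
  obtain ⟨b, hb⟩ := exists_sq (F := F) c⁻¹
  have hb0 : b ≠ 0 := by
    rintro rfl
    rw [zero_pow two_ne_zero] at hb
    exact inv_ne_zero hc0 hb.symm
  refine ⟨σ, scal b hb0 * M, ?_, fun u v => ?_, fun a v => ?_, fun u v => ?_⟩
  · have := Real.induces_mul (scal_ind R b hb0) hM
    rwa [one_mul] at this
  · change b • M.1 (u + v) = b • M.1 u + b • M.1 v
    rw [hM1, smul_add]
  · change b • M.1 (a • v) = σ a • (b • M.1 v)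
    rw [hM2, smul_comm]
  · change f (b • M.1 u) (b • M.1 v) = σ (f u v)
    rw [map_smul, map_smul, LinearMap.smul_apply, hc, smul_eq_mul, smul_eq_mul]
    have : b * (b * (c * σ (f u v))) = (b ^ 2 * c) * σ (f u v) := by ring
    rw [this, hb, inv_mul_cancel₀ hc0, one_mul]

variable {R}

include hnd hV in
theorem exists_one : ∃ u v : V, f u v = 1 := by
  obtain ⟨u, hu⟩ := hV
  by_contra hcon
  push Not at hcon
  apply hu
  apply hnd
  intro v
  by_contra h0
  exact hcon u ((f u v)⁻¹ • v) (by rw [map_smul, smul_eq_mul, inv_mul_cancel₀ h0])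

include hnd hV in
theorem Lf.uniq {g : G} {σ σ' : F ≃+* F} {M M' : Semi F V} (h : Lf R g σ M) (h' : Lf R g σ' M') : σ = σ' ∧ M = M' := by
  -- `M'⁻¹ M` is a scalar
  obtain ⟨a, ha, hM⟩ : ∃ a : F, a ≠ 0 ∧ ∀ v, M.1 v = a • M'.1 v := by
    obtain ⟨a, ha, hM⟩ := R.comm (M'⁻¹ * M) (by
      intro x
      obtain ⟨y, hy⟩ := h.ind.1 x
      obtain ⟨z, hz⟩ := h'.ind.1 x
      have h2 := h.ind.2 x y hy
      have h3 := h'.ind.2 x z hz
      have h4 : R.π (z⁻¹ * y) = 1 := by
        rw [map_mul, map_inv, inv_mul_eq_one]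
        apply Subtype.ext
        rw [← h2, ← h3]
      obtain ⟨a, ha⟩ := R.ker _ h4
      have h5 : ∀ v, y.1 v = a • z.1 v := by
        intro v
        have h6 : z.1 ((z⁻¹ * y).1 v) = y.1 v := by
          change (z.1 * (z.1⁻¹ * y.1)) v = _
          rw [mul_inv_cancel_left]
        rw [← h6, ha, map_smul]
      obtain ⟨τ, hσ1, hσ2⟩ := (M'⁻¹ : Semi F V).2
      refine ⟨τ a, fun v => ?_⟩
      change (M'⁻¹ : Semi F V).1 (M.1 (x.1 v)) = τ a • x.1 ((M'⁻¹ : Semi F V).1 (M.1 v))
      rw [← hy, h5, hσ2]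
      congr 1
      apply M'.1.injective
      rw [Real.semi_inv_apply]
      have h7 := hz ((M'⁻¹ : Semi F V).1 (M.1 v))
      rw [Real.semi_inv_apply] at h7
      exact h7)
    refine ⟨σ' a, fun h => ha ((map_eq_zero_iff σ' σ'.injective).1 h), fun v => ?_⟩
    have h1 : (M'⁻¹ : Semi F V).1 (M.1 v) = a • v := hM v
    rw [← h'.smul, ← h1, Real.semi_inv_apply]
  obtain ⟨u, v, huv⟩ := exists_one hnd hV
  have h1 : a = 1 := by
    have h2 := h.form u v
    rw [huv, map_one, hM, hM, map_smul, map_smul, LinearMap.smul_apply, h'.form, huv, map_one, smul_eq_mul, smul_eq_mul,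
      mul_one] at h2
    have h3 : (a + 1) ^ 2 = 0 := by
      rw [sq_add, one_pow]
      have := add_self' (1 : F)
      linear_combination h2 + this
    have h4 := pow_eq_zero_iff (two_ne_zero) |>.1 h3
    exact CharTwo.add_eq_zero.1 h4
  have hMM : M = M' := by
    apply Subtype.ext
    apply Equiv.ext
    intro w
    rw [hM, h1, one_smul]
  refine ⟨?_, hMM⟩
  subst hMM
  ext b
  have h2 := h.form u (b • v)
  rw [h'.form, map_smul, huv, smul_eq_mul, mul_one] at h2
  exact h2.symm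

theorem Lf.mul {g g' : G} {σ σ' : F ≃+* F} {M M' : Semi F V} (h : Lf R g σ M) (h' : Lf R g' σ' M') :
    Lf R (g * g') (σ'.trans σ) (M * M') where
  ind := Real.induces_mul h.ind h'.ind
  add u v := by
    change M.1 (M'.1 (u + v)) = M.1 (M'.1 u) + M.1 (M'.1 v)
    rw [h'.add, h.add]
  smul a v := by
    change M.1 (M'.1 (a • v)) = σ (σ' a) • M.1 (M'.1 v)
    rw [h'.smul, h.smul]
  form u v := by
    change f (M.1 (M'.1 u)) (M.1 (M'.1 v)) = σ (σ' (f u v))
    rw [h.form, h'.form]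

variable (R) in
theorem Lf.of (x : Iso (F := F) fun x y => f x y) : Lf R (R.π x : G) (RingEquiv.refl F) (slg x.1) where
  ind := by
    refine ⟨fun y => ⟨x * y * x⁻¹, fun v => ?_⟩, fun y z h => ?_⟩
    · change (x.1 * y.1 * x.1⁻¹) (x.1 v) = x.1 (y.1 v)
      have h1 : (x.1 * y.1 * x.1⁻¹) (x.1 v) = (x.1 * y.1) ((x.1⁻¹ * x.1) v) := rfl
      rw [h1, inv_mul_cancel]
      rfl
    · have h1 : z = x * y * x⁻¹ := by
        apply Subtype.ext
        apply LinearEquiv.ext
        intro v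
        obtain ⟨v, rfl⟩ := x.1.surjective v
        have h2 : z.1 (x.1 v) = x.1 (y.1 v) := h v
        rw [h2]
        have h3 : ((x * y * x⁻¹ : Iso (F := F) fun x y => f x y).1) (x.1 v) = (x.1 * y.1) ((x.1⁻¹ * x.1) v) := rfl
        rw [h3, inv_mul_cancel]
        rfl
      rw [h1, map_mul, map_mul, map_inv]
      rfl
  add u v := map_add x.1 u v
  smul a v := map_smul x.1 a v
  form u v := x.2 u v

theorem Lf.one : Lf R (1 : G) (RingEquiv.refl F) 1 := by
  have h := Lf.of R 1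
  rw [map_one] at h
  exact h

/-- the linear ones are in `T` -/
theorem Lf.mem_T (hc : Subgroup.centralizer (T : Set G) = ⊥) {g : G} {M : Semi F V} (h : Lf R g (RingEquiv.refl F) M) :
    ∃ x : Iso (F := F) fun x y => f x y, (R.π x : G) = g ∧ ∀ v, x.1 v = M.1 v := by
  let x : Iso (F := F) fun x y => f x y :=
    ⟨{ toFun := M.1, invFun := M.1.symm, left_inv := M.1.left_inv, right_inv := M.1.right_inv
       map_add' := h.add, map_smul' := h.smul }, h.form⟩
  refine ⟨x, ?_, fun v => rfl⟩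
  have h1 : (R.π x : G)⁻¹ * g ∈ Subgroup.centralizer (T : Set G) := by
    rw [Subgroup.mem_centralizer_iff]
    intro t ht
    obtain ⟨y, hy⟩ := R.surj ⟨t, ht⟩
    have hy' : (R.π y : G) = t := congrArg Subtype.val hy
    obtain ⟨z, hz⟩ := h.ind.1 y
    have h2 := h.ind.2 y z hz
    have h3 := (Lf.of R x).ind.2 y z hz
    rw [← hy']
    have h4 : (R.π x : G) * (R.π y : G) * (R.π x : G)⁻¹ = g * (R.π y : G) * g⁻¹ := h3.trans h2.symm
    have h5 : (R.π y : G) = (R.π x : G)⁻¹ * (g * (R.π y : G) * g⁻¹) * (R.π x : G) := by rw [← h4]; group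
    calc (R.π y : G) * ((R.π x : G)⁻¹ * g) = ((R.π x : G)⁻¹ * (g * (R.π y : G) * g⁻¹) * (R.π x : G)) * ((R.π x : G)⁻¹ * g) := by
          rw [← h5]
      _ = (R.π x : G)⁻¹ * g * (R.π y : G) := by group
  rw [hc, Subgroup.mem_bot] at h1
  have h2 : g = (R.π x : G) := (inv_mul_eq_one.1 h1).symm
  exact h2.symm

/-- `π` is injective -/
theorem pi_inj (hnd : ∀ u, (∀ v, f u v = 0) → u = 0) (hV : ∃ v : V, v ≠ 0) : Function.Injective R.π := by
  rw [injective_iff_map_eq_one]
  intro x hx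
  have h1 := Lf.of R x
  rw [hx] at h1
  obtain ⟨-, h2⟩ := Lf.uniq hnd hV h1 (Lf.one (R := R))
  apply Subtype.ext
  apply LinearEquiv.ext
  intro v
  have h3 : (slg x.1).1 v = (1 : Semi F V).1 v := by rw [h2]
  exact h3


/-- the data : `T = Sp(V)`, normal in `G`, trivial centralizer -/
structure Sd (T : Subgroup G) (f : LinearMap.BilinForm F V) where
  /-- the realisation -/
  R : Real T (Iso (F := F) fun x y => f x y)
  alt : ∀ v, f v v = 0
  nd : ∀ u, (∀ v, f u v = 0) → u = 0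
  ne : ∃ v : V, v ≠ 0
  cent : Subgroup.centralizer (T : Set G) = ⊥
  normal : T.Normal

namespace Sd

variable (D : Sd T f)

/-- the field automorphism of `g` -/
noncomputable def sg (g : G) : F ≃+* F := (exists_lf D.R D.alt D.nd D.ne g).choose

/-- the lift of `g` -/
noncomputable def lf (g : G) : Semi F V := (exists_lf D.R D.alt D.nd D.ne g).choose_spec.choose

theorem spec (g : G) : Lf D.R g (D.sg g) (D.lf g) := (exists_lf D.R D.alt D.nd D.ne g).choose_spec.choose_spec

theorem eq_lf {g : G} {σ : F ≃+* F} {M : Semi F V} (h : Lf D.R g σ M) : D.sg g = σ ∧ D.lf g = M :=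
  Lf.uniq D.nd D.ne (D.spec g) h

theorem lf_mul (g h : G) : D.lf (g * h) = D.lf g * D.lf h := (D.eq_lf ((D.spec g).mul (D.spec h))).2

theorem sg_mul (g h : G) (a : F) : D.sg (g * h) a = D.sg g (D.sg h a) := by
  rw [(D.eq_lf ((D.spec g).mul (D.spec h))).1]
  rfl

theorem lf_mul_apply (g h : G) (v : V) : (D.lf (g * h)).1 v = (D.lf g).1 ((D.lf h).1 v) := by
  rw [lf_mul]
  rfl

theorem lf_one : D.lf (1 : G) = 1 := (D.eq_lf Lf.one).2

theorem lf_one_apply (v : V) : (D.lf (1 : G)).1 v = v := by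
  rw [lf_one]
  rfl

theorem sg_one (a : F) : D.sg (1 : G) a = a := by
  rw [(D.eq_lf Lf.one).1]
  rfl

theorem lf_inv_apply (g : G) (v : V) : (D.lf g⁻¹).1 ((D.lf g).1 v) = v := by
  rw [← lf_mul_apply, inv_mul_cancel, lf_one_apply]

theorem lf_apply_inv (g : G) (v : V) : (D.lf g).1 ((D.lf g⁻¹).1 v) = v := by
  rw [← lf_mul_apply, mul_inv_cancel, lf_one_apply]

theorem sg_inv_apply (g : G) (a : F) : D.sg g⁻¹ (D.sg g a) = a := by
  rw [← sg_mul, inv_mul_cancel, sg_one]

theorem sg_apply_inv (g : G) (a : F) : D.sg g (D.sg g⁻¹ a) = a := by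
  rw [← sg_mul, mul_inv_cancel, sg_one]

theorem lf_T (x : Iso (F := F) fun x y => f x y) (v : V) : (D.lf (D.R.π x : G)).1 v = x.1 v := by
  rw [(D.eq_lf (Lf.of D.R x)).2]
  rfl

theorem sg_T {t : G} (ht : t ∈ T) (a : F) : D.sg t a = a := by
  obtain ⟨x, hx⟩ := D.R.surj ⟨t, ht⟩
  have hx' : (D.R.π x : G) = t := congrArg Subtype.val hx
  rw [← hx', (D.eq_lf (Lf.of D.R x)).1]
  rfl

theorem exists_T {t : G} (ht : t ∈ T) : ∃ x : Iso (F := F) fun x y => f x y, (D.R.π x : G) = t ∧
    ∀ v, (D.lf t).1 v = x.1 v := by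
  obtain ⟨x, hx⟩ := D.R.surj ⟨t, ht⟩
  have hx' : (D.R.π x : G) = t := congrArg Subtype.val hx
  exact ⟨x, hx', fun v => by rw [← hx', lf_T]⟩

/-- linear elements are in `T` -/
theorem mem_T {g : G} (h : ∀ a, D.sg g a = a) : g ∈ T := by
  have h1 : D.sg g = RingEquiv.refl F := RingEquiv.ext h
  have h2 := D.spec g
  rw [h1] at h2
  obtain ⟨x, hx, -⟩ := Lf.mem_T D.cent h2
  rw [← hx]
  exact (D.R.π x).2

/-- the lift is faithful -/
theorem lf_inj {g : G} (h : ∀ v, (D.lf g).1 v = v) : g = 1 := by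
  obtain ⟨u, v, huv⟩ := exists_one D.nd D.ne
  have h1 : ∀ a, D.sg g a = a := by
    intro a
    have h2 := (D.spec g).form u (a • v)
    rw [h, h, map_smul, huv, smul_eq_mul, mul_one] at h2
    exact h2.symm
  obtain ⟨x, hx, hx2⟩ := D.exists_T (D.mem_T h1)
  have h3 : x = 1 := by
    apply Subtype.ext
    apply LinearEquiv.ext
    intro v
    rw [← hx2, h]
    rfl
  rw [← hx, h3, map_one]
  rfl

theorem lf_add (g : G) (u v : V) : (D.lf g).1 (u + v) = (D.lf g).1 u + (D.lf g).1 v := (D.spec g).add u v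

theorem lf_smul (g : G) (a : F) (v : V) : (D.lf g).1 (a • v) = D.sg g a • (D.lf g).1 v := (D.spec g).smul a v

theorem lf_form (g : G) (u v : V) : f ((D.lf g).1 u) ((D.lf g).1 v) = D.sg g (f u v) := (D.spec g).form u v

theorem lf_zero (g : G) : (D.lf g).1 0 = 0 := by
  have h := D.lf_smul g 0 0
  rwa [zero_smul, map_zero (D.sg g), zero_smul] at h

/-- the ring automorphisms of a finite field commute -/
theorem aut_comm (σ τ : F ≃+* F) (a : F) : σ (τ a) = τ (σ a) := by
  rcases eq_or_ne a 0 with rfl | ha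
  · simp
  obtain ⟨ζ, hζ⟩ := IsCyclic.exists_generator (α := Fˣ)
  obtain ⟨i, hi⟩ := hζ (Units.map (σ : F →* F) ζ)
  obtain ⟨j, hj⟩ := hζ (Units.map (τ : F →* F) ζ)
  obtain ⟨k, hk⟩ := hζ (Units.mk0 a ha)
  have e1 : Units.map (σ : F →* F) (Units.map (τ : F →* F) ζ) = Units.map (τ : F →* F) (Units.map (σ : F →* F) ζ) := by
    have hi' : ζ ^ i = Units.map (σ : F →* F) ζ := hi
    have hj' : ζ ^ j = Units.map (τ : F →* F) ζ := hj
    rw [← hi', ← hj', map_zpow, map_zpow, ← hi', ← hj', ← zpow_mul, ← zpow_mul, mul_comm]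
  have e2 : Units.map (σ : F →* F) (Units.map (τ : F →* F) (Units.mk0 a ha)) =
      Units.map (τ : F →* F) (Units.map (σ : F →* F) (Units.mk0 a ha)) := by
    have hk' : ζ ^ k = Units.mk0 a ha := hk
    rw [← hk', map_zpow, map_zpow, map_zpow, map_zpow, e1]
  exact congrArg Units.val e2

include D in
/-- commutators are in `T` -/
theorem comm_mem_T (g h : G) : g * h * g⁻¹ * h⁻¹ ∈ T := by
  apply D.mem_T
  intro a
  rw [sg_mul, sg_mul, sg_mul, aut_comm (D.sg h) (D.sg g⁻¹), sg_apply_inv, sg_apply_inv]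

/-! ### the action on the forms -/

/-- the action on the forms -/
noncomputable def ac (g : G) (q : V → F) : V → F := fun v => D.sg g (q ((D.lf g⁻¹).1 v))

theorem ac_apply (g : G) (q : V → F) (v : V) : D.ac g q ((D.lf g).1 v) = D.sg g (q v) := by
  rw [ac, lf_inv_apply]

theorem ac_one (q : V → F) : D.ac 1 q = q := by
  funext v
  rw [ac, sg_one, inv_one, lf_one_apply]

theorem ac_mul (g h : G) (q : V → F) : D.ac (g * h) q = D.ac g (D.ac h q) := by
  funext v
  rw [ac, ac, ac, sg_mul, mul_inv_rev, lf_mul_apply]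

theorem ac_isQ (g : G) {q : V → F} (hq : IsQ f q) : IsQ f (D.ac g q) where
  add x y := by
    rw [ac, ac, ac, lf_add, hq.add, map_add, map_add, lf_form, sg_apply_inv]
  smul a x := by
    rw [ac, ac, lf_smul, hq.smul, map_mul, map_pow, sg_apply_inv]

theorem ac_sh (g : G) (q : V → F) (w : V) : D.ac g (sh f q w) = sh f (D.ac g q) ((D.lf g).1 w) := by
  funext v
  rw [ac, sh_apply, sh_apply, map_add, map_pow, ac]
  have h1 := D.lf_form g w ((D.lf g⁻¹).1 v)
  rw [lf_apply_inv] at h1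
  rw [h1]

theorem ac_T (x : Iso (F := F) fun x y => f x y) (q : V → F) (v : V) : D.ac (D.R.π x : G) q (x.1 v) = q v := by
  have h := D.ac_apply (D.R.π x : G) q v
  rw [lf_T, sg_T D (D.R.π x).2] at h
  exact h

theorem ac_eq_of_T {t : G} (x : Iso (F := F) fun x y => f x y) (hx : (D.R.π x : G) = t) {q q' : V → F}
    (h : ∀ v, q' (x.1 v) = q v) : D.ac t q = q' := by
  funext v
  obtain ⟨v, rfl⟩ := x.1.surjective v
  rw [← hx, ac_T, h]

end Sd

end Cfsg.Agent.H383.Rg
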