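import Cfsg.Agent.H383.Rg.Forms

/-!
# S3691, case C-: two orthogonal groups generate the symplectic group (helper383)

* `E_semi` : `E(q)` under semilinear bijections
* `all_tv` : a group containing `Ω(q)` and `Ω(q + f(w, .)²)`, `w ≠ 0`, contains all transvections
-/

set_option autoImplicit false
set_option linter.unusedSectionVars false

namespace Cfsg.Agent.H383.Rg

open Module QuadraticMap
open Cfsg.Agent.LieClassical.OrthCore Cfsg.Agent.LieClassical.OrthTrans
open Cfsg.Agent.BpCl (Iso)

section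

variable {F V : Type*} [Field F] [Finite F] [CharP F 2] [AddCommGroup V] [Module F V]
  {f : LinearMap.BilinForm F V}

variable (F) in
include F in
theorem vneg (x : V) : -x = x := by
  have h := vadd_self F x
  exact (eq_neg_of_add_eq_zero_left h).symm

variable (F) in
include F in
theorem vsub (x y : V) : x - y = x + y := by rw [sub_eq_add_neg, vneg F]

/-- the Siegel transformation in characteristic 2 -/
theorem sgl_apply {q : V → F} (hq : IsQ f q) {u w : V} (hu : hq.toQ u = 0) (hw : polar hq.toQ u w = 0) (v : V) :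
    siegel hq.toQ u w hu hw v = v + f u v • w + f w v • u + (q w * f u v) • u := by
  rw [siegel_apply, hq.polar, hq.polar, vsub F, vsub F]
  rfl

theorem exists_sq (a : F) : ∃ b : F, b ^ 2 = a := by
  have hperf : Function.Bijective (fun a : F => a ^ 2) := by
    rw [← Finite.injective_iff_bijective]
    intro a b hab
    have h1 : (a + b) ^ 2 = 0 := by
      rw [sq_add, show a ^ 2 = b ^ 2 from hab, add_self']
    have h2 := pow_eq_zero_iff (two_ne_zero) |>.1 h1
    exact (CharTwo.add_eq_zero).1 h2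
  exact hperf.2 a

/-- `E(q)` under a semilinear bijection -/
theorem E_semi {σ : F ≃+* F} {M : Equiv.Perm V} (hM1 : ∀ u v, M (u + v) = M u + M v)
    (hM2 : ∀ (a : F) v, M (a • v) = σ a • M v) (hM3 : ∀ u v, f (M u) (M v) = σ (f u v)) {q q' : V → F}
    (hq : IsQ f q) (hq' : IsQ f q') (h : ∀ v, q' (M v) = σ (q v)) :
    ∀ s ∈ E hq.toQ, ∃ s' ∈ E hq'.toQ, ∀ v, s' (M v) = M (s v) := by
  intro s hs
  rw [E] at hs
  induction hs using Subgroup.closure_induction with
  | mem s hs =>
    obtain ⟨u, w, hu, hw, rfl⟩ := hs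
    have hu' : hq'.toQ (M u) = 0 := by
      rw [hq'.toQ_apply, h, ← hq.toQ_apply, hu, map_zero]
    have hw' : polar hq'.toQ (M u) (M w) = 0 := by
      rw [hq'.polar, hM3, ← hq.polar, hw, map_zero]
    refine ⟨_, siegel_mem_E hu' hw', fun v => ?_⟩
    rw [sgl_apply, sgl_apply, hM1, hM1, hM1, hM2, hM2, hM2, hM3, hM3, h, map_mul]
  | one => exact ⟨1, one_mem _, fun v => rfl⟩
  | mul a b _ _ ha hb =>
    obtain ⟨a', ha', ea⟩ := ha
    obtain ⟨b', hb', eb⟩ := hb
    refine ⟨a' * b', mul_mem ha' hb', fun v => ?_⟩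
    change a' (b' (M v)) = M (a (b v))
    rw [eb, ea]
  | inv a _ ha =>
    obtain ⟨a', ha', ea⟩ := ha
    refine ⟨a'⁻¹, inv_mem ha', fun v => ?_⟩
    have h1 := ea (a⁻¹ v)
    have h2 : a (a⁻¹ v) = v := a.apply_symm_apply v
    rw [h2] at h1
    rw [← h1]
    exact a'.symm_apply_apply _

/-- the quotient of two Siegel transformations is a transvection -/
theorem tv_of_siegel (hA : ∀ v, f v v = 0) {q : V → F} (hq : IsQ f q) {L : Subgroup (V ≃ₗ[F] V)} {w : V}
    (h1 : E hq.toQ ≤ L) (h2 : E (hq.sh w).toQ ≤ L) (hnd : ∀ u, (∀ v, f u v = 0) → u = 0) {u : V} (hu : q u = 0)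
    (hw : f w u = 0) (hind : ∀ c : F, w ≠ c • u) (c : F) : tv hA u c ∈ L := by
  obtain ⟨y, hy1, hy2⟩ := exists_sep (hq.nondeg hnd) hind
  rw [hq.polar] at hy1 hy2
  obtain ⟨a, ha⟩ := exists_sq c
  have hz : f u (a • y) = 0 := by rw [map_smul, hy1, smul_zero]
  have hu1 : hq.toQ u = 0 := hu
  have hu2 : (hq.sh w).toQ u = 0 := by
    change q u + f w u ^ 2 = 0
    rw [hu, hw]
    ring
  have hw1 : polar hq.toQ u (a • y) = 0 := by rw [hq.polar, hz]
  have hw2 : polar (hq.sh w).toQ u (a • y) = 0 := by rw [(hq.sh w).polar, hz]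
  have e : siegel hq.toQ u (a • y) hu1 hw1 * siegel (hq.sh w).toQ u (a • y) hu2 hw2 = tv hA u c := by
    apply LinearEquiv.ext
    intro v
    change siegel hq.toQ u (a • y) hu1 hw1 (siegel (hq.sh w).toQ u (a • y) hu2 hw2 v) = _
    rw [sgl_apply, sgl_apply, tv_apply]
    obtain ⟨z, hzdef⟩ : ∃ z, z = a • y := ⟨_, rfl⟩
    rw [← hzdef] at hz ⊢
    have hwz : f w z = a := by rw [hzdef, map_smul, hy2, smul_eq_mul, mul_one]
    have e1 : f u (v + f u v • z + f z v • u + (sh f q w z * f u v) • u) = f u v := by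
      rw [map_add, map_add, map_add, map_smul, map_smul, map_smul, hz, hA]
      simp
    have e2 : f z (v + f u v • z + f z v • u + (sh f q w z * f u v) • u) = f z v := by
      rw [map_add, map_add, map_add, map_smul, map_smul, map_smul, symm_of_alt hA z u, hz, hA]
      simp
    rw [e1, e2, sh_apply, hwz, ha]
    have e3 := vadd_self F (f u v • z)
    have e4 := vadd_self F (f z v • u)
    have e5 := vadd_self F ((q z * f u v) • u)
    have e6 : ((q z + c) * f u v) • u = (q z * f u v) • u + (c * f u v) • u := by rw [add_mul, add_smul]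
    rw [e6]
    calc v + f u v • z + f z v • u + ((q z * f u v) • u + (c * f u v) • u) + f u v • z + f z v • u + (q z * f u v) • u
        = v + (f u v • z + f u v • z) + (f z v • u + f z v • u) + ((q z * f u v) • u + (q z * f u v) • u) +
          (c * f u v) • u := by abel
      _ = v + (c * f u v) • u := by rw [e3, e4, e5]; simp
  rw [← e]
  exact mul_mem (h1 (siegel_mem_E _ _)) (h2 (siegel_mem_E _ _))

/-- `E(Q)` is transitive on the singular points -/
theorem trans_pt {Q : QuadraticForm F V} (hQ : Nondeg Q) (hd : 3 ≤ finrank F V) {u y : V} (hu : Q u = 0) (hy : Q y = 0)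
    (hu0 : u ≠ 0) (hy0 : y ≠ 0) : ∃ g ∈ E Q, ∃ c : F, c ≠ 0 ∧ g u = c • y := by
  by_cases h0 : polar Q u y = 0
  · by_cases hind : ∀ c : F, u ≠ c • (y - u)
    · obtain ⟨g, hg, e⟩ := exists_siegel_of_orth hQ hu hy h0 hind
      exact ⟨g, hg, 1, one_ne_zero, by rw [e, one_smul]⟩
    · push Not at hind
      obtain ⟨c, hc⟩ := hind
      have h1 : (1 + c) • u = c • y := by
        rw [add_smul, one_smul]
        nth_rw 1 [hc]
        rw [smul_sub]
        abel
      by_cases hc1 : 1 + c = 0
      · rw [hc1, zero_smul] at h1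
        rcases smul_eq_zero.1 h1.symm with h2 | h2
        · rw [h2, add_zero] at hc1
          exact absurd hc1 one_ne_zero
        · exact absurd h2 hy0
      · have h2 : u = ((1 + c)⁻¹ * c) • y := by
          rw [mul_smul, ← h1, smul_smul, inv_mul_cancel₀ hc1, one_smul]
        refine ⟨1, one_mem _, _, ?_, h2⟩
        intro h3
        rw [h3, zero_smul] at h2
        exact hu0 h2
  · -- a hyperbolic pair
    have hyp : Hyp Q u ((polar Q u y)⁻¹ • y) := ⟨hu, by rw [QuadraticMap.map_smul, hy, smul_zero], by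
      rw [polar_smul_right, smul_eq_mul, inv_mul_cancel₀ h0]⟩
    obtain ⟨a, c, xa, ya, xc, yc, hac⟩ := exists_perp2 hQ hd hyp
    obtain ⟨z, hz, xz, yz⟩ : ∃ z, Q z ≠ 0 ∧ polar Q u z = 0 ∧ polar Q ((polar Q u y)⁻¹ • y) z = 0 := by
      rcases exists_nonsing hac with h | h | h
      · exact ⟨a, h, xa, ya⟩
      · exact ⟨c, h, xc, yc⟩
      · exact ⟨a + c, h, by rw [polar_add_right, xa, xc, add_zero], by rw [polar_add_right, ya, yc, add_zero]⟩
    set y' := (polar Q u y)⁻¹ • y with hy'
    obtain ⟨v, hv⟩ : ∃ v, v = u + z - Q z • y' := ⟨_, rfl⟩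
    have hvQ : Q v = 0 := by rw [hv]; exact sing_vec hyp xz yz
    have hvu : polar Q v u = -Q z := by
      rw [hv, polar_sub_left, polar_add_left, polar_smul_left, polar_self_of_sing hu, polar_comm Q z u, xz, hyp.pair']
      simp
    have hvy : polar Q v y' = 1 := by
      rw [hv, polar_sub_left, polar_add_left, polar_smul_left, polar_self_of_sing hyp.right, polar_comm Q z y', yz, hyp.pair]
      simp
    have hne : polar Q v u ≠ 0 := by rw [hvu]; exact neg_ne_zero.2 hz
    have hyp1 : Hyp Q v ((polar Q v u)⁻¹ • u) := ⟨hvQ, by rw [QuadraticMap.map_smul, hu, smul_zero], by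
      rw [polar_smul_right, smul_eq_mul, inv_mul_cancel₀ hne]⟩
    have hyp2 : Hyp Q v y' := ⟨hvQ, hyp.right, hvy⟩
    obtain ⟨g, hg, -, e⟩ := siegel_partner hyp1 hyp2
    refine ⟨g, hg, polar Q v u * (polar Q u y)⁻¹, mul_ne_zero hne (inv_ne_zero h0), ?_⟩
    rw [map_smul, inv_smul_eq_iff₀ hne] at e
    rw [e, hy', smul_smul]

/-- from one centre to all -/
theorem all_of_one (hA : ∀ v, f v v = 0) {q : V → F} (hq : IsQ f q) {L : Subgroup (V ≃ₗ[F] V)}
    (h1 : E hq.toQ ≤ L) (hnd : ∀ u, (∀ v, f u v = 0) → u = 0) (hd : 3 ≤ finrank F V) {u : V} (hu : q u = 0)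
    (hu0 : u ≠ 0) (hc : ∀ c, tv hA u c ∈ L) (v : V) (c : F) : tv hA v c ∈ L := by
  -- transport
  have hEf : ∀ g ∈ E hq.toQ, ∀ x y, f (g x) (g y) = f x y := by
    intro g hg x y
    rw [← hq.polar, ← hq.polar, polar_map (E_le_O hg)]
  have htr : ∀ g ∈ L, (∀ x y, f (g x) (g y) = f x y) → ∀ v, (∀ c, tv hA v c ∈ L) → ∀ c, tv hA (g v) c ∈ L := by
    intro g hg hgf v hv c
    have e : tv hA (g v) c = g * tv hA v c * g⁻¹ := by
      rw [eq_mul_inv_iff_mul_eq]
      apply LinearEquiv.ext
      intro x
      change tv hA (g v) c (g x) = g (tv hA v c x)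
      rw [tv_apply, tv_apply, hgf, map_add, map_smul]
    rw [e]
    exact mul_mem (mul_mem hg (hv c)) (inv_mem hg)
  have hsm : ∀ (v : V) (a : F), (∀ c, tv hA v c ∈ L) → ∀ c, tv hA (a • v) c ∈ L := by
    intro v a hv c
    have e : tv hA (a • v) c = tv hA v (c * a ^ 2) := by
      apply LinearEquiv.ext
      intro x
      rw [tv_apply, tv_apply, map_smul, LinearMap.smul_apply, smul_eq_mul, smul_smul]
      congr 2
      ring
    rw [e]
    exact hv _
  have hadd : ∀ v1 v2 : V, (∀ c, tv hA v1 c ∈ L) → (∀ c, tv hA v2 c ∈ L) → f v1 v2 ≠ 0 → ∀ a : F,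
      ∀ c, tv hA (v2 + a • v1) c ∈ L := by
    intro v1 v2 h1 h2 h3 a
    have e : tv hA v1 (a * (f v1 v2)⁻¹) v2 = v2 + a • v1 := by
      rw [tv_apply, mul_assoc, inv_mul_cancel₀ h3, mul_one]
    rw [← e]
    exact htr _ (h1 _) (fun x y => tv_mem hA v1 _ x y) v2 h2
  -- singular vectors
  have hsing : ∀ y : V, q y = 0 → ∀ c, tv hA y c ∈ L := by
    intro y hy
    by_cases hy0 : y = 0
    · subst hy0
      intro c
      have : tv hA (0 : V) c = 1 := by
        apply LinearEquiv.ext
        intro x
        rw [tv_apply, smul_zero, add_zero]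
        rfl
      rw [this]
      exact one_mem L
    · obtain ⟨g, hg, a, ha, e⟩ := trans_pt (hq.nondeg hnd) hd hu hy hu0 hy0
      have e' : y = a⁻¹ • g u := by rw [e, smul_smul, inv_mul_cancel₀ ha, one_smul]
      rw [e']
      exact hsm _ _ (htr g (h1 hg) (hEf g hg) u hc)
  by_cases hv0 : v = 0
  · rw [hv0]
    exact hsing 0 hq.zero c
  · obtain ⟨y, hy⟩ := exists_hyp (hq.nondeg hnd) (show hq.toQ u = 0 from hu) hu0
    obtain ⟨x', y', hyp, e⟩ := exists_hyp_decomp (hq.nondeg hnd) hy hv0
    rw [e]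
    refine hadd y' x' (hsing _ hyp.right) (hsing _ hyp.left) ?_ _ c
    have := hyp.pair'
    rw [hq.polar] at this
    rw [this]
    exact one_ne_zero

/-- **two orthogonal groups** -/
theorem all_tv (hA : ∀ v, f v v = 0) {q : V → F} (hq : IsQ f q) {L : Subgroup (V ≃ₗ[F] V)} {w : V} (hw : w ≠ 0)
    (h1 : E hq.toQ ≤ L) (h2 : E (hq.sh w).toQ ≤ L) (hnd : ∀ u, (∀ v, f u v = 0) → u = 0) (hd : 4 ≤ finrank F V)
    (hg : 2 < Nat.card F ∨ ∀ x y, Hyp hq.toQ x y → ∃ s, s ≠ 0 ∧ q s = 0 ∧ f x s = 0 ∧ f y s = 0) (v : V) (c : F) :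
    tv hA v c ∈ L := by
  have hQ := hq.nondeg hnd
  -- a nonsingular `w`
  have key : ∀ w : V, q w ≠ 0 → E (hq.sh w).toQ ≤ L → tv hA v c ∈ L := by
    intro w hw0 h2
    have hwne : w ≠ 0 := by rintro rfl; exact hw0 hq.zero
    obtain ⟨r, hr⟩ := hQ.exists_polar_ne hwne
    obtain ⟨p, hp0, hp⟩ := exists_perp_ne (Q := hq.toQ) ![w, r] (by omega)
    have hwp : f w p = 0 := by rw [← hq.polar]; exact hp 0
    have hrp : f r p = 0 := by rw [← hq.polar]; exact hp 1
    rw [hq.polar] at hr
    obtain ⟨a, ha⟩ := exists_sq (q p / q w)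
    have hind : ∀ b : F, w ≠ b • (a • w + p) := by
      intro b hb
      have h3 := congrArg (fun x => f r x) hb
      simp only [map_smul, map_add, hrp, smul_eq_mul, add_zero] at h3
      rw [symm_of_alt hA r w] at h3
      have h4 : (1 - b * a) * f w r = 0 := by linear_combination h3
      have h5 := (mul_eq_zero.1 h4).resolve_right hr
      have h6 : b • p = 0 := by
        have h7 : b • p = (1 - b * a) • w := by
          rw [sub_smul, one_smul, mul_smul]
          nth_rw 1 [hb]
          rw [smul_add]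
          abel
        rw [h7, h5, zero_smul]
      rcases smul_eq_zero.1 h6 with h7 | h7
      · rw [h7, zero_mul, sub_zero] at h5
        exact one_ne_zero h5
      · exact hp0 h7
    have hu : q (a • w + p) = 0 := by
      rw [hq.add, hq.smul, map_smul, LinearMap.smul_apply, hwp, smul_zero, add_zero, ha, div_mul_cancel₀ _ hw0, add_self']
    have hwu : f w (a • w + p) = 0 := by rw [map_add, map_smul, hA, hwp, smul_zero, add_zero]
    refine all_of_one hA hq h1 hnd (by omega) hu ?_ (tv_of_siegel hA hq h1 h2 hnd hu hwu hind) v c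
    intro h3
    have := hind 0
    rw [h3, smul_zero] at this
    have h4 : p = -(a • w) := eq_neg_of_add_eq_zero_right h3
    apply hp0
    have h5 : f r p = 0 := hrp
    rw [h4, map_neg, map_smul, smul_eq_mul, symm_of_alt hA r w] at h5
    have h6 : a = 0 := by
      rcases mul_eq_zero.1 (neg_eq_zero.1 h5) with h7 | h7
      · exact h7
      · exact absurd h7 hr
    rw [h4, h6, zero_smul, neg_zero]
  by_cases hw0 : q w = 0
  · by_cases hgood : ∃ s, s ≠ 0 ∧ q s = 0 ∧ f w s = 0 ∧ ∀ b : F, w ≠ b • s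
    · obtain ⟨s, hs0, hs1, hs2, hs3⟩ := hgood
      exact all_of_one hA hq h1 hnd (by omega) hs1 hs0 (tv_of_siegel hA hq h1 h2 hnd hs1 hs2 hs3) v c
    · have hF : 2 < Nat.card F := by
        rcases hg with h | h
        · exact h
        · exfalso
          apply hgood
          obtain ⟨y, hy⟩ := exists_hyp hQ (show hq.toQ w = 0 from hw0) hw
          obtain ⟨s, hs0, hs1, hs2, hs3⟩ := h w y hy
          refine ⟨s, hs0, hs1, hs2, fun b hb => ?_⟩
          have h3 := hy.pair
          rw [hq.polar, hb, map_smul, LinearMap.smul_apply, symm_of_alt hA s y, hs3, smul_zero] at h3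
          exact zero_ne_one h3
      -- the trick
      have hqw := hq.sh w
      have hw1 : sh f q w w = 0 := by
        rw [sh_apply, hw0, hA]
        ring
      obtain ⟨y, hy⟩ := exists_hyp (hqw.nondeg hnd) (show hqw.toQ w = 0 from hw1) hw
      obtain ⟨a, c', xa, ya, xc, yc, hac⟩ := exists_perp2 (hqw.nondeg hnd) (by omega) hy
      obtain ⟨z, hz, xz, yz⟩ : ∃ z, hqw.toQ z ≠ 0 ∧ polar hqw.toQ w z = 0 ∧ polar hqw.toQ y z = 0 := by
        rcases exists_nonsing hac with h | h | h
        · exact ⟨a, h, xa, ya⟩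
        · exact ⟨c', h, xc, yc⟩
        · exact ⟨a + c', h, by rw [polar_add_right, xa, xc, add_zero], by rw [polar_add_right, ya, yc, add_zero]⟩
      obtain ⟨b, hb0, hb1⟩ : ∃ b : F, b ≠ 0 ∧ b ≠ 1 := by
        by_contra hcon
        push Not at hcon
        have h3 : (Set.univ : Set F) ⊆ {0, 1} := by
          intro x _
          by_cases hx : x = 0
          · exact Or.inl hx
          · exact Or.inr (hcon x hx)
        have h4 := Set.ncard_le_ncard h3 (Set.toFinite _)
        have h5 := Set.ncard_insert_le (0 : F) {1}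
        rw [Set.ncard_univ] at h4
        rw [Set.ncard_singleton] at h5
        omega
      rw [hqw.polar] at xz yz
      obtain ⟨t, ht⟩ := exists_sq (b / sh f q w z)
      have hz' : sh f q w z ≠ 0 := hz
      -- the element `g`
      have hyw : f y w = 1 := by rw [symm_of_alt hA, ← hqw.polar]; exact hy.pair
      have e1 : polar hqw.toQ y (t • z) = 0 := by rw [hqw.polar, map_smul, yz, smul_zero]
      obtain ⟨g, hg⟩ : ∃ g, g = siegel hqw.toQ y (t • z) hy.right e1 := ⟨_, rfl⟩
      have hgE : g ∈ E hqw.toQ := by rw [hg]; exact siegel_mem_E _ _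
      have hgO := E_le_O hgE
      have hqz : sh f q w (t • z) = b := by
        rw [hqw.smul, ht, div_mul_cancel₀ _ hz']
      have hgw : g w = w + t • z + b • y := by
        rw [hg, sgl_apply, hyw, hqz, map_smul, LinearMap.smul_apply, symm_of_alt hA z w, xz, smul_zero, zero_smul, one_smul,
          mul_one, add_zero]
      have hgf : ∀ x y, f (g x) (g y) = f x y := by
        intro x y
        rw [← hqw.polar, ← hqw.polar, polar_map hgO]
      -- `E(q + f(w + g w)²) ≤ L`
      have h3 : E (hq.sh (w + g w)).toQ ≤ L := by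
        intro s hs
        have h4 := E_semi (σ := RingEquiv.refl F) (M := (g⁻¹ : V ≃ₗ[F] V).toEquiv) (f := f)
          (fun u v => map_add (g⁻¹) u v) (fun a v => map_smul (g⁻¹) a v)
          (fun u v => by
            change f (g⁻¹ u) (g⁻¹ v) = f u v
            have e : ∀ w, g (g⁻¹ w) = w := fun w => g.apply_symm_apply w
            rw [← hgf, e, e]) (hq.sh (w + g w)) hq (fun v => by
            change q (g⁻¹ v) = sh f q (w + g w) v
            have e : ∀ w, g (g⁻¹ w) = w := fun w => g.apply_symm_apply w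
            have h5 : sh f q w (g (g⁻¹ v)) = sh f q w (g⁻¹ v) := hgO (g⁻¹ v)
            rw [e, sh_apply, sh_apply] at h5
            rw [sh_apply, map_add, LinearMap.add_apply, sq_add]
            have h6 : f (g w) v = f w (g⁻¹ v) := by
              rw [← hgf w, e]
            rw [h6]
            have h7 := add_self' (f w (g⁻¹ v) ^ 2)
            linear_combination -h5 - h7) s hs
        obtain ⟨s', hs', e⟩ := h4
        have e2 : s = g * s' * g⁻¹ := by
          rw [eq_mul_inv_iff_mul_eq]
          apply LinearEquiv.ext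
          intro x
          change s (g x) = g (s' x)
          have h5 := e (g x)
          change s' (g⁻¹ (g x)) = g⁻¹ (s (g x)) at h5
          have e3 : g⁻¹ (g x) = x := g.symm_apply_apply x
          rw [e3] at h5
          rw [h5]
          exact (g.apply_symm_apply _).symm
        rw [e2]
        exact mul_mem (mul_mem (h2 hgE) (h1 hs')) (inv_mem (h2 hgE))
      refine key _ ?_ h3
      rw [hgw]
      have e4 : w + (w + t • z + b • y) = t • z + b • y := by
        rw [← add_assoc, ← add_assoc, vadd_self F w, zero_add]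
      rw [e4]
      have e5 : q (t • z) = b := by
        have h5 := hqz
        rw [sh_apply, map_smul, xz, smul_zero] at h5
        rw [← h5]
        ring
      have e6 : q y = 1 := by
        have h5 : sh f q w y = 0 := hy.right
        have h6 : f w y = 1 := by rw [symm_of_alt hA, hyw]
        rw [sh_apply, h6] at h5
        have h7 := add_self' (1 : F)
        linear_combination h5 - h7
      have e7 : f z y = 0 := by rw [symm_of_alt hA]; exact yz
      rw [hq.add, hq.smul b y, e5, e6, map_smul (f (t • z)), map_smul f, LinearMap.smul_apply, e7, smul_zero, smul_zero,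
        add_zero, mul_one]
      intro h5
      have h6 : b * (1 + b) = 0 := by linear_combination h5
      rcases mul_eq_zero.1 h6 with h7 | h7
      · exact hb0 h7
      · apply hb1
        exact (CharTwo.add_eq_zero.1 h7).symm
  · exact key w hw0 h2

end

end Cfsg.Agent.H383.Rg
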