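import Cfsg.Agent.H117.Rg.Wt

/-!
# S3691: the final step (alpha) (helper383)
-/

set_option autoImplicit false

namespace Cfsg.Agent.H383.Rg

open Module
open scoped Matrix

section Coord

variable {F U : Type*} [Field F] [AddCommGroup U] [Module F U]

/-- the matrix `A` in the coordinates `e` -/
noncomputable def gm (e : U ≃ₗ[F] (Fin 2 → F)) : Matrix.SpecialLinearGroup (Fin 2) F →* (U ≃ₗ[F] U) where
  toFun A := e.trans ((Matrix.SpecialLinearGroup.toLin' A).trans e.symm)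
  map_one' := by
    ext u
    simp
  map_mul' A B := by
    ext u
    simp [Matrix.SpecialLinearGroup.toLin'_apply]

theorem gm_apply (e : U ≃ₗ[F] (Fin 2 → F)) (A : Matrix.SpecialLinearGroup (Fin 2) F) (u : U) :
    e (gm e A u) = (A : Matrix (Fin 2) (Fin 2) F) *ᵥ (e u) := by
  change e (e.symm (Matrix.SpecialLinearGroup.toLin' A (e u))) = _
  rw [e.apply_symm_apply]
  rfl

theorem det_gm (e : U ≃ₗ[F] (Fin 2 → F)) (A : Matrix.SpecialLinearGroup (Fin 2) F) :
    LinearEquiv.det (gm e A) = 1 := by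
  apply Units.ext
  rw [LinearEquiv.coe_det, Units.val_one]
  have h1 : ((gm e A : U ≃ₗ[F] U) : U →ₗ[F] U) = (e.symm : (Fin 2 → F) →ₗ[F] U) ∘ₗ
      (Matrix.toLin' (A : Matrix (Fin 2) (Fin 2) F)) ∘ₗ (e.symm.symm : U →ₗ[F] (Fin 2 → F)) := by
    ext u
    rfl
  rw [h1, LinearMap.det_conj, LinearMap.det_toLin', A.2]

theorem gm_zero (e : U ≃ₗ[F] (Fin 2 → F)) (a b c d : F) (h : (!![a, b; c, d] : Matrix (Fin 2) (Fin 2) F).det = 1) (u : U) :
    e (gm e ⟨!![a, b; c, d], h⟩ u) 0 = a * e u 0 + b * e u 1 := by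
  refine (congrFun (gm_apply e ⟨!![a, b; c, d], h⟩ u) 0).trans ?_
  change (!![a, b; c, d] : Matrix (Fin 2) (Fin 2) F) 0 ⬝ᵥ (e u) = _
  rw [dotProduct, Fin.sum_univ_two]
  rfl

theorem gm_one (e : U ≃ₗ[F] (Fin 2 → F)) (a b c d : F) (h : (!![a, b; c, d] : Matrix (Fin 2) (Fin 2) F).det = 1) (u : U) :
    e (gm e ⟨!![a, b; c, d], h⟩ u) 1 = c * e u 0 + d * e u 1 := by
  refine (congrFun (gm_apply e ⟨!![a, b; c, d], h⟩ u) 1).trans ?_
  change (!![a, b; c, d] : Matrix (Fin 2) (Fin 2) F) 1 ⬝ᵥ (e u) = _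
  rw [dotProduct, Fin.sum_univ_two]
  rfl

/-- the torus -/
def dg (F : Type*) [Field F] : Fˣ →* Matrix.SpecialLinearGroup (Fin 2) F where
  toFun θ := ⟨!![(θ : F), 0; 0, (θ : F)⁻¹], by simp [Matrix.det_fin_two]⟩
  map_one' := by
    apply Subtype.ext
    change !![((1 : Fˣ) : F), 0; 0, ((1 : Fˣ) : F)⁻¹] = 1
    rw [Units.val_one, inv_one, Matrix.one_fin_two]
  map_mul' θ η := by
    apply Subtype.ext
    change !![((θ * η : Fˣ) : F), 0; 0, ((θ * η : Fˣ) : F)⁻¹] = !![(θ : F), 0; 0, (θ : F)⁻¹] * !![(η : F), 0; 0, (η : F)⁻¹]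
    rw [Matrix.mul_fin_two, Units.val_mul, mul_inv]
    simp

theorem exists_coords [FiniteDimensional F U] (hU : Module.finrank F U = 2) :
    ∃ (e : U ≃ₗ[F] (Fin 2 → F)) (X : F → (U ≃ₗ[F] U)) (L : U ≃ₗ[F] U) (g : Fˣ →* (U ≃ₗ[F] U)),
      (∀ u u' : U, e u 0 = e u' 0 → e u 1 = e u' 1 → u = u') ∧
      (∀ t, LinearEquiv.det (X t) = 1) ∧ (∀ t u, e (X t u) 0 = e u 0 + t * e u 1) ∧ (∀ t u, e (X t u) 1 = e u 1) ∧
      (LinearEquiv.det L = 1) ∧ (∀ u, e (L u) 1 = e u 0 + e u 1) ∧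
      (∀ θ, LinearEquiv.det (g θ) = 1) ∧ (∀ θ u, e (g θ u) 0 = θ * e u 0) ∧ (∀ θ u, e (g θ u) 1 = (θ : F)⁻¹ * e u 1) := by
  let e : U ≃ₗ[F] (Fin 2 → F) := (Module.finBasisOfFinrankEq F U hU).equivFun
  refine ⟨e, fun t => gm e ⟨!![1, t; 0, 1], by simp [Matrix.det_fin_two]⟩,
    gm e ⟨!![1, 0; 1, 1], by simp [Matrix.det_fin_two]⟩, (gm e).comp (dg F), ?_, fun t => det_gm _ _,
    fun t u => ?_, fun t u => ?_, det_gm _ _, fun u => ?_, fun θ => det_gm _ _, fun θ u => ?_, fun θ u => ?_⟩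
  · intro u u' h0 h1
    apply e.injective
    ext i
    fin_cases i
    · exact h0
    · exact h1
  · exact (gm_zero e _ _ _ _ _ u).trans (by ring)
  · exact (gm_one e _ _ _ _ _ u).trans (by ring)
  · exact (gm_one e _ _ _ _ _ u).trans (by ring)
  · exact (gm_zero e _ _ _ _ _ u).trans (by ring)
  · exact (gm_one e _ _ _ _ _ u).trans (by ring)

end Coord

theorem exists_torus {p : ℕ} [Fact p.Prime] {F D G : Type*} [Field F] [Fintype F] [Group D] [Finite D]
    [Group G] (τ : D →* G) (hp : ¬ p ∣ Nat.card Fˣ) (h1 : 1 < Nat.card Fˣ) (hA : IsPGroup p τ.ker) (g : Fˣ →* G)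
    (hg : ∀ θ, ∃ x, τ x = g θ) : ∃ h : Fˣ →* D, ∀ θ, τ (h θ) = g θ := by
  obtain ⟨γ, hγ⟩ := IsCyclic.exists_generator (α := Fˣ)
  obtain ⟨l, hl⟩ := hg γ
  obtain ⟨m, hm⟩ := IsPGroup.iff_card.1 hA
  have hcop : Nat.Coprime (Nat.card τ.ker) (Nat.card Fˣ) := by
    rw [hm]
    exact Nat.Coprime.pow_left _ (((Nat.Prime.coprime_iff_not_dvd Fact.out).2 hp))
  obtain ⟨a, -, ha⟩ := Nat.exists_mul_mod_eq_one_of_coprime hcop h1
  have hord : orderOf γ = Nat.card Fˣ := orderOf_eq_card_of_forall_mem_zpowers hγ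
  have hγn : γ ^ Nat.card Fˣ = 1 := pow_card_eq_one'
  have hγk : γ ^ (Nat.card τ.ker * a) = γ := by
    rw [← Nat.div_add_mod (Nat.card τ.ker * a) (Nat.card Fˣ), ha, pow_add, pow_mul, hγn, one_pow, one_mul, pow_one]
  have hl1 : τ (l ^ (Nat.card τ.ker * a)) = g γ := by
    rw [map_pow, hl, ← map_pow, hγk]
  have hl2 : (l ^ (Nat.card τ.ker * a)) ^ Nat.card Fˣ = 1 := by
    have h2 : l ^ Nat.card Fˣ ∈ τ.ker := by
      rw [MonoidHom.mem_ker, map_pow, hl, ← map_pow, hγn, map_one]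
    have h3 : (l ^ Nat.card Fˣ) ^ Nat.card τ.ker = 1 :=
      congrArg Subtype.val (pow_card_eq_one' (x := (⟨_, h2⟩ : τ.ker)))
    rw [← pow_mul, mul_comm, pow_mul, pow_mul, h3, one_pow]
  refine ⟨monoidHomOfForallMemZpowers hγ (g' := l ^ (Nat.card τ.ker * a)) (by
    rw [hord]; exact orderOf_dvd_of_pow_eq_one hl2), fun θ => ?_⟩
  obtain ⟨i, rfl⟩ := hγ θ
  change τ (monoidHomOfForallMemZpowers hγ _ (γ ^ i)) = g (γ ^ i)
  rw [map_zpow, map_zpow, monoidHomOfForallMemZpowers_apply_gen, hl1, ← map_zpow]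

theorem card_smul {p b : ℕ} {F M : Type*} [Field F] [Fintype F] (hF : Fintype.card F = p ^ b) (hb : b ≠ 0)
    [Fintype Fˣ] [AddCommGroup M] (hM : ∀ m : M, p • m = 0) (m : M) : Fintype.card Fˣ • m = - m := by
  have h1 : (Fintype.card Fˣ + 1) • m = 0 := by
    have h2 : Fintype.card Fˣ + 1 = Fintype.card F := by
      have h3 : 0 < Nat.card F := Nat.card_pos
      rw [← Nat.card_eq_fintype_card, ← Nat.card_eq_fintype_card, Nat.card_units]
      omega
    rw [h2, hF]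
    obtain ⟨c, rfl⟩ := Nat.exists_eq_succ_of_ne_zero hb
    rw [pow_succ, mul_nsmul, hM]
  rw [add_nsmul, one_nsmul] at h1
  exact eq_neg_of_add_eq_zero_left h1

theorem exists_sec {p : ℕ} [Fact p.Prime] {V U : Type*} [AddCommGroup V] [Module (ZMod p) V] [AddCommGroup U]
    [Module (ZMod p) U] (pr : V →+ U) (hpr : Function.Surjective pr) : ∃ s0 : U →+ V, ∀ u, pr (s0 u) = u := by
  obtain ⟨g, hg⟩ := (pr.toZModLinearMap p).exists_rightInverse_of_surjective (LinearMap.range_eq_top.2 hpr)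
  exact ⟨g.toAddMonoidHom, fun u => LinearMap.congr_fun hg u⟩

theorem exists_sec' {p : ℕ} [Fact p.Prime] {V U : Type*} [AddCommGroup V] (hV : ∀ v : V, p • v = 0) [AddCommGroup U]
    (hUp : ∀ v : U, p • v = 0) (pr : V →+ U) (hpr : Function.Surjective pr) : ∃ s0 : U →+ V, ∀ u, pr (s0 u) = u :=
  @exists_sec p _ V U _ (AddCommGroup.zmodModule hV) _ (AddCommGroup.zmodModule hUp) pr hpr

/-- the averaged section -/
theorem exists_section {p b : ℕ} [Fact p.Prime] {F V U D : Type*} [Field F] [Fintype F] (hF : Fintype.card F = p ^ b)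
    (hb : b ≠ 0) [AddCommGroup V] (hV : ∀ v : V, p • v = 0) [AddCommGroup U] [Module F U]
    [Group D] [DistribMulAction D V] (pr : V →+ U) (hpr : Function.Surjective pr)
    (τ : D →* (U ≃ₗ[F] U)) (hτ : ∀ (x : D) (v : V), pr (x • v) = τ x (pr v)) (h : Fˣ →* D) :
    ∃ s : U →+ V, (∀ u, pr (s u) = u) ∧ ∀ θ u, s (τ (h θ) u) = h θ • s u := by
  classical
  have hUp : ∀ u : U, p • u = 0 := by
    intro u
    obtain ⟨v, rfl⟩ := hpr u
    rw [← map_nsmul, hV, map_zero]
  -- an additive section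
  obtain ⟨s0, hs0⟩ := exists_sec' hV hUp pr hpr
  let s : U →+ V := -∑ θ : Fˣ, (DistribSMul.toAddMonoidHom V (h θ)).comp
    (s0.comp ((τ (h θ))⁻¹ : U ≃ₗ[F] U).toLinearMap.toAddMonoidHom)
  have hs : ∀ u, s u = -∑ θ : Fˣ, h θ • s0 ((τ (h θ))⁻¹ u) := by
    intro u
    simp only [s, AddMonoidHom.neg_apply, AddMonoidHom.finsetSum_apply, AddMonoidHom.comp_apply]
    rfl
  refine ⟨s, fun u => ?_, fun θ u => ?_⟩
  · rw [hs, map_neg, map_sum]
    have h1 : ∀ θ : Fˣ, pr (h θ • s0 ((τ (h θ))⁻¹ u)) = u := by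
      intro θ
      rw [hτ, hs0]
      change ((τ (h θ)) * (τ (h θ))⁻¹) u = u
      rw [mul_inv_cancel]
      rfl
    rw [Finset.sum_congr rfl fun θ _ => h1 θ, Finset.sum_const, Finset.card_univ, card_smul hF hb hUp, neg_neg]
  · rw [hs, hs, smul_neg, Finset.smul_sum]
    congr 1
    rw [← Equiv.sum_comp (Equiv.mulLeft θ)]
    refine Finset.sum_congr rfl fun η _ => ?_
    rw [Equiv.coe_mulLeft, map_mul, mul_smul, map_mul]
    congr 3
    change ((τ (h θ) * τ (h η))⁻¹ * τ (h θ)) u = _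
    rw [mul_inv_rev, inv_mul_cancel_right]

/-- the recentred cocycle -/
theorem exists_recentre {p b : ℕ} {F V D : Type*} [Field F] [Fintype F] (hF : Fintype.card F = p ^ b)
    (hb : b ≠ 0) [AddCommGroup V] (hV : ∀ v : V, p • v = 0) [Group D] [DistribMulAction D V]
    (d : D → V) (hdc : ∀ x y : D, d (x * y) = d x + x • d y) (W : AddSubgroup V) (hd : ∀ x, d x ∈ W) (h : Fˣ →* D) :
    ∃ w0 ∈ W, ∀ θ, d (h θ) + h θ • w0 - w0 = 0 := by
  classical
  refine ⟨-∑ θ : Fˣ, d (h θ), W.neg_mem (W.sum_mem fun θ _ => hd _), fun θ => ?_⟩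
  have h1 : ∀ η : Fˣ, h θ • d (h η) = d (h (θ * η)) - d (h θ) := by
    intro η
    rw [map_mul, hdc]
    abel
  rw [smul_neg, Finset.smul_sum, Finset.sum_congr rfl fun η _ => h1 η, Finset.sum_sub_distrib,
    Finset.sum_const, Finset.card_univ, card_smul hF hb hV]
  have h2 : ∑ η : Fˣ, d (h (θ * η)) = ∑ η : Fˣ, d (h η) := Equiv.sum_comp (Equiv.mulLeft θ) (fun η => d (h η))
  rw [h2]
  abel


/-- the inverse of `v ↦ a₀ v - v` -/
theorem exists_M {V U D : Type*} [AddCommGroup V] [Finite V] [AddCommGroup U] [Group D] [DistribMulAction D V]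
    (pr : V →+ U) (hpr : Function.Surjective pr) (hcard : Nat.card pr.ker = Nat.card U) (a₀ : D)
    (hpa : ∀ v, pr (a₀ • v) = pr v) (hAtriv : ∀ w ∈ pr.ker, a₀ • w = w) (hnd : ∀ v : V, a₀ • v = v → v ∈ pr.ker) :
    ∃ M : V → U, (∀ v, M (a₀ • v - v) = pr v) ∧ ∀ w ∈ pr.ker, ∃ v, w = a₀ • v - v := by
  classical
  let n : V →+ V := DistribSMul.toAddMonoidHom V a₀ - AddMonoidHom.id V
  have hn : ∀ v, n v = a₀ • v - v := fun v => rfl
  have hker : n.ker = pr.ker := by
    ext v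
    rw [AddMonoidHom.mem_ker, hn, sub_eq_zero]
    exact ⟨hnd v, hAtriv v⟩
  have hrange : n.range = pr.ker := by
    have h1 : n.range ≤ pr.ker := by
      rintro _ ⟨v, rfl⟩
      rw [AddMonoidHom.mem_ker, hn, map_sub, hpa, sub_self]
    have h2 : Nat.card n.range = Nat.card pr.ker := by
      have e1 := AddSubgroup.card_mul_index n.ker
      have e2 := AddSubgroup.card_mul_index pr.ker
      rw [AddSubgroup.index_ker] at e1
      rw [AddSubgroup.index_ker, AddMonoidHom.range_eq_top.2 hpr, AddSubgroup.card_top] at e2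
      rw [hker, ← e2] at e1
      have h3 : 0 < Nat.card pr.ker := Nat.card_pos
      rw [Nat.eq_of_mul_eq_mul_left h3 e1, hcard]
    exact AddSubgroup.eq_of_le_of_card_ge h1 h2.ge
  refine ⟨fun w => if h : ∃ v, n v = w then pr h.choose else 0, fun v => ?_, fun w hw => ?_⟩
  · have h1 : ∃ v', n v' = a₀ • v - v := ⟨v, rfl⟩
    refine (dif_pos h1).trans ?_
    have h2 : h1.choose - v ∈ pr.ker := by
      rw [← hker, AddMonoidHom.mem_ker, map_sub, h1.choose_spec, hn, sub_self]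
    rw [AddMonoidHom.mem_ker, map_sub] at h2
    exact sub_eq_zero.1 h2
  · rw [← hrange] at hw
    obtain ⟨v, hv⟩ := hw
    exact ⟨v, hv.symm⟩

set_option linter.unusedVariables false in
/-- **the final step (alpha)** -/
theorem fin {p b : ℕ} [Fact p.Prime] {F : Type*} [Field F] [Fintype F] (hF : Fintype.card F = p ^ b) (h16 : 16 ≤ Fintype.card F)
    {V U D : Type*} [AddCommGroup V] [Finite V] (hV : ∀ v : V, p • v = 0) [AddCommGroup U] [Module F U] (hU : Module.finrank F U = 2)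
    [Group D] [Finite D] [DistribMulAction D V] (pr : V →+ U) (hpr : Function.Surjective pr)
    (τ : D →* (U ≃ₗ[F] U)) (hτ : ∀ (x : D) (v : V), pr (x • v) = τ x (pr v))
    (hdet : ∀ x : D, LinearEquiv.det (τ x) = 1) (hsurj : ∀ g : U ≃ₗ[F] U, LinearEquiv.det g = 1 → ∃ x : D, τ x = g)
    (hcard : Nat.card pr.ker = Nat.card U)
    (hApgrp : IsPGroup p τ.ker) (hAtriv : ∀ a ∈ τ.ker, ∀ w ∈ pr.ker, a • w = w) (hAcent : ∀ a ∈ τ.ker, ∀ x : D, a * x = x * a)
    (a₀ : D) (ha₀ : a₀ ∈ τ.ker) (hnd : ∀ v : V, a₀ • v = v → v ∈ pr.ker)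
    (d : D → V) (hd : ∀ x, d x ∈ pr.ker) (hdc : ∀ x y : D, d (x * y) = d x + x • d y)
    (hfree : ∀ u : U, u ≠ 0 → ∃ v : V, pr v = u ∧ ∀ x : D, x • v + d x = v → x = 1) : False := by
  classical
  have hp : p.Prime := Fact.out
  have hb : b ≠ 0 := by
    rintro rfl
    rw [pow_zero] at hF
    omega
  have hFu : Nat.card Fˣ = p ^ b - 1 := by rw [Nat.card_units, Nat.card_eq_fintype_card, hF]
  have hpu : ¬ p ∣ Nat.card Fˣ := by
    rw [hFu]
    intro h1
    have h2 : p ∣ p ^ b := dvd_pow_self p hb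
    have h3 := (Nat.dvd_sub_iff_right (show 1 ≤ p ^ b by omega) h2).1 h1
    exact hp.one_lt.ne' (Nat.dvd_one.1 h3)
  -- coordinates
  have hfd : FiniteDimensional F U := FiniteDimensional.of_finrank_pos (by omega)
  obtain ⟨e, X, L, g, hext, hXd, hX0, hX1, hLd, hL1, hgd, hg0, hg1⟩ := exists_coords (F := F) hU
  -- (1) the torus
  obtain ⟨h, hh⟩ := exists_torus τ hpu (by omega) hApgrp g (fun θ => hsurj _ (hgd θ))
  -- (2) the section
  obtain ⟨s, hs, hsh⟩ := exists_section hF hb hV pr hpr τ hτ h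
  obtain ⟨w0, hw0, hd0⟩ := exists_recentre hF hb hV d hdc pr.ker hd h
  -- the recentred cocycle
  obtain ⟨d', hd'⟩ : ∃ d' : D → V, ∀ x, d' x = d x + x • w0 - w0 := ⟨_, fun x => rfl⟩
  have hinv : ∀ (x : D), ∀ w ∈ pr.ker, x • w ∈ pr.ker := by
    intro x w hw
    rw [AddMonoidHom.mem_ker, hτ, AddMonoidHom.mem_ker.1 hw, map_zero]
  have hd'W : ∀ x, d' x ∈ pr.ker := fun x => by
    rw [hd']
    exact pr.ker.sub_mem (pr.ker.add_mem (hd x) (hinv x _ hw0)) hw0
  have hd'c : ∀ x y, d' (x * y) = d' x + x • d' y := by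
    intro x y
    rw [hd', hd', hd', hdc, mul_smul, smul_sub, smul_add]
    abel
  have hd'h : ∀ θ, d' (h θ) = 0 := fun θ => by rw [hd']; exact hd0 θ
  -- (3) the map `M`
  have hpa : ∀ v, pr (a₀ • v) = pr v := fun v => by
    rw [hτ, MonoidHom.mem_ker.1 ha₀]
    rfl
  obtain ⟨M, hM, hMs⟩ := exists_M pr hpr hcard a₀ hpa (hAtriv a₀ ha₀) hnd
  have hMadd : ∀ w ∈ pr.ker, ∀ w' ∈ pr.ker, M (w + w') = M w + M w' := by
    intro w hw w' hw'
    obtain ⟨v, rfl⟩ := hMs w hw
    obtain ⟨v', rfl⟩ := hMs w' hw'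
    have e1 : a₀ • v - v + (a₀ • v' - v') = a₀ • (v + v') - (v + v') := by
      rw [smul_add]
      abel
    rw [e1, hM, hM, hM, map_add]
  have hMsub : ∀ w ∈ pr.ker, ∀ w' ∈ pr.ker, M (w - w') = M w - M w' := by
    intro w hw w' hw'
    obtain ⟨v, rfl⟩ := hMs w hw
    obtain ⟨v', rfl⟩ := hMs w' hw'
    have e1 : a₀ • v - v - (a₀ • v' - v') = a₀ • (v - v') - (v - v') := by
      rw [smul_sub]
      abel
    rw [e1, hM, hM, hM, map_sub]
  have hMx : ∀ (x : D), ∀ w ∈ pr.ker, M (x • w) = τ x (M w) := by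
    intro x w hw
    obtain ⟨v, rfl⟩ := hMs w hw
    have e1 : x • (a₀ • v - v) = a₀ • (x • v) - x • v := by
      rw [smul_sub, ← mul_smul, ← hAcent a₀ ha₀, mul_smul]
    rw [e1, hM, hM, hτ]
  have hM0 : ∀ w ∈ pr.ker, M w = 0 → w = 0 := by
    intro w hw h0
    obtain ⟨v, rfl⟩ := hMs w hw
    rw [hM] at h0
    rw [hAtriv a₀ ha₀ v h0, sub_self]
  -- vectors fixed by `SL(U)`
  have hfix : ∀ m : U, (∀ x : D, τ x m = m) → m = 0 := by
    intro m hm
    obtain ⟨x, hx⟩ := hsurj (X 1) (hXd 1)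
    obtain ⟨y, hy⟩ := hsurj L hLd
    have h1 := hX0 1 m
    rw [← hx, hm, one_mul] at h1
    have h2 := hL1 m
    rw [← hy, hm] at h2
    have e1 : e m 1 = 0 := by linear_combination -h1
    have e0 : e m 0 = 0 := by linear_combination -h2
    apply hext
    · rw [e0, map_zero]; rfl
    · rw [e1, map_zero]; rfl
  -- `d'` is trivial on `A`
  have hd'A : ∀ a ∈ τ.ker, d' a = 0 := by
    intro a ha
    apply hM0 _ (hd'W a)
    apply hfix
    intro x
    rw [← hMx x _ (hd'W a)]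
    congr 1
    have h1 := hd'c a x
    rw [hAcent a ha, hd'c, hAtriv a ha _ (hd'W x)] at h1
    have : x • d' a = d' a := by
      have h2 : d' x + x • d' a = d' x + d' a := by rw [h1]; abel
      exact add_left_cancel h2
    exact this
  -- elements over `X t`
  have hψX : ∀ t x, τ x = X t → ∀ w ∈ pr.ker, e (M (x • w)) 1 = e (M w) 1 := by
    intro t x hx w hw
    rw [hMx x w hw, hx, hX1]
  have hprX : ∀ t v, e (pr v) 1 = 0 → X t (pr v) = pr v := by
    intro t v hv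
    apply hext
    · rw [hX0, hv, mul_zero, add_zero]
    · rw [hX1]
  -- the map `f x v = ψ (x v - v)`
  have hfW : ∀ t x v, τ x = X t → e (pr v) 1 = 0 → x • v - v ∈ pr.ker := by
    intro t x v hx hv
    rw [AddMonoidHom.mem_ker, map_sub, hτ, hx, hprX t v hv, sub_self]
  have hfA : ∀ a ∈ τ.ker, ∀ v, e (pr v) 1 = 0 → e (M (a • v - v)) 1 = 0 := by
    intro a ha v hv
    obtain ⟨x, hx⟩ := hsurj (X 1) (hXd 1)
    have haW : a • v - v ∈ pr.ker := by
      rw [AddMonoidHom.mem_ker, map_sub, hτ, MonoidHom.mem_ker.1 ha]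
      exact sub_self _
    have h1 : x • (a • v - v) = a • v - v := by
      have h2 := hfW 1 x v hx hv
      have h3 : a • (x • v - v) = x • v - v := hAtriv a ha _ h2
      rw [smul_sub, ← mul_smul, ← hAcent a ha, mul_smul]
      rw [smul_sub] at h3
      have h4 : a • x • v = x • v - v + a • v := by rw [← h3]; abel
      rw [h4]
      abel
    have h2 := hMx x _ haW
    rw [h1, hx] at h2
    have h3 := hX0 1 (M (a • v - v))
    rw [← h2, one_mul] at h3
    linear_combination -h3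
  have hfmul : ∀ t t' x y v, τ x = X t → τ y = X t' → e (pr v) 1 = 0 →
      e (M ((x * y) • v - v)) 1 = e (M (x • v - v)) 1 + e (M (y • v - v)) 1 := by
    intro t t' x y v hx hy hv
    have h1 := hfW t' y v hy hv
    have h2 := hfW t x v hx hv
    have e1 : (x * y) • v - v = x • (y • v - v) + (x • v - v) := by
      rw [mul_smul, smul_sub]
      abel
    rw [e1, hMadd _ (hinv x _ h1) _ h2, map_add, Pi.add_apply, hψX t x hx _ h1, add_comm]
  have hXadd : ∀ t t', X (t + t') = X t * X t' := by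
    intro t t'
    apply LinearEquiv.ext
    intro u
    apply hext
    · change _ = e (X t (X t' u)) 0
      rw [hX0, hX0, hX0, hX1]
      ring
    · change _ = e (X t (X t' u)) 1
      rw [hX1, hX1, hX1]
  -- choices
  choose xt hxt using fun t => hsurj (X t) (hXd t)
  have hfind : ∀ t x v, τ x = X t → e (pr v) 1 = 0 → e (M (x • v - v)) 1 = e (M (xt t • v - v)) 1 := by
    intro t x v hx hv
    have ha : x * (xt t)⁻¹ ∈ τ.ker := by
      rw [MonoidHom.mem_ker, map_mul, map_inv, hx, hxt, mul_inv_cancel]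
    have h1 : x • v - v = ((x * (xt t)⁻¹) • (xt t • v) - xt t • v) + (xt t • v - v) := by
      rw [← mul_smul, inv_mul_cancel_right]
      abel
    have hv' : e (pr (xt t • v)) 1 = 0 := by rw [hτ, hxt, hprX t v hv, hv]
    have h3 : (x * (xt t)⁻¹) • (xt t • v) - xt t • v ∈ pr.ker := by
      rw [AddMonoidHom.mem_ker, map_sub, hτ, MonoidHom.mem_ker.1 ha]
      exact sub_self _
    rw [h1, hMadd _ h3 _ (hfW t _ v (hxt t) hv), map_add, Pi.add_apply, hfA _ ha _ hv', zero_add]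
  have hdind : ∀ t x, τ x = X t → d' x = d' (xt t) := by
    intro t x hx
    have ha : x * (xt t)⁻¹ ∈ τ.ker := by
      rw [MonoidHom.mem_ker, map_mul, map_inv, hx, hxt, mul_inv_cancel]
    have h1 : x = (x * (xt t)⁻¹) * xt t := by rw [inv_mul_cancel_right]
    rw [h1, hd'c, hd'A _ ha, zero_add, hAtriv _ ha _ (hd'W _)]
  -- the first basis vector
  obtain ⟨e1, he10, he11⟩ : ∃ e1 : U, e e1 0 = 1 ∧ e e1 1 = 0 :=
    ⟨e.symm ![1, 0], by rw [e.apply_symm_apply]; rfl, by rw [e.apply_symm_apply]; rfl⟩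
  have hl1 : ∀ l : F, e (pr (s (l • e1))) 1 = 0 := by
    intro l
    rw [hs, map_smul, Pi.smul_apply, he11, smul_zero]
  -- conjugation by the torus
  have hconj : ∀ (θ : Fˣ) (t : F) x, τ x = X t → τ (h θ * x * (h θ)⁻¹) = X ((θ : F) ^ 2 * t) := by
    intro θ t x hx
    rw [map_mul, map_mul, map_inv, hh, hx, mul_inv_eq_iff_eq_mul]
    apply LinearEquiv.ext
    intro u
    have hθ : (θ : F) ≠ 0 := θ.ne_zero
    apply hext
    · change e (g θ (X t u)) 0 = e (X _ (g θ u)) 0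
      rw [hg0, hX0, hX0, hg0, hg1]
      field_simp
    · change e (g θ (X t u)) 1 = e (X _ (g θ u)) 1
      rw [hg1, hX1, hX1, hg1]
  have hZ : (fun l t => e (M (xt t • s (l • e1) - s (l • e1))) 1) = (0 : F → F → F) := by
    refine Cfsg.Agent.H117.Rg.biadd_zero (p := p) (b := b) hF (by rw [← hF]; exact h16) _ ?_ ?_ ?_
    · intro x y t
      have e2 : xt t • s ((x + y) • e1) - s ((x + y) • e1) =
          (xt t • s (x • e1) - s (x • e1)) + (xt t • s (y • e1) - s (y • e1)) := by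
        rw [add_smul, map_add, smul_add]
        abel
      change e (M (xt t • s ((x + y) • e1) - s ((x + y) • e1))) 1 = _
      rw [e2, hMadd _ (hfW t _ _ (hxt t) (hl1 x)) _ (hfW t _ _ (hxt t) (hl1 y)), map_add, Pi.add_apply]
    · intro x t t'
      rw [← hfind (t + t') (xt t * xt t') _ (by rw [map_mul, hxt, hxt, hXadd]) (hl1 x),
        hfmul t t' _ _ _ (hxt t) (hxt t') (hl1 x)]
    · intro u hu l t
      let θ : Fˣ := Units.mk0 u hu
      change u * e (M (xt (u ^ 2 * t) • s ((u * l) • e1) - s ((u * l) • e1))) 1 = e (M (xt t • s (l • e1) - s (l • e1))) 1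
      have h1 : s ((u * l) • e1) = h θ • s (l • e1) := by
        rw [← hsh]
        congr 1
        apply hext
        · rw [hh, hg0, map_smul, map_smul, Pi.smul_apply, Pi.smul_apply, he10, smul_eq_mul, smul_eq_mul]
          change u * l * 1 = u * (l * 1)
          ring
        · rw [hh, hg1, map_smul, map_smul, Pi.smul_apply, Pi.smul_apply, he11, smul_zero, smul_zero, mul_zero]
      rw [← hfind (u ^ 2 * t) (h θ * xt t * (h θ)⁻¹) _ (hconj θ t _ (hxt t)) (hl1 _), h1]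
      have h2 : (h θ * xt t * (h θ)⁻¹) • h θ • s (l • e1) - h θ • s (l • e1) = h θ • (xt t • s (l • e1) - s (l • e1)) := by
        rw [← mul_smul, inv_mul_cancel_right, mul_smul, smul_sub]
      rw [h2, hMx _ _ (hfW t _ _ (hxt t) (hl1 l)), hh, hg1]
      change u * (u⁻¹ * _) = _
      rw [← mul_assoc, mul_inv_cancel₀ hu, one_mul]
  have hZ' : (fun t => e (M (d' (xt t))) 1) = (0 : F → F) := by
    refine Cfsg.Agent.H117.Rg.add_zero_neg (p := p) (b := b) hF (by rw [← hF]; exact h16) _ ?_ ?_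
    · intro t t'
      rw [← hdind (t + t') (xt t * xt t') (by rw [map_mul, hxt, hxt, hXadd]), hd'c,
        hMadd _ (hd'W _) _ (hinv _ _ (hd'W _)), map_add, Pi.add_apply, hψX t _ (hxt t) _ (hd'W _)]
    · intro u hu t
      let θ : Fˣ := Units.mk0 u hu
      change u * e (M (d' (xt (u ^ 2 * t)))) 1 = e (M (d' (xt t))) 1
      rw [← hdind (u ^ 2 * t) (h θ * xt t * (h θ)⁻¹) (hconj θ t _ (hxt t)), hd'c, hd'c, hd'h, zero_add,
        ← map_inv, hd'h, smul_zero, add_zero, hMx _ _ (hd'W _), hh, hg1]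
      change u * (u⁻¹ * _) = _
      rw [← mul_assoc, mul_inv_cancel₀ hu, one_mul]
  -- (5) the free orbit
  obtain ⟨v, hv, hfr⟩ := hfree e1 (by
    rintro rfl
    rw [map_zero] at he10
    exact zero_ne_one he10)
  obtain ⟨v', hv'⟩ : ∃ v', v' = v - w0 := ⟨_, rfl⟩
  have hfr' : ∀ x, x • v' + d' x = v' → x = 1 := by
    intro x hx
    apply hfr
    rw [hv', hd', smul_sub] at hx
    have : x • v + d x = (x • v - x • w0 + (d x + x • w0 - w0)) + w0 := by abel
    rw [this, hx]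
    abel
  have hpv' : pr v' = e1 := by rw [hv', map_sub, AddMonoidHom.mem_ker.1 hw0, hv, sub_zero]
  have hinj : ∀ x y, x • v' + d' x = y • v' + d' y → x = y := by
    intro x y hxy
    have h1 : y⁻¹ * x = 1 := by
      apply hfr'
      have h2 : d' (y⁻¹ * y) = 0 := by
        rw [inv_mul_cancel]
        have := hd'h 1
        rwa [map_one] at this
      rw [hd'c] at h2
      rw [mul_smul, hd'c]
      have h3 : y⁻¹ • x • v' + (d' y⁻¹ + y⁻¹ • d' x) = y⁻¹ • (x • v' + d' x) + d' y⁻¹ := by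
        rw [smul_add]
        abel
      rw [h3, hxy, smul_add, inv_smul_smul]
      have h4 : v' + y⁻¹ • d' y + d' y⁻¹ = v' + (d' y⁻¹ + y⁻¹ • d' y) := by abel
      rw [h4, h2, add_zero]
    exact (inv_mul_eq_one.1 h1).symm
  -- the difference lies in `W0`
  have hW0 : ∀ t x, τ x = X t → x • v' + d' x - v' ∈ pr.ker ∧ e (M (x • v' + d' x - v')) 1 = 0 := by
    intro t x hx
    have hw' : v' - s e1 ∈ pr.ker := by rw [AddMonoidHom.mem_ker, map_sub, hpv', hs, sub_self]
    have hse : e (pr (s e1)) 1 = 0 := by rw [hs, he11]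
    have h1 : x • v' + d' x - v' = (x • s e1 - s e1) + (x • (v' - s e1) - (v' - s e1)) + d' x := by
      rw [smul_sub]
      abel
    have m1 := hfW t x _ hx hse
    have m2 := hinv x _ hw'
    have m3 := hd'W x
    have m4 := pr.ker.sub_mem m2 hw'
    refine ⟨?_, ?_⟩
    · rw [h1]
      exact pr.ker.add_mem (pr.ker.add_mem m1 m4) m3
    · rw [h1, hMadd _ (pr.ker.add_mem m1 m4) _ m3, hMadd _ m1 _ m4, hMsub _ m2 _ hw', map_add, map_add, map_sub,
        Pi.add_apply, Pi.add_apply, Pi.sub_apply, hψX t x hx _ hw', sub_self, add_zero, hfind t x _ hx hse, hdind t x hx]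
      have h2 := congrFun (congrFun hZ 1) t
      have h3 := congrFun hZ' t
      simp only [one_smul, Pi.zero_apply] at h2 h3
      rw [h2, h3, add_zero]
  -- counting
  have ha1 : a₀ ≠ 1 := by
    rintro rfl
    obtain ⟨w, hw⟩ := hpr e1
    have h1 := hnd w (one_smul _ _)
    rw [AddMonoidHom.mem_ker, hw] at h1
    rw [h1, map_zero] at he10
    exact zero_ne_one he10
  let x : Bool × F → D := fun i => (if i.1 then a₀ else 1) * xt i.2
  have hx : ∀ i, τ (x i) = X i.2 := by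
    rintro ⟨i, t⟩
    change τ ((if i then a₀ else 1) * xt t) = X t
    cases i
    · rw [if_neg (by decide), one_mul, hxt]
    · rw [if_pos rfl, map_mul, MonoidHom.mem_ker.1 ha₀, one_mul, hxt]
  let Φ : Bool × F → F := fun i => e (M (x i • v' + d' (x i) - v')) 0
  have hΦ : Function.Injective Φ := by
    rintro ⟨i, t⟩ ⟨j, t'⟩ hij
    obtain ⟨m1, n1⟩ := hW0 _ _ (hx (i, t))
    obtain ⟨m2, n2⟩ := hW0 _ _ (hx (j, t'))
    have h1 : M (x (i, t) • v' + d' (x (i, t)) - v') = M (x (j, t') • v' + d' (x (j, t')) - v') :=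
      hext _ _ hij (n1.trans n2.symm)
    have h2 := hM0 _ (pr.ker.sub_mem m1 m2) (by rw [hMsub _ m1 _ m2, h1, sub_self])
    have h3 : x (i, t) = x (j, t') := by
      apply hinj
      have h4 := sub_eq_zero.1 h2
      exact sub_left_injective h4
    have h5 : X t = X t' := by
      have h6 := hx (i, t)
      rw [h3, hx] at h6
      exact h6.symm
    have htt : t = t' := by
      obtain ⟨u, hu⟩ : ∃ u : U, e u = ![0, 1] := e.surjective _
      have h6 := hX0 t u
      have u0 : e u 0 = 0 := by rw [hu]; rfl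
      have u1 : e u 1 = 1 := by rw [hu]; rfl
      rw [h5, hX0, u0, u1] at h6
      linear_combination -h6
    subst htt
    have h6 : (if i then a₀ else 1) = (if j then a₀ else 1) := mul_right_cancel h3
    have hij' : i = j := by
      cases i <;> cases j
      · rfl
      · exact absurd h6.symm ha1
      · exact absurd h6 ha1
      · rfl
    rw [hij']
  have h1 := Fintype.card_le_of_injective Φ hΦ
  rw [Fintype.card_prod, Fintype.card_bool] at h1
  omega

end Cfsg.Agent.H383.Rg
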