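import Cfsg.Agent.H383.Rg.Cs
import Cfsg.Agent.H386.Rg.Alpha

/-!
# S3691, case C-: the final step (alpha) (helper383)

* `cent_of_small` : an element of order `r` centralises a normal 2-subgroup of order `< 2 ^ n`;
* `Cs.false` : the situation is impossible if `B ∩ T` contains an element of order `r` and an element trivial on `V / W`.
-/

set_option autoImplicit false
set_option linter.unusedSectionVars false

namespace Cfsg.Agent.H383.Rg

open Module QuadraticMap
open Cfsg.Agent.BpCl (Iso)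
open Cfsg.Agent.H454.Reg Cfsg.Agent.H449.Reg
open Cfsg.Agent.H934.ArfO (T_eq_zero T_sq exists_T_one)

local notation "Tr" => Cfsg.Agent.H934.ArfO.T

universe u v

/-- an element of order `r` centralises a small normal 2-subgroup -/
theorem cent_of_small {X : Type*} [Group X] [Finite X] {A : Subgroup X} (hAn : A.Normal) (hA : IsPGroup 2 A) {n r : ℕ}
    (hn : 0 < n) (hlt : Nat.card A < 2 ^ n) (hr : r.Prime) (hrn : orderOf (2 : ZMod r) = n) {y : X} (hy : y ^ r = 1)
    {a : X} (ha : a ∈ A) : y * a = a * y := by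
  classical
  have := Fact.mk hr
  have : Fact (Nat.Prime 2) := ⟨Nat.prime_two⟩
  have := Fintype.ofFinite A
  let g : Function.End A := fun a => ⟨y * a * y⁻¹, hAn.conj_mem a a.2 y⟩
  have hg : ∀ (m : ℕ) (a : A), ((g ^ m) a : X) = y ^ m * a * (y ^ m)⁻¹ := by
    intro m
    induction m with
    | zero => intro a; simp; rfl
    | succ m ih =>
      intro a
      rw [pow_succ]
      have h1 := ih (g a)
      have h2 : ((g ^ m * g) a : X) = ((g ^ m) (g a) : X) := rfl
      rw [h2, h1]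
      change y ^ m * (y * a * y⁻¹) * (y ^ m)⁻¹ = _
      rw [pow_succ]
      group
  have h1 := Equiv.Perm.card_fixedPoints_modEq (f := g) (p := r) (n := 1) (by
    rw [pow_one]
    funext a
    apply Subtype.ext
    rw [hg, hy]
    simp
    rfl)
  let S : Subgroup A := (Subgroup.centralizer {y}).subgroupOf A
  have h2 : Fintype.card (Function.fixedPoints g) = Nat.card S := by
    rw [Nat.card_eq_fintype_card]
    refine Fintype.card_congr (Equiv.subtypeEquivRight fun a => ?_)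
    rw [Subgroup.mem_subgroupOf, Subgroup.mem_centralizer_singleton_iff]
    constructor
    · intro h
      have h3 : y * a * y⁻¹ = a := congrArg Subtype.val h
      exact (mul_inv_eq_iff_eq_mul.1 h3).symm
    · intro h
      apply Subtype.ext
      change y * a * y⁻¹ = a
      rw [mul_inv_eq_iff_eq_mul]
      exact h.symm
  obtain ⟨k, hk⟩ := IsPGroup.iff_card.1 hA
  obtain ⟨j, hj⟩ := IsPGroup.iff_card.1 (hA.to_subgroup S)
  rw [h2, ← Nat.card_eq_fintype_card, hk, hj] at h1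
  have hkn : k < n := (Nat.pow_lt_pow_iff_right (by norm_num)).1 (hk ▸ hlt)
  have hjk : j ≤ k := by
    have h3 : Nat.card S ≤ Nat.card A := Nat.card_le_card_of_injective (fun s : S => (s : A)) Subtype.val_injective
    rw [hj, hk] at h3
    exact (Nat.pow_le_pow_iff_right (by norm_num)).1 h3
  have hr2 : (2 : ZMod r) ≠ 0 := by
    intro h
    rw [h, orderOf_eq_zero_iff'.2 (by
      intro m hm h3
      rw [zero_pow hm.ne'] at h3
      exact zero_ne_one h3)] at hrn
    omega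
  have h3 := (ZMod.natCast_eq_natCast_iff _ _ _).2 h1
  push_cast at h3
  have h4 : (2 : ZMod r) ^ (k - j) = 1 := by
    apply mul_right_cancel₀ (pow_ne_zero j hr2)
    rw [← pow_add, Nat.sub_add_cancel hjk, h3, one_mul]
  have h5 : n ∣ k - j := by
    rw [← hrn]
    exact orderOf_dvd_of_pow_eq_one h4
  have h6 : k - j = 0 := Nat.eq_zero_of_dvd_of_lt h5 (by omega)
  have h7 : S = ⊤ := by
    rw [← Subgroup.card_eq_iff_eq_top, hj, hk]
    congr 1
    omega
  have h8 : (⟨a, ha⟩ : A) ∈ S := by rw [h7]; exact Subgroup.mem_top _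
  rw [Subgroup.mem_subgroupOf, Subgroup.mem_centralizer_singleton_iff] at h8
  exact h8.symm

/-- additive maps to a representation over `ZMod 2` -/
noncomputable def actHom {X U : Type*} [Group X] [AddCommGroup U] [Module (ZMod 2) U] (ρ : X → U →+ U)
    (h1 : ∀ u, ρ 1 u = u) (hm : ∀ a b u, ρ (a * b) u = ρ a (ρ b u)) : X →* (U ≃ₗ[ZMod 2] U) where
  toFun a := LinearEquiv.ofLinearMap ((ρ a).toZModLinearMap 2) ((ρ a⁻¹).toZModLinearMap 2)
    (by
      ext u
      change ρ a (ρ a⁻¹ u) = u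
      rw [← hm, mul_inv_cancel, h1])
    (by
      ext u
      change ρ a⁻¹ (ρ a u) = u
      rw [← hm, inv_mul_cancel, h1])
  map_one' := by
    apply LinearEquiv.ext
    intro u
    exact h1 u
  map_mul' a b := by
    apply LinearEquiv.ext
    intro u
    exact hm a b u

theorem actHom_apply {X U : Type*} [Group X] [AddCommGroup U] [Module (ZMod 2) U] (ρ : X → U →+ U)
    (h1 : ∀ u, ρ 1 u = u) (hm : ∀ a b u, ρ (a * b) u = ρ a (ρ b u)) (x : X) (u : U) :
    actHom ρ h1 hm x u = ρ x u := rfl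

theorem sq_lt {n : ℕ} (hn : 9 ≤ n) : n ^ 2 < 2 ^ (n - 2) := by
  induction n, hn using Nat.le_induction with
  | base => norm_num
  | succ n hn ih =>
    have h1 : 2 ^ (n + 1 - 2) = 2 * 2 ^ (n - 2) := by
      rw [← pow_succ']
      congr 1
      omega
    rw [h1]
    nlinarith

variable {G : Type u} [Group G] {T : Subgroup G} {F : Type*} {V : Type v} [Field F] [Finite F] [CharP F 2]
  [AddCommGroup V] [Module F V] {f : LinearMap.BilinForm F V}

/-- the action of `B ∩ T` on `V` -/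
@[instance_reducible]
noncomputable def Sd.actB (D : Sd T f) (B : Subgroup G) : DistribMulAction (B.subgroupOf T) V where
  smul x v := (D.lf (x.1.1 : G)).1 v
  one_smul v := D.lf_one_apply v
  mul_smul _ _ v := D.lf_mul_apply _ _ v
  smul_zero _ := D.lf_zero _
  smul_add _ u v := D.lf_add _ u v

/-- `β = f` -/
noncomputable def bet (f : LinearMap.BilinForm F V) : V →+ V →+ F where
  toFun u := (f u).toAddMonoidHom
  map_zero' := by
    ext v
    change f 0 v = 0
    rw [map_zero, LinearMap.zero_apply]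
  map_add' u v := by
    ext w
    change f (u + v) w = f u w + f v w
    rw [map_add, LinearMap.add_apply]

theorem bet_apply (u v : V) : bet f u v = f u v := rfl

/-- `B ∩ T → B` -/
def iot (T B : Subgroup G) : B.subgroupOf T →* B where
  toFun x := ⟨x.1.1, x.2⟩
  map_one' := rfl
  map_mul' _ _ := rfl

namespace Cs

variable {D : Sd T f} {B : Subgroup G} {W : Submodule F V} {q0 : V → F} {n : ℕ} (C : Cs D B W q0 n)

include C

/-- the cocycle -/
theorem exists_d [FiniteDimensional F V] (b : G) (hb : b ∈ B) : ∃ d ∈ W, D.ac b q0 = sh f q0 d := by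
  obtain ⟨d, hd⟩ := exists_sh D.nd C.hq (D.ac_isQ b C.hq)
  refine ⟨d, C.perp d fun w hw => ?_, hd⟩
  have h1 := congrFun hd w
  rw [sh_apply, C.zero w hw, zero_add, Sd.ac, C.zero _ (C.inv b⁻¹ (B.inv_mem hb) w hw), map_zero] at h1
  exact pow_eq_zero_iff (two_ne_zero) |>.1 h1.symm

/-- the elements of `B ∩ T` trivial on `V / W` are trivial on `W` -/
theorem triv {a : G} (ha : a ∈ T) (hab : a ∈ B) (h : ∀ v, (D.lf a).1 v - v ∈ W) {w : V} (hw : w ∈ W) :
    (D.lf a).1 w = w := by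
  rw [← sub_eq_zero]
  apply D.nd
  intro v
  have h1 := D.lf_form a w v
  rw [D.sg_T ha] at h1
  have h2 : (D.lf a).1 v = v + ((D.lf a).1 v - v) := by abel
  rw [h2, map_add, C.ti _ (C.inv a hab w hw) _ (h v), add_zero] at h1
  rw [map_sub, LinearMap.sub_apply, h1, sub_self]

theorem sq_one {a : G} (ha : a ∈ T) (hab : a ∈ B) (h : ∀ v, (D.lf a).1 v - v ∈ W) : a * a = 1 := by
  apply D.lf_inj
  intro v
  rw [D.lf_mul_apply]
  have h2 : (D.lf a).1 v = v + ((D.lf a).1 v - v) := by abel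
  rw [h2, D.lf_add, C.triv ha hab h (h v)]
  nth_rw 1 [h2]
  rw [add_assoc, vadd_self F, add_zero]

theorem false_aux [FiniteDimensional F V] [Finite G] (hMain : H667.HerFin.Main.{v}) (hbig : 2 ^ 50 ≤ 2 ^ n) {r : ℕ}
    (hr : r.Prime) (hrn : orderOf (2 : ZMod r) = n) {x0 : Iso (F := F) fun x y => f x y} (hx0B : (D.R.π x0 : G) ∈ B)
    (hx0r : x0.1 ^ r = 1) (hx01 : x0 ≠ 1) (hfpf : ∀ v, x0.1 v = v → v = 0)
    (hN : ∃ a ∈ T, a ∈ B ∧ a ≠ 1 ∧ ∀ v, (D.lf a).1 v - v ∈ W)
    {U : Type v} [AddCommGroup U] [Module (ZMod 2) U] [Finite U] (pr : V →+ U) (hpr : Function.Surjective pr)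
    (hprW : ∀ v, pr v = 0 ↔ v ∈ W) (ρ : B → U →+ U) (hρ : ∀ b v, ρ b (pr v) = pr ((D.lf (b : G)).1 v)) : False := by
  classical
  have hnpos := C.n_pos
  have hfinV := C.finV
  have h50 : 50 ≤ n := (Nat.pow_le_pow_iff_right (by norm_num)).1 hbig
  have h1ρ : ∀ u, ρ 1 u = u := by
    intro u
    obtain ⟨v, rfl⟩ := hpr u
    rw [hρ, Subgroup.coe_one, D.lf_one_apply]
  have hmρ : ∀ a b u, ρ (a * b) u = ρ a (ρ b u) := by
    intro a b u
    obtain ⟨v, rfl⟩ := hpr u
    rw [hρ, hρ, hρ, Subgroup.coe_mul, D.lf_mul_apply]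
  let ρ' : B →* (U ≃ₗ[ZMod 2] U) := actHom ρ h1ρ hmρ
  have hρ' : ∀ (b : B) (v : V), ρ' b (pr v) = pr ((D.lf (b : G)).1 v) := hρ
  let τ : B.subgroupOf T →* (U ≃ₗ[ZMod 2] U) := ρ'.comp (iot T B)
  let actI : DistribMulAction (B.subgroupOf T) V := D.actB B
  have hsm : ∀ (x : B.subgroupOf T) (v : V), x • v = (D.lf (x.1.1 : G)).1 v := fun _ _ => rfl
  have hτ : ∀ (x : B.subgroupOf T) (v : V), τ x (pr v) = pr ((D.lf (x.1.1 : G)).1 v) := fun x v => hρ' _ _
  have hkerW : ∀ v, v ∈ pr.ker ↔ v ∈ W := fun v => by rw [AddMonoidHom.mem_ker, hprW]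
  have hsubW : ∀ u v, pr u = pr v ↔ u - v ∈ W := fun u v => by rw [← hprW, map_sub, sub_eq_zero]
  have hkerB : ∀ b : B, b ∈ ρ'.ker ↔ ∀ v, (D.lf (b : G)).1 v - v ∈ W := by
    intro b
    rw [MonoidHom.mem_ker]
    constructor
    · intro h v
      rw [← hsubW, ← hρ', h]
      rfl
    · intro h
      apply LinearEquiv.ext
      intro u
      obtain ⟨v, rfl⟩ := hpr u
      rw [hρ', (hsubW _ _).2 (h v)]
      rfl
  have hker : ∀ a : B.subgroupOf T, a ∈ τ.ker ↔ ∀ v, (D.lf (a.1.1 : G)).1 v - v ∈ W := fun a => hkerB (iot T B a)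
  have hcU : Nat.card U = 2 ^ n := by
    have h1 := pr.ker.card_mul_index
    rw [AddSubgroup.index_ker, C.cV] at h1
    have h2 : Nat.card pr.range = Nat.card U := by
      rw [AddMonoidHom.range_eq_top.2 hpr, AddSubgroup.card_top]
    have h3 : Nat.card pr.ker = Nat.card W := Nat.card_congr (Equiv.subtypeEquivRight hkerW)
    rw [h2, h3, C.cW, two_mul, pow_add] at h1
    exact Nat.eq_of_mul_eq_mul_left (by positivity) h1
  -- the cocycle
  choose d hdW hd using fun b : B => C.exists_d b.1 b.2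
  have hdm : ∀ a b : B, d (a * b) = d a + (D.lf (a : G)).1 (d b) := by
    intro a b
    apply sh_inj D.nd (q := q0)
    rw [← hd, Subgroup.coe_mul, D.ac_mul, hd b, D.ac_sh, hd a, sh_sh]
  have hact : ∀ (b : B) (v : V), D.ac (b : G) (sh f q0 v) = sh f q0 (d b + (D.lf (b : G)).1 v) := by
    intro b v
    rw [D.ac_sh, hd b, sh_sh]
  have hover : ∀ u : U, u ≠ 0 → ∃ v, pr v = u ∧ Tr (q0 v) = 1 := by
    intro u hu
    obtain ⟨v, rfl⟩ := hpr u
    have hv : v ∉ W := fun h => hu ((hprW v).2 h)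
    obtain ⟨w, hw, h⟩ := C.exists_over hv
    exact ⟨v + w, by rw [map_add, (hprW w).2 hw, add_zero], h⟩
  have hAp : IsPGroup 2 τ.ker := by
    intro a
    refine ⟨1, ?_⟩
    apply Subtype.ext
    apply Subtype.ext
    apply Subtype.ext
    rw [pow_one, pow_two]
    exact C.sq_one a.1.1.2 a.1.2 ((hker a.1).1 a.2)
  have hAle : Nat.card τ.ker ≤ 2 ^ (n - 1) := by
    obtain ⟨v, hv⟩ := C.exists_not_mem
    obtain ⟨w0, hw0, h0⟩ := C.exists_over hv
    have h2 : Nat.card {w : W // Tr (q0 (v + w)) = 1} = 2 ^ (n - 1) := by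
      have h3 := C.card_half hv
      have h4 : 2 ^ n = 2 * 2 ^ (n - 1) := by
        rw [← pow_succ']
        congr 1
        omega
      omega
    rw [← h2]
    have hmem : ∀ a : τ.ker, d (iot T B a.1) + ((D.lf (a.1.1.1 : G)).1 (v + w0) - (v + w0)) + w0 ∈ W := fun a =>
      W.add_mem (W.add_mem (hdW _) ((hker a.1).1 a.2 _)) hw0
    have heq : ∀ a : τ.ker, v + (d (iot T B a.1) + ((D.lf (a.1.1.1 : G)).1 (v + w0) - (v + w0)) + w0) =
        d (iot T B a.1) + (D.lf (a.1.1.1 : G)).1 (v + w0) := fun a => by abel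
    have hac : ∀ a : τ.ker, D.ac (a.1.1.1 : G) (sh f q0 (v + w0)) =
        sh f q0 (d (iot T B a.1) + (D.lf (a.1.1.1 : G)).1 (v + w0)) := fun a => hact (iot T B a.1) (v + w0)
    refine Nat.card_le_card_of_injective (fun a : τ.ker => (⟨⟨_, hmem a⟩, by
      rw [heq]
      exact C.typ _ h0 _ a.1.2 _ (hac a)⟩ : {w : W // Tr (q0 (v + w)) = 1})) ?_
    intro a b hab
    have h3 : d (iot T B a.1) + ((D.lf (a.1.1.1 : G)).1 (v + w0) - (v + w0)) + w0 =
        d (iot T B b.1) + ((D.lf (b.1.1.1 : G)).1 (v + w0) - (v + w0)) + w0 := congrArg (fun z => ((z.1 : W) : V)) hab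
    have h4 : D.ac (a.1.1.1 : G) (sh f q0 (v + w0)) = D.ac (b.1.1.1 : G) (sh f q0 (v + w0)) := by
      rw [hac, hac, ← heq, ← heq, h3]
    have h5 : D.ac ((b.1.1.1 : G)⁻¹ * (a.1.1.1 : G)) (sh f q0 (v + w0)) = sh f q0 (v + w0) := by
      rw [D.ac_mul, h4, ← D.ac_mul, inv_mul_cancel, D.ac_one]
    have h6 := C.free _ h0 _ (B.mul_mem (B.inv_mem b.1.2) a.1.2) h5
    apply Subtype.ext
    apply Subtype.ext
    apply Subtype.ext
    exact (inv_mul_eq_one.1 h6).symm
  have h2n : 2 ^ (n - 1) < 2 ^ n := Nat.pow_lt_pow_right (by norm_num) (by omega)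
  have hAlt : Nat.card τ.ker < 2 ^ n := lt_of_le_of_lt hAle h2n
  -- the element of order `r`
  let y : B.subgroupOf T := ⟨D.R.π x0, hx0B⟩
  have hyr : y ^ r = 1 := by
    have h1 : x0 ^ r = 1 := Subtype.ext hx0r
    apply Subtype.ext
    change D.R.π x0 ^ r = 1
    rw [← map_pow, h1, map_one]
  have hyv : ∀ v, (D.lf (y.1.1 : G)).1 v = x0.1 v := fun v => D.lf_T x0 v
  have hAfix : ∀ a ∈ τ.ker, a ≠ 1 → ∀ v : V, a • v = v → v ∈ pr.ker := by
    intro a ha ha1 v hv
    have hc := cent_of_small (MonoidHom.normal_ker τ) hAp hnpos hAlt hr hrn hyr ha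
    let X : AddSubgroup V :=
      { carrier := {v | (D.lf (a.1.1 : G)).1 v = v}
        add_mem' := fun {u v} hu hv => by
          change (D.lf (a.1.1 : G)).1 (u + v) = u + v
          rw [D.lf_add, show (D.lf (a.1.1 : G)).1 u = u from hu, show (D.lf (a.1.1 : G)).1 v = v from hv]
        zero_mem' := D.lf_zero _
        neg_mem' := fun {u} hu => by
          change (D.lf (a.1.1 : G)).1 (-u) = -u
          rw [vneg F]
          exact hu }
    have hXy : ∀ v ∈ X, x0.1 v ∈ X := by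
      intro v hv
      change (D.lf (a.1.1 : G)).1 (x0.1 v) = x0.1 v
      have h1 : (D.lf (a.1.1 : G)).1 v = v := hv
      have h2 := hsm (a * y) v
      rw [← hc, hsm, ] at h2
      have h3 : (D.lf ((y * a).1.1 : G)).1 v = (D.lf (y.1.1 : G)).1 ((D.lf (a.1.1 : G)).1 v) := D.lf_mul_apply _ _ _
      have h4 : (D.lf ((a * y).1.1 : G)).1 v = (D.lf (a.1.1 : G)).1 ((D.lf (y.1.1 : G)).1 v) := D.lf_mul_apply _ _ _
      rw [← hc, h3, h1, hyv] at h4
      exact h4.symm
    have hWX : W.toAddSubgroup ≤ X := fun w hw => C.triv a.1.2 a.2 ((hker a).1 ha) hw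
    have h1n : 1 < 2 ^ n := Nat.one_lt_two_pow (by omega)
    rcases card_inv_V hnpos hr hrn C.cV hx0r hfpf X hXy with h | h | h
    · exfalso
      have h1 : Nat.card W.toAddSubgroup ≤ Nat.card X :=
        Nat.card_le_card_of_injective _ (AddSubgroup.inclusion_injective hWX)
      rw [h] at h1
      have h2 : Nat.card W.toAddSubgroup = 2 ^ n := C.cW
      omega
    · have h1 : W.toAddSubgroup = X := AddSubgroup.eq_of_le_of_card_ge hWX (by rw [h]; exact C.cW.ge)
      rw [hkerW]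
      have h2 : v ∈ X := hv
      rw [← h1] at h2
      exact h2
    · exfalso
      apply ha1
      apply Subtype.ext
      apply Subtype.ext
      apply D.lf_inj
      intro v
      have h1 : v ∈ X := by rw [h]; exact AddSubgroup.mem_top _
      exact h1
  have hAne : τ.ker ≠ ⊥ := by
    obtain ⟨a, haT, haB, ha1, ha⟩ := hN
    intro h
    have h1 : (⟨⟨a, haT⟩, haB⟩ : B.subgroupOf T) ∈ τ.ker := (hker _).2 ha
    rw [h, Subgroup.mem_bot] at h1
    exact ha1 (congrArg (fun z : B.subgroupOf T => z.1.1) h1)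
  -- kernel of `ρ'`
  have hkerT : ∀ b : B, b ∈ ρ'.ker → (b : G) ∈ T := by
    intro b hb
    rw [hkerB] at hb
    apply D.mem_T
    intro a
    obtain ⟨v, hv⟩ := C.exists_not_mem
    by_contra hne
    apply hv
    have h1 := W.sub_mem (W.smul_mem (D.sg (b : G) a) (hb v)) (hb (a • v))
    rw [D.lf_smul] at h1
    have h2 : D.sg (b : G) a • ((D.lf (b : G)).1 v - v) - (D.sg (b : G) a • (D.lf (b : G)).1 v - a • v) =
        (a - D.sg (b : G) a) • v := by
      rw [smul_sub, sub_smul]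
      abel
    rw [h2] at h1
    have h3 := W.smul_mem (a - D.sg (b : G) a)⁻¹ h1
    rwa [smul_smul, inv_mul_cancel₀ (sub_ne_zero.2 (Ne.symm hne)), one_smul] at h3
  have hcker : Nat.card ρ'.ker = Nat.card τ.ker := by
    refine (Nat.card_congr (Equiv.ofBijective (fun a : τ.ker => (⟨iot T B a.1, a.2⟩ : ρ'.ker)) ⟨?_, ?_⟩)).symm
    · intro a b hab
      apply Subtype.ext
      apply Subtype.ext
      apply Subtype.ext
      exact congrArg (fun z : ρ'.ker => ((z.1 : B) : G)) hab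
    · rintro ⟨b, hb⟩
      exact ⟨⟨⟨⟨b.1, hkerT b hb⟩, b.2⟩, hb⟩, rfl⟩
  have hcB : Nat.card τ.ker * Nat.card ρ'.range = 2 ^ (n - 1) * (2 ^ n - 1) := by
    rw [← C.card_B, ← hcker, ← Subgroup.index_ker, Subgroup.card_mul_index]
  refine H386.Rg.alpha (p := 2) (n := n) hMain (V := V) (fun v => by rw [two_smul, vadd_self F]) (U := U) hcU hbig
    (D := B.subgroupOf T) pr hpr τ (fun x v => (hτ x v).symm) ?_ hAp ?_ hAfix hAne hAlt ρ'.range ?_ ?_ (Z := F)
    (AddMonoidHom.id F) (bet f) ?_ ?_ ?_ 1 (n - 1) one_pos ?_ ?_ ?_ hr hrn ?_ (fun x => d (iot T B x)) ?_ ?_ ?_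
  · rw [hcU, Nat.card_congr (Equiv.subtypeEquivRight hkerW)]
    exact C.cW
  · intro a ha w hw
    exact C.triv a.1.2 a.2 ((hker a).1 ha) ((hkerW w).1 hw)
  · -- transitive
    intro u u' hu hu'
    obtain ⟨v, rfl, hv⟩ := hover u hu
    obtain ⟨v', rfl, hv'⟩ := hover u' hu'
    obtain ⟨b, hb, h⟩ := C.trans v v' hv hv'
    refine ⟨ρ' ⟨b, hb⟩, ⟨_, rfl⟩, ?_⟩
    rw [hρ']
    have h1 := hact ⟨b, hb⟩ v
    have h2 : d ⟨b, hb⟩ + (D.lf b).1 v = v' := sh_inj D.nd (h1.symm.trans h)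
    rw [← h2, map_add, (hprW _).2 (hdW _), zero_add]
  · refine ⟨1, ?_⟩
    rw [Subgroup.map_le_iff_le_comap, derivedSeries_one, commutator_def, Subgroup.commutator_le]
    rintro ⟨_, b1, rfl⟩ - ⟨_, b2, rfl⟩ -
    refine ⟨⟨⟨(b1 : G) * b2 * (b1 : G)⁻¹ * (b2 : G)⁻¹, D.comm_mem_T _ _⟩,
      B.mul_mem (B.mul_mem (B.mul_mem b1.2 b2.2) (B.inv_mem b1.2)) (B.inv_mem b2.2)⟩, ?_⟩
    change ρ' (b1 * b2 * b1⁻¹ * b2⁻¹) = _
    rw [map_mul, map_mul, map_mul, map_inv, map_inv]
    rfl
  · intro x u v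
    change f ((D.lf (x.1.1 : G)).1 u) ((D.lf (x.1.1 : G)).1 v) = f u v
    rw [D.lf_form, D.sg_T x.1.2]
  · intro u hu
    rw [hkerW]
    exact C.perp u fun w hw => hu w ((hkerW w).2 hw)
  · intro a ha u v
    change f u ((D.lf (a.1.1 : G)).1 v - v) = f v ((D.lf (a.1.1 : G)).1 u - u)
    rw [map_sub, map_sub, symm_of_alt D.alt u v]
    congr 1
    have h1 := D.lf_form (a.1.1 : G) u ((D.lf (a.1.1 : G)).1 v)
    rw [D.sg_T a.1.2, ← D.lf_mul_apply, C.sq_one a.1.2 a.2 ((hker a).1 ha), D.lf_one_apply] at h1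
    rw [← h1, symm_of_alt D.alt]
  · rw [one_mul, ← C.card_B]
    refine Subgroup.card_dvd_of_injective (iot T B) ?_
    intro a b hab
    apply Subtype.ext
    apply Subtype.ext
    exact congrArg (fun z : B => (z : G)) hab
  · have h1 : (1 + 1) ^ 3 < 2 ^ 50 := by norm_num
    exact lt_of_lt_of_le h1 hbig
  · -- the 2-part
    have : Fact (Nat.Prime 2) := ⟨Nat.prime_two⟩
    obtain ⟨k, hk⟩ := IsPGroup.iff_card.1 hAp
    have hfr : Finite ρ'.range := Finite.of_surjective _ ρ'.rangeRestrict_surjective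
    have h1 : Nat.card τ.ker * 2 ^ (Nat.card ρ'.range).factorization 2 = 2 ^ (n - 1) := by
      have h2 : 2 ^ (Nat.card τ.ker * Nat.card ρ'.range).factorization 2 = 2 ^ (2 ^ (n - 1) * (2 ^ n - 1)).factorization 2 := by
        rw [hcB]
      have h3 : (2 ^ n - 1).factorization 2 = 0 := by
        apply Nat.factorization_eq_zero_of_not_dvd
        intro h4
        have h5 : 2 ∣ 2 ^ n := dvd_pow_self 2 (by omega)
        have h6 : 0 < 2 ^ n := by positivity
        omega
      rw [Nat.factorization_mul Nat.card_pos.ne' Nat.card_pos.ne', Nat.factorization_mul (by positivity) (by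
        have : 1 < 2 ^ n := Nat.one_lt_two_pow (by omega)
        omega), Finsupp.add_apply, Finsupp.add_apply, h3, add_zero, pow_add, hk,
        Nat.prime_two.factorization_pow, Nat.prime_two.factorization_pow, Finsupp.single_eq_same,
        Finsupp.single_eq_same] at h2
      rw [hk]
      exact h2
    rw [h1, ← pow_mul]
    have h2 := sq_lt (show 9 ≤ n by omega)
    calc n ^ 2 * 2 ^ n < 2 ^ (n - 2) * 2 ^ n := Nat.mul_lt_mul_of_pos_right h2 (by positivity)
      _ = 2 ^ ((n - 1) * 2) := by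
        rw [← pow_add]
        congr 1
        omega
  · have h1 : orderOf y = r := by
      have := Fact.mk hr
      refine orderOf_eq_prime hyr ?_
      intro h
      apply hx01
      apply pi_inj (R := D.R) D.nd D.ne
      rw [map_one]
      exact congrArg Subtype.val h
    rw [← h1]
    exact orderOf_dvd_natCard _
  · intro x
    rw [hkerW]
    exact hdW _
  · intro a b
    exact hdm (iot T B a) (iot T B b)
  · intro u hu
    obtain ⟨v, hv, h⟩ := hover u hu
    refine ⟨v, hv, fun x hx => ?_⟩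
    have h1 : D.ac (x.1.1 : G) (sh f q0 v) = sh f q0 v := by
      have h2 := hact (iot T B x) v
      have h3 : d (iot T B x) + (D.lf (x.1.1 : G)).1 v = v := by
        rw [add_comm]
        exact hx
      change D.ac (x.1.1 : G) (sh f q0 v) = sh f q0 (d (iot T B x) + (D.lf (x.1.1 : G)).1 v) at h2
      rw [h2, h3]
    apply Subtype.ext
    apply Subtype.ext
    exact C.free v h _ x.2 h1

/-- **the situation is impossible** -/
theorem false [FiniteDimensional F V] [Finite G] (hMain : H667.HerFin.Main.{v}) (hbig : 2 ^ 50 ≤ 2 ^ n) {r : ℕ}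
    (hr : r.Prime) (hrn : orderOf (2 : ZMod r) = n) {x0 : Iso (F := F) fun x y => f x y} (hx0B : (D.R.π x0 : G) ∈ B)
    (hx0r : x0.1 ^ r = 1) (hx01 : x0 ≠ 1) (hfpf : ∀ v, x0.1 v = v → v = 0)
    (hN : ∃ a ∈ T, a ∈ B ∧ a ≠ 1 ∧ ∀ v, (D.lf a).1 v - v ∈ W) : False := by
  have hfinV := C.finV
  let lfh : G → V →+ V := fun g => ⟨⟨(D.lf g).1, D.lf_zero g⟩, D.lf_add g⟩
  have hfinU : Finite (V ⧸ W.toAddSubgroup) := Quotient.finite _
  refine @Cs.false_aux G _ T F V _ _ _ _ _ f D B W q0 n C _ _ hMain hbig r hr hrn x0 hx0B hx0r hx01 hfpf hN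
    (V ⧸ W.toAddSubgroup) _ (AddCommGroup.zmodModule (n := 2) ?_) hfinU (QuotientAddGroup.mk' W.toAddSubgroup)
    (QuotientAddGroup.mk'_surjective _) ?_
    (fun b => QuotientAddGroup.map W.toAddSubgroup W.toAddSubgroup (lfh b) (fun w hw => C.inv b.1 b.2 w hw)) ?_
  · intro u
    obtain ⟨v, rfl⟩ := QuotientAddGroup.mk'_surjective _ u
    rw [← map_nsmul, two_smul, vadd_self F, map_zero]
  · intro v
    exact QuotientAddGroup.eq_zero_iff v
  · intro b v
    rfl

end Cs

end Cfsg.Agent.H383.Rg
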