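import Cfsg.Agent.H383.Rg.CAl

/-!
# S3691, case C-: `alpha_minus` (helper383)

* `alpha_minus` : `T = Sp(V)`, `H ≥ E(q)`, `q` without totally singular subspaces of dimension `m`, `r | |B ∩ T|`: the
  preimage of `B` has no nontrivial normal 2-subgroup.
-/

set_option autoImplicit false
set_option linter.unusedSectionVars false

namespace Cfsg.Agent.H383.Rg

open Module QuadraticMap
open Cfsg.Agent.LieClassical.OrthCore Cfsg.Agent.LieClassical.OrthTrans
open Cfsg.Agent.BpCl (Iso)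
open Cfsg.Agent.H454.Reg Cfsg.Agent.H449.Reg
open Cfsg.Agent.H934.ArfO (T_eq_zero T_sq exists_T_one)

local notation "Tr" => Cfsg.Agent.H934.ArfO.T

universe u v

/-- a 2-group acting on a finite set of even order with a fixed point has another one -/
theorem exists_fixed_gen {N : Type*} [Group N] [Finite N] (hN : IsPGroup 2 N) {A : Type*} [Finite A]
    (act : N → A → A) (h1 : ∀ a, act 1 a = a) (hm : ∀ g h a, act (g * h) a = act g (act h a)) (a0 : A)
    (h0 : ∀ g, act g a0 = a0) (hA : 2 ∣ Nat.card A) : ∃ a, a ≠ a0 ∧ ∀ g, act g a = a := by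
  have : Fact (Nat.Prime 2) := ⟨Nat.prime_two⟩
  let actI : MulAction N A :=
    { smul := act
      one_smul := h1
      mul_smul := hm }
  obtain ⟨a, ha, ha0⟩ := hN.exists_fixed_point_of_prime_dvd_card_of_fixed_point (α := A) hA (a := a0) h0
  exact ⟨a, ha0.symm, ha⟩

theorem card_gl_le {F V : Type*} [Field F] [Finite F] [AddCommGroup V] [Module F V] [FiniteDimensional F V] [Finite V]
    (S : Subgroup (V ≃ₗ[F] V)) : Nat.card S ≤ Nat.card V ^ finrank F V := by
  let bs := Module.finBasis F V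
  have h1 : Nat.card (Fin (finrank F V) → V) = Nat.card V ^ finrank F V := by
    rw [Nat.card_fun, Nat.card_eq_fintype_card (α := Fin (finrank F V)), Fintype.card_fin]
  rw [← h1]
  refine Nat.card_le_card_of_injective (fun g : S => fun i => g.1 (bs i)) ?_
  intro g h hgh
  apply Subtype.ext
  apply LinearEquiv.toLinearMap_injective
  apply bs.ext
  intro i
  exact congrFun hgh i

variable {G : Type u} [Group G] {T : Subgroup G} {F : Type*} {V : Type v} [Field F] [Finite F] [CharP F 2]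
  [AddCommGroup V] [Module F V] {f : LinearMap.BilinForm F V}

theorem Sd.conj_stab (D : Sd T f) {q : V → F} {b t : G} (h : D.ac b (D.ac t q) = D.ac t q) : t⁻¹ * b * t ∈ D.stab q := by
  rw [D.mem_stab, D.ac_mul, D.ac_mul, h, ← D.ac_mul, inv_mul_cancel, D.ac_one]

theorem Sd.orb_typ [FiniteDimensional F V] (D : Sd T f) {m : ℕ} {q : V → F}
    (hmin : ¬ ∃ U : Submodule F V, finrank F U = m ∧ ∀ u ∈ U, q u = 0) {W : Submodule F V}
    (hW : finrank F W = m) {q0 : V → F} (hq0 : IsQ f q0) (h0 : ∀ w ∈ W, q0 w = 0) {g : G} {v : V}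
    (h : D.ac g q = sh f q0 v) : Tr (q0 v) = 1 := by
  apply two_eq
  intro hT
  obtain ⟨c, hc⟩ := exists_tv D.alt hq0 hT
  apply hmin
  refine ⟨simg (D.lf g⁻¹) (W.map ((tv D.alt v c)⁻¹ : V ≃ₗ[F] V).toLinearMap), ?_, ?_⟩
  · rw [finrank_simg, LinearEquiv.finrank_map_eq, hW]
  · rintro _ ⟨_, ⟨w, hw, rfl⟩, rfl⟩
    have h1 := D.ac_apply g q ((D.lf g⁻¹).1 ((tv D.alt v c)⁻¹ w))
    rw [D.lf_apply_inv, h, ← hc] at h1
    have h2 : tv D.alt v c ((tv D.alt v c)⁻¹ w) = w := (tv D.alt v c).apply_symm_apply w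
    rw [h2, h0 w hw] at h1
    exact (map_eq_zero_iff (D.sg g) (D.sg g).injective).1 h1.symm

theorem Sd.exists_orb [FiniteDimensional F V] (D : Sd T f) {m : ℕ} {q : V → F} (hq : IsQ f q)
    (hmin : ¬ ∃ U : Submodule F V, finrank F U = m ∧ ∀ u ∈ U, q u = 0) {W : Submodule F V}
    (hW : finrank F W = m) {q0 : V → F} (hq0 : IsQ f q0) (h0 : ∀ w ∈ W, q0 w = 0) {v : V} (hv : Tr (q0 v) = 1) :
    ∃ t ∈ T, D.ac t q = sh f q0 v := by
  obtain ⟨v1, hv1⟩ := exists_sh D.nd hq0 hq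
  have h1 : Tr (q0 v1) = 1 := D.orb_typ hmin hW hq0 h0 (g := 1) (by rw [D.ac_one, hv1])
  obtain ⟨t, ht, h2⟩ := same_type D.alt hq0 (v := v) (v' := v1) (by rw [hv, h1])
  refine ⟨D.R.π ⟨t, ht⟩, (D.R.π ⟨t, ht⟩).2, D.ac_eq_of_T ⟨t, ht⟩ rfl fun z => ?_⟩
  rw [h2, hv1]

/-- the preimage of `B` and its invariant subspaces -/
theorem Sd.inv_of_uniq [FiniteDimensional F V] (D : Sd T f) {B : Subgroup G} {W : Submodule F V} {n : ℕ}
    (hW : Nat.card W = 2 ^ n) (hinv : ∀ x ∈ D.pre B, ∀ w ∈ W, x w ∈ W)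
    (huniq : ∀ X : AddSubgroup V, (∀ x ∈ D.pre B, ∀ v ∈ X, x v ∈ X) → Nat.card X = 2 ^ n → X = W.toAddSubgroup) :
    ∀ b ∈ B, ∀ w ∈ W, (D.lf b).1 w ∈ W := by
  intro b hb w hw
  have hTn := D.normal
  have h1 := huniq (simg (D.lf b) W).toAddSubgroup (by
    rintro x hx _ ⟨w, hw, rfl⟩
    obtain ⟨hxI, hxB⟩ := D.mem_pre.1 hx
    -- `t = b⁻¹ x b`
    have ht : b⁻¹ * (D.R.π ⟨x, hxI⟩ : G) * b ∈ T := by
      have := hTn.conj_mem _ (D.R.π ⟨x, hxI⟩).2 b⁻¹
      rwa [inv_inv] at this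
    obtain ⟨x', hx', h2⟩ := D.exists_T ht
    have hx'B : x'.1 ∈ D.pre B := by
      rw [D.mem_pre]
      refine ⟨x'.2, ?_⟩
      have : (D.R.π ⟨x'.1, x'.2⟩ : G) = b⁻¹ * (D.R.π ⟨x, hxI⟩ : G) * b := hx'
      rw [this]
      exact B.mul_mem (B.mul_mem (B.inv_mem hb) hxB) hb
    refine ⟨x'.1 w, hinv _ hx'B w hw, ?_⟩
    have h3 := D.lf_T ⟨x, hxI⟩ ((D.lf b).1 w)
    rw [← h2, ← D.lf_mul_apply]
    rw [← D.lf_mul_apply] at h3
    have h4 : b * (b⁻¹ * (D.R.π ⟨x, hxI⟩ : G) * b) = (D.R.π ⟨x, hxI⟩ : G) * b := by group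
    rw [h4, h3]) ((card_simg _ _).trans hW)
  have h2 : (D.lf b).1 w ∈ (simg (D.lf b) W).toAddSubgroup := ⟨w, hw, rfl⟩
  rw [h1] at h2
  exact h2

/-- an element of order `r` in the preimage -/
theorem Sd.exists_y [Finite G] (D : Sd T f) {X : Subgroup G} {r : ℕ} (hr : r.Prime)
    (hrX : r ∣ Nat.card (X.subgroupOf T)) :
    ∃ x0 : Iso (F := F) fun x y => f x y, (D.R.π x0 : G) ∈ X ∧ x0.1 ^ r = 1 ∧ x0 ≠ 1 := by
  have := Fact.mk hr
  obtain ⟨y, hy⟩ := exists_prime_orderOf_dvd_card' r hrX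
  obtain ⟨x0, hx0⟩ := D.R.surj y.1
  refine ⟨x0, by rw [hx0]; exact y.2, ?_, ?_⟩
  · have h1 : D.R.π (x0 ^ r) = D.R.π 1 := by
      rw [map_pow, hx0, map_one, ← Subgroup.coe_pow, ← hy, pow_orderOf_eq_one]
      rfl
    have h2 := pi_inj (R := D.R) D.nd D.ne h1
    exact congrArg Subtype.val h2
  · rintro rfl
    rw [map_one] at hx0
    have h1 : y = 1 := Subtype.ext hx0.symm
    rw [h1, orderOf_one] at hy
    exact hr.one_lt.ne hy

/-- a normal 2-subgroup is trivial on `V / W` -/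
theorem triv_quot [FiniteDimensional F V] [Finite V] {n r : ℕ} (hn : 0 < n) (hr : r.Prime)
    (hrn : orderOf (2 : ZMod r) = n) (hV : Nat.card V = 2 ^ (2 * n)) {D0 : Subgroup (V ≃ₗ[F] V)} {y : V ≃ₗ[F] V}
    (hyD : y ∈ D0) (hyr : y ^ r = 1) (hfpf : ∀ v, y v = v → v = 0) {N : Subgroup (V ≃ₗ[F] V)} (hN : IsPGroup 2 N)
    (hND : N ≤ D0) (hNn : ∀ x ∈ D0, ∀ g ∈ N, x * g * x⁻¹ ∈ N) {W : Submodule F V} (hW : Nat.card W = 2 ^ n)
    (hinv : ∀ x ∈ D0, ∀ w ∈ W, x w ∈ W) : ∀ g ∈ N, ∀ v, g v - v ∈ W := by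
  have hinvapp : ∀ (x : V ≃ₗ[F] V) (v : V), x (x⁻¹ v) = v := fun x v => x.apply_symm_apply v
  let X : AddSubgroup V :=
    { carrier := {v | ∀ g ∈ N, g v - v ∈ W}
      add_mem' := fun {u v} hu hv g hg => by
        have h1 := W.add_mem (hu g hg) (hv g hg)
        rw [map_add]
        have h2 : g u + g v - (u + v) = g u - u + (g v - v) := by abel
        rw [h2]
        exact h1
      zero_mem' := fun g _ => by rw [map_zero, sub_zero]; exact W.zero_mem
      neg_mem' := fun {u} hu g hg => by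
        rw [map_neg]
        have h2 : -g u - -u = -(g u - u) := by abel
        rw [h2]
        exact W.neg_mem (hu g hg) }
  have hX : ∀ v ∈ X, y v ∈ X := by
    intro v hv g hg
    have h1 := hinv y hyD _ (hv _ (hNn y⁻¹ (inv_mem hyD) g hg))
    rw [inv_inv] at h1
    have h2 : (y⁻¹ * g * y) v = y⁻¹ (g (y v)) := rfl
    rw [h2, map_sub, hinvapp] at h1
    exact h1
  have h2n : 1 < 2 ^ n := Nat.one_lt_two_pow (by omega)
  have hlt : 2 ^ n < 2 ^ (2 * n) := Nat.pow_lt_pow_right (by norm_num) (by omega)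
  have hWX : ∀ w ∈ W, w ∈ X := fun w hw g hg => W.sub_mem (hinv g (hND hg) w hw) hw
  -- a fixed vector in the quotient
  have hfinN : Finite N := by
    have : Finite (V ≃ₗ[F] V) := Finite.of_injective (fun g : V ≃ₗ[F] V => (g : V → V)) DFunLike.coe_injective
    infer_instance
  have hfinQ : Finite (V ⧸ W) := Quotient.finite _
  obtain ⟨a, ha0, ha⟩ := exists_fixed_gen hN (A := V ⧸ W)
    (fun g => W.mapQ W (g.1 : V →ₗ[F] V) (fun w hw => hinv g.1 (hND g.2) w hw)) (by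
      intro a
      obtain ⟨v, rfl⟩ := Submodule.Quotient.mk_surjective W a
      rfl) (by
      intro g h a
      obtain ⟨v, rfl⟩ := Submodule.Quotient.mk_surjective W a
      rfl) 0 (fun g => map_zero _) (by
      have h1 := Submodule.card_eq_card_quotient_mul_card W
      rw [hV, hW] at h1
      have h2 : Nat.card (V ⧸ W) = 2 ^ n := by
        have h3 : 2 ^ (2 * n) = 2 ^ n * 2 ^ n := by rw [← pow_add, two_mul]
        rw [h3] at h1
        have h4 : 0 < 2 ^ n := by positivity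
        nlinarith [h1]
      rw [h2]
      exact dvd_pow_self 2 (by omega))
  obtain ⟨v, rfl⟩ := Submodule.Quotient.mk_surjective W a
  have hvW : v ∉ W := fun h => ha0 ((Submodule.Quotient.mk_eq_zero W).2 h)
  have hvX : v ∈ X := by
    intro g hg
    have h1 := ha ⟨g, hg⟩
    exact (Submodule.Quotient.eq W).1 h1
  have hXt : X = ⊤ := by
    have hle : W.toAddSubgroup ≤ X := hWX
    rcases card_inv_V hn hr hrn hV hyr hfpf X hX with h | h | h
    · exfalso
      have h1 : Nat.card W.toAddSubgroup ≤ Nat.card X :=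
        Nat.card_le_card_of_injective _ (AddSubgroup.inclusion_injective hle)
      rw [h] at h1
      have h2 : Nat.card W.toAddSubgroup = 2 ^ n := hW
      omega
    · exfalso
      have h1 : W.toAddSubgroup = X := AddSubgroup.eq_of_le_of_card_ge hle (by rw [h]; exact hW.ge)
      apply hvW
      rw [← h1] at hvX
      exact hvX
    · exact h
  intro g hg v
  have h1 : v ∈ X := by rw [hXt]; exact AddSubgroup.mem_top v
  exact h1 g hg

/-- an element of odd order not conjugate into the stabiliser of `q` has no fixed vectors -/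
theorem Sd.fpf_of [FiniteDimensional F V] (D : Sd T f) {q : V → F} (hq : IsQ f q)
    {x0 : Iso (F := F) fun x y => f x y} {r : ℕ} (hodd : Odd r) (hx0r : x0.1 ^ r = 1)
    (hno : ∀ t ∈ T, t⁻¹ * (D.R.π x0 : G) * t ∉ D.stab q) {v : V} (hv : x0.1 v = v) : v = 0 := by
  refine fpf D.alt D.nd hq x0.2 hodd hx0r ?_ hv
  intro x hx hcon
  obtain ⟨x', rfl⟩ : ∃ x' : Iso (F := F) fun x y => f x y, x'.1 = x := ⟨⟨x, hx⟩, rfl⟩
  have h0 : ∀ z, q ((x'⁻¹ * x0 * x').1 z) = q z := fun z => hcon z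
  have h1 := D.ac_eq_of_T (x'⁻¹ * x0 * x') rfl h0
  refine hno (D.R.π x') (D.R.π x').2 ?_
  rw [map_mul, map_mul, map_inv] at h1
  exact h1

/-- **(alpha), case C-**: the factor `H` contains `E(q)` -/
theorem alpha_minus [FiniteDimensional F V] [Finite G] {H B : Subgroup G} (hMain : H667.HerFin.Main.{v})
    (R : Real T (Iso (F := F) fun x y => f x y)) (hA : ∀ v, f v v = 0) (hnd : ∀ u, (∀ v, f u v = 0) → u = 0)
    (e : Ex T H B) (hTB : ¬ T ≤ B) {m : ℕ} (hm : 2 ≤ m) (hdim : finrank F V = 2 * m) {q : V → F} (hq : IsQ f q)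
    (hmin : ¬ ∃ U : Submodule F V, finrank F U = m ∧ ∀ u ∈ U, q u = 0)
    (hE : ∀ x : Iso (F := F) fun x y => f x y, x.1 ∈ E hq.toQ → (R.π x : G) ∈ H) {r n : ℕ} (hr : r.Prime)
    (hF : Nat.card F ^ m = 2 ^ n) (hrn : orderOf (2 : ZMod r) = n) (hrB : r ∣ Nat.card (B.subgroupOf T))
    {N : Subgroup (Iso (F := F) fun x y => f x y)} (hN2 : IsPGroup 2 N) (hN1 : N ≠ ⊥)
    (hNB : ∀ x ∈ N, (R.π x : G) ∈ B)
    (hNn : ∀ x : Iso (F := F) fun x y => f x y, (R.π x : G) ∈ B → ∀ g ∈ N, x * g * x⁻¹ ∈ N) : False := by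
  have hTs : IsSimpleGroup T := e.simple
  have hTn : T.Normal := e.normal
  have hne : ∃ v : V, v ≠ 0 := by
    have : Nontrivial V := Module.nontrivial_of_finrank_pos (R := F) (by omega)
    exact exists_ne 0
  let D : Sd T f := ⟨R, hA, hnd, hne, e.cent, e.normal⟩
  have hfinV : Finite V := Module.finite_of_finite F
  have hFV : Nat.card V = 2 ^ (2 * n) := by
    rw [Module.natCard_eq_pow_finrank (K := F), hdim, mul_comm, pow_mul, hF, ← pow_mul, mul_comm]
  have hF1 : 1 < Nat.card F := Finite.one_lt_card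
  have hn : 0 < n := by
    rcases Nat.eq_zero_or_pos n with h | h
    · exfalso
      rw [h, pow_zero] at hF
      have := Nat.one_lt_pow (show m ≠ 0 by omega) hF1
      omega
    · exact h
  have hpiinj := pi_inj (R := R) hnd hne
  -- the size
  have hsize : 2 < Nat.card F ∨ 6 ≤ finrank F V := by
    by_contra hcon
    push Not at hcon
    obtain ⟨h1, h2⟩ := hcon
    have h3 : m = 2 := by omega
    have h4 : Nat.card F = 2 := by omega
    have h5 : Nat.card T ≤ Nat.card V ^ finrank F V := by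
      have h6 : Nat.card T ≤ Nat.card (Iso (F := F) fun x y => f x y) := by
        have : Finite (V ≃ₗ[F] V) := Finite.of_injective (fun g : V ≃ₗ[F] V => (g : V → V)) DFunLike.coe_injective
        exact Nat.card_le_card_of_surjective _ R.surj
      exact h6.trans (card_gl_le _)
    rw [Module.natCard_eq_pow_finrank (K := F) (V := V), hdim, h3, h4] at h5
    have h6 := e.large_socle
    norm_num at h5
    have h7 : 3 * Nat.factorial 29 ≤ 65536 := by omega
    norm_num [Nat.factorial] at h7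
  -- `H` is the stabiliser
  have hH : H = D.stab q := by
    refine D.eq_stab e.max e.not_le hq (by omega) hsize fun x hx => ?_
    have hxI : x ∈ Iso (F := F) fun x y => f x y := by
      intro u v
      have h5 := polar_map (E_le_O hx) u v
      rwa [hq.polar, hq.polar] at h5
    rw [D.mem_pre]
    exact ⟨hxI, hE ⟨x, hxI⟩ hx⟩
  have hfac : Fac T B H := (e.fac hTB).symm
  have hfree : ∀ b ∈ B, ∀ t : G, D.ac b (D.ac t q) = D.ac t q → b = 1 := by
    intro b hb t h
    have h1 := D.conj_stab h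
    rw [← hH] at h1
    exact hfac.not_conj hb t⁻¹ (by rwa [inv_inv])
  -- the element `y`
  obtain ⟨x0, hx0B, hx0r, hx01⟩ := D.exists_y hr hrB
  have hr2 : r ≠ 2 := by
    rintro rfl
    have h1 : orderOf (2 : ZMod 2) = 0 := by
      rw [orderOf_eq_zero_iff']
      intro k hk h2
      have h3 : (2 : ZMod 2) = 0 := by decide
      rw [h3, zero_pow hk.ne'] at h2
      exact zero_ne_one h2
    omega
  have hodd : Odd r := hr.odd_of_ne_two hr2
  have hfpf : ∀ v, x0.1 v = v → v = 0 := by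
    intro v hv
    refine D.fpf_of hq hodd hx0r (fun t _ ht => ?_) hv
    rw [← hH] at ht
    have h3 := hfac.not_conj hx0B t⁻¹ (by rwa [inv_inv])
    apply hx01
    apply hpiinj
    rw [map_one]
    exact Subtype.ext h3
  -- the fixed space of `N`
  have hpre : D.pre B ≤ Iso (F := F) fun x y => f x y := fun x hx => (D.mem_pre.1 hx).1
  have hyD : x0.1 ∈ D.pre B := D.mem_pre.2 ⟨x0.2, hx0B⟩
  have hN2' : IsPGroup 2 (N.map (Iso (F := F) fun x y => f x y).subtype) := hN2.map _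
  have hN1' : N.map (Iso (F := F) fun x y => f x y).subtype ≠ ⊥ := by
    intro h
    apply hN1
    exact (Subgroup.map_eq_bot_iff_of_injective _ (Subgroup.subtype_injective _)).1 h
  have hND : N.map (Iso (F := F) fun x y => f x y).subtype ≤ D.pre B := by
    rintro _ ⟨x, hx, rfl⟩
    exact D.mem_pre.2 ⟨x.2, hNB x hx⟩
  have hNn' : ∀ x ∈ D.pre B, ∀ g ∈ N.map (Iso (F := F) fun x y => f x y).subtype,
      x * g * x⁻¹ ∈ N.map (Iso (F := F) fun x y => f x y).subtype := by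
    rintro x hx _ ⟨g, hg, rfl⟩
    obtain ⟨h1, h2⟩ := D.mem_pre.1 hx
    exact ⟨⟨x, h1⟩ * g * ⟨x, h1⟩⁻¹, hNn ⟨x, h1⟩ h2 g hg, rfl⟩
  obtain ⟨W, hWfix, hWc, hti, hperp, hinv, huniq⟩ := exists_W hA hnd hn hr hrn hFV hpre hyD hx0r hfpf hN2' hN1' hND hNn'
  have hWm : finrank F W = m := by
    have h1 := Module.natCard_eq_pow_finrank (K := F) (V := W)
    rw [hWc, ← hF] at h1
    exact (Nat.pow_right_injective hF1 h1).symm
  have hBW := D.inv_of_uniq hWc hinv huniq
  obtain ⟨q0, hq0, h0⟩ := exists_zero_form hnd hq hti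
  have C : Cs D B W q0 n :=
    { inv := hBW
      cW := hWc
      cV := hFV
      ti := hti
      perp := hperp
      hq := hq0
      zero := h0
      free := by
        intro v hv b hb h
        obtain ⟨t, -, ht⟩ := D.exists_orb hq hmin hWm hq0 h0 hv
        rw [← ht] at h
        exact hfree b hb t h
      trans := by
        intro v v' hv hv'
        obtain ⟨t, -, ht⟩ := D.exists_orb hq hmin hWm hq0 h0 hv
        obtain ⟨t', -, ht'⟩ := D.exists_orb hq hmin hWm hq0 h0 hv'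
        obtain ⟨b1, hb1, h1, hh1, e1⟩ := hfac.exists_mul t
        obtain ⟨b2, hb2, h2, hh2, e2⟩ := hfac.exists_mul t'
        rw [hH, D.mem_stab] at hh1 hh2
        refine ⟨b2 * b1⁻¹, B.mul_mem hb2 (B.inv_mem hb1), ?_⟩
        rw [← ht, ← ht', ← e1, ← e2, D.ac_mul, D.ac_mul, D.ac_mul, hh1, hh2, ← D.ac_mul b1⁻¹, inv_mul_cancel, D.ac_one]
      typ := by
        intro v hv b hb v' h
        obtain ⟨t, -, ht⟩ := D.exists_orb hq hmin hWm hq0 h0 hv
        rw [← ht, ← D.ac_mul] at h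
        exact D.orb_typ hmin hWm hq0 h0 h }
  have hbig : 2 ^ 50 ≤ 2 ^ n := by
    apply Nat.pow_le_pow_right (by norm_num)
    by_contra hcon
    have h1 := e.large
    rw [C.card_B] at h1
    have h2 : 2 ^ (n - 1) ≤ 2 ^ 48 := Nat.pow_le_pow_right (by norm_num) (by omega)
    have h3 : 2 ^ n ≤ 2 ^ 49 := Nat.pow_le_pow_right (by norm_num) (by omega)
    have h4 : 2 ^ (n - 1) * (2 ^ n - 1) ≤ 2 ^ 48 * 2 ^ 49 := Nat.mul_le_mul h2 ((Nat.sub_le _ _).trans h3)
    have h5 : 3 * Nat.factorial 29 < 2 ^ 48 * 2 ^ 49 := lt_of_lt_of_le h1 h4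
    norm_num [Nat.factorial] at h5
  have htriv := triv_quot hn hr hrn hFV hyD hx0r hfpf hN2' hND hNn' hWc hinv
  refine C.false hMain hbig hr hrn hx0B hx0r hx01 hfpf ?_
  obtain ⟨⟨a, ha⟩, ha1⟩ := Subgroup.ne_bot_iff_exists_ne_one.1 hN1
  refine ⟨D.R.π a, (D.R.π a).2, hNB a ha, ?_, fun v => ?_⟩
  · intro h
    apply ha1
    apply Subtype.ext
    apply hpiinj
    rw [Subgroup.coe_one, map_one]
    exact Subtype.ext h
  · rw [D.lf_T]
    exact htriv a.1 ⟨a, ha, rfl⟩ v

end Cfsg.Agent.H383.Rg
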