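import Cfsg.Agent.H383.Rg.Fpf

/-!
# S3691, case C-: a group regular on the minus forms and preserving a maximal totally isotropic subspace (helper383)

* `Cs D B W q0 n` : the situation; `Cs.card_B` : `|B| = 2 ^ (n - 1) (2 ^ n - 1)`;
* the semiregularity over the cosets of `W` : `Cs.exists_over`, `Cs.card_A`
-/

set_option autoImplicit false
set_option linter.unusedSectionVars false

namespace Cfsg.Agent.H383.Rg

open Module QuadraticMap
open Cfsg.Agent.BpCl (Iso)
open Cfsg.Agent.H454.Reg Cfsg.Agent.H449.Reg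
open Cfsg.Agent.H934.ArfO (T_eq_zero T_sq exists_T_one)

local notation "Tr" => Cfsg.Agent.H934.ArfO.T

universe u v

/-- the fibres of a surjective map to `ZMod 2` -/
theorem card_fib {A : Type*} [AddCommGroup A] [Finite A] (φ : A →+ ZMod 2) (hφ : ∃ a, φ a = 1) (ε : ZMod 2) :
    2 * Nat.card {a // φ a = ε} = Nat.card A := by
  classical
  obtain ⟨a1, ha1⟩ := hφ
  have := Fintype.ofFinite A
  have e1 : Nat.card {a // φ a = ε} = Nat.card {a // φ a = ε + 1} := by
    refine Nat.card_congr (Equiv.subtypeEquiv (Equiv.addRight a1) fun a => ?_)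
    rw [Equiv.coe_addRight, map_add, ha1]
    constructor
    · rintro rfl; rfl
    · intro h; exact add_right_cancel h
  have e2 : Nat.card A = Nat.card {a // φ a = ε} + Nat.card {a // ¬ φ a = ε} := by
    rw [← Nat.card_congr (Equiv.sumCompl fun a => φ a = ε), Nat.card_sum]
  have e3 : Nat.card {a // ¬ φ a = ε} = Nat.card {a // φ a = ε + 1} := by
    refine Nat.card_congr (Equiv.subtypeEquivRight fun a => ?_)
    have : ∀ x y : ZMod 2, ¬ x = y ↔ x = y + 1 := by decide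
    exact this _ _
  omega

variable {G : Type u} [Group G] {T : Subgroup G} {F : Type*} {V : Type*} [Field F] [Finite F] [CharP F 2]
  [AddCommGroup V] [Module F V] {f : LinearMap.BilinForm F V}

/-- the situation -/
structure Cs (D : Sd T f) (B : Subgroup G) (W : Submodule F V) (q0 : V → F) (n : ℕ) : Prop where
  inv : ∀ b ∈ B, ∀ w ∈ W, (D.lf b).1 w ∈ W
  cW : Nat.card W = 2 ^ n
  cV : Nat.card V = 2 ^ (2 * n)
  ti : ∀ u ∈ W, ∀ v ∈ W, f u v = 0
  perp : ∀ u, (∀ w ∈ W, f u w = 0) → u ∈ W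
  hq : IsQ f q0
  zero : ∀ w ∈ W, q0 w = 0
  free : ∀ v, Tr (q0 v) = 1 → ∀ b ∈ B, D.ac b (sh f q0 v) = sh f q0 v → b = 1
  trans : ∀ v v', Tr (q0 v) = 1 → Tr (q0 v') = 1 → ∃ b ∈ B, D.ac b (sh f q0 v) = sh f q0 v'
  typ : ∀ v, Tr (q0 v) = 1 → ∀ b ∈ B, ∀ v', D.ac b (sh f q0 v) = sh f q0 v' → Tr (q0 v') = 1

namespace Cs

variable {D : Sd T f} {B : Subgroup G} {W : Submodule F V} {q0 : V → F} {n : ℕ} (C : Cs D B W q0 n)

include C

theorem n_pos : 0 < n := by
  rcases Nat.eq_zero_or_pos n with h | h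
  · exfalso
    obtain ⟨v, hv⟩ := D.ne
    have h1 := C.cV
    rw [h, mul_zero, pow_zero, Nat.card_eq_one_iff_unique] at h1
    obtain ⟨h2, -⟩ := h1
    exact hv (Subsingleton.elim _ _)
  · exact h

theorem finV : Finite V := Nat.finite_of_card_ne_zero (by rw [C.cV]; positivity)

theorem q_add {v w : V} (hw : w ∈ W) : Tr (q0 (v + w)) = Tr (q0 v) + Tr (f v w) := by
  rw [C.hq.add, C.zero w hw, add_zero, map_add]

/-- the trace map on `W` -/
theorem exists_w {v : V} (hv : v ∉ W) : ∃ w ∈ W, Tr (f v w) = 1 := by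
  obtain ⟨w, hw, h⟩ : ∃ w ∈ W, f v w ≠ 0 := by
    by_contra hcon
    push Not at hcon
    exact hv (C.perp v hcon)
  obtain ⟨z, hz⟩ := exists_T_one F
  exact ⟨(z / f v w) • w, W.smul_mem _ hw, by rw [map_smul, smul_eq_mul, div_mul_cancel₀ _ h, hz]⟩

theorem card_half {v : V} (hv : v ∉ W) : 2 * Nat.card {w : W // Tr (q0 (v + w)) = 1} = 2 ^ n := by
  have := C.finV
  let φ : W →+ ZMod 2 :=
    { toFun := fun w => Tr (f v w)
      map_zero' := by rw [Submodule.coe_zero, map_zero, map_zero]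
      map_add' := fun a b => by rw [Submodule.coe_add, map_add, map_add] }
  obtain ⟨w, hw, h⟩ := C.exists_w hv
  have h1 := card_fib φ ⟨⟨w, hw⟩, h⟩ (1 + Tr (q0 v))
  rw [C.cW] at h1
  rw [← h1]
  congr 1
  refine Nat.card_congr (Equiv.subtypeEquivRight fun a => ?_)
  change Tr (q0 (v + a)) = 1 ↔ Tr (f v a) = 1 + Tr (q0 v)
  rw [C.q_add a.2]
  have h2 : ∀ x y : ZMod 2, x + y = 1 ↔ y = 1 + x := by decide
  exact h2 _ _

theorem card_S : Nat.card {v : V // Tr (q0 v) = 1} * 2 ^ n = (2 ^ (2 * n) - 2 ^ n) * 2 ^ (n - 1) := by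
  classical
  have := C.finV
  have := Fintype.ofFinite V
  have h1 : ∑ v : V, ∑ w : W, (if Tr (q0 (v + w)) = 1 then 1 else 0) =
      ∑ v : V, (if v ∈ W then 0 else 2 ^ (n - 1)) := by
    refine Finset.sum_congr rfl fun v _ => ?_
    split_ifs with hv
    · refine Finset.sum_eq_zero fun w _ => ?_
      rw [if_neg]
      rw [C.zero _ (W.add_mem hv w.2), map_zero]
      exact zero_ne_one
    · rw [← Finset.card_filter, ← Fintype.card_subtype, ← Nat.card_eq_fintype_card]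
      have h2 := C.card_half hv
      have h3 : 2 ^ n = 2 * 2 ^ (n - 1) := by
        rw [← pow_succ']
        congr 1
        have := C.n_pos
        omega
      omega
  have h2 : ∑ v : V, (if v ∈ W then 0 else 2 ^ (n - 1)) = (2 ^ (2 * n) - 2 ^ n) * 2 ^ (n - 1) := by
    rw [Finset.sum_ite, Finset.sum_const_zero, zero_add, Finset.sum_const, smul_eq_mul]
    congr 1
    rw [← Fintype.card_subtype, Fintype.card_subtype_compl, ← Nat.card_eq_fintype_card, C.cV]
    congr 1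
    rw [← C.cW, Nat.card_eq_fintype_card]
  have h3 : ∑ v : V, ∑ w : W, (if Tr (q0 (v + w)) = 1 then 1 else 0) = Nat.card {v : V // Tr (q0 v) = 1} * 2 ^ n := by
    rw [Finset.sum_comm]
    have h4 : ∀ w ∈ (Finset.univ : Finset W), ∑ v : V, (if Tr (q0 (v + w)) = 1 then 1 else 0) =
        Nat.card {v : V // Tr (q0 v) = 1} := by
      intro w _
      rw [Nat.card_eq_fintype_card, Fintype.card_subtype, Finset.card_filter]
      exact Fintype.sum_equiv (Equiv.addRight (w : V)) _ _ fun v => rfl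
    rw [Finset.sum_congr rfl h4, Finset.sum_const, smul_eq_mul, Finset.card_univ, ← Nat.card_eq_fintype_card, C.cW,
      mul_comm]
  rw [← h3, h1, h2]

theorem card_S' : Nat.card {v : V // Tr (q0 v) = 1} = 2 ^ (n - 1) * (2 ^ n - 1) := by
  have h1 := C.card_S
  have h2 : 2 ^ (2 * n) - 2 ^ n = (2 ^ n - 1) * 2 ^ n := by
    rw [Nat.sub_mul, one_mul, ← pow_add, two_mul]
  rw [h2] at h1
  have h3 : 0 < 2 ^ n := by positivity
  apply Nat.eq_of_mul_eq_mul_right h3
  rw [h1]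
  ring

/-- a vector over each coset -/
theorem exists_over {v : V} (hv : v ∉ W) : ∃ w ∈ W, Tr (q0 (v + w)) = 1 := by
  by_cases h : Tr (q0 v) = 1
  · exact ⟨0, W.zero_mem, by rwa [add_zero]⟩
  · obtain ⟨w, hw, h1⟩ := C.exists_w hv
    refine ⟨w, hw, ?_⟩
    rw [C.q_add hw, h1]
    have : ∀ x : ZMod 2, ¬ x = 1 → x + 1 = 1 := by decide
    exact this _ h

theorem exists_not_mem : ∃ v : V, v ∉ W := by
  by_contra hcon
  push Not at hcon
  have h1 : W = ⊤ := by rw [Submodule.eq_top_iff']; exact hcon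
  have h2 := C.cW
  rw [h1] at h2
  have h3 : Nat.card (⊤ : Submodule F V) = Nat.card V := Nat.card_congr Submodule.topEquiv.toEquiv
  rw [h3, C.cV] at h2
  have h4 := C.n_pos
  have h5 : 2 ^ n < 2 ^ (2 * n) := Nat.pow_lt_pow_right (by norm_num) (by omega)
  omega

theorem not_mem_of {v : V} (h : Tr (q0 v) = 1) : v ∉ W := fun hv => by
  rw [C.zero v hv, map_zero] at h
  exact zero_ne_one h

/-- **the order of `B`** -/
theorem card_B [FiniteDimensional F V] : Nat.card B = 2 ^ (n - 1) * (2 ^ n - 1) := by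
  rw [← C.card_S']
  obtain ⟨v0, hv0⟩ := C.exists_not_mem
  obtain ⟨w0, -, h0⟩ := C.exists_over hv0
  set v1 := v0 + w0
  have hex : ∀ b : B, ∃ v, Tr (q0 v) = 1 ∧ D.ac b.1 (sh f q0 v1) = sh f q0 v := by
    intro b
    obtain ⟨v, hv⟩ := exists_sh D.nd C.hq (D.ac_isQ b.1 (C.hq.sh v1))
    exact ⟨v, C.typ v1 h0 b.1 b.2 v hv, hv⟩
  choose φ hφ1 hφ2 using hex
  refine Nat.card_congr (Equiv.ofBijective (fun b : B => (⟨φ b, hφ1 b⟩ : {v : V // Tr (q0 v) = 1})) ⟨?_, ?_⟩)
  · intro b c hbc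
    have h1 : φ b = φ c := congrArg Subtype.val hbc
    have h2 : D.ac b.1 (sh f q0 v1) = D.ac c.1 (sh f q0 v1) := by rw [hφ2, hφ2, h1]
    have h3 : D.ac ((c⁻¹ * b : B) : G) (sh f q0 v1) = sh f q0 v1 := by
      rw [Subgroup.coe_mul, Subgroup.coe_inv, D.ac_mul, h2, ← D.ac_mul, inv_mul_cancel, D.ac_one]
    have h4 := C.free v1 h0 _ (c⁻¹ * b).2 h3
    have h5 : c⁻¹ * b = 1 := Subtype.ext h4
    exact (inv_mul_eq_one.1 h5).symm
  · rintro ⟨v, hv⟩
    obtain ⟨b, hb, h1⟩ := C.trans v1 v h0 hv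
    refine ⟨⟨b, hb⟩, Subtype.ext ?_⟩
    apply sh_inj D.nd (q := q0)
    rw [← hφ2]
    exact h1

end Cs

end Cfsg.Agent.H383.Rg
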