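import Cfsg.Agent.LieClassical.OrthTrans
import Cfsg.Agent.H934.ArfO
import Cfsg.Agent.BpCl.Rows

/-!
# S3691, case C-: quadratic forms polarising to an alternating form, characteristic 2 (helper383)

* `IsQ f q`, `sh f q v` : the forms `q` and `q + f(v, .)²`; `exists_sh`
* `tv` : transvections; `same_type` : `sh f q v` and `sh f q v'` are conjugate under a transvection if the traces of `q v`, `q v'` are equal
-/

set_option autoImplicit false
set_option linter.unusedSectionVars false

namespace Cfsg.Agent.H383.Rg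

open Module QuadraticMap
open Cfsg.Agent.LieClassical.OrthCore Cfsg.Agent.LieClassical.OrthTrans
open Cfsg.Agent.BpCl (Iso)
open Cfsg.Agent.H934.ArfO (T T_eq_zero T_sq exists_T_one)

section

variable {F V : Type*} [Field F] [Finite F] [CharP F 2] [AddCommGroup V] [Module F V]
  {f : LinearMap.BilinForm F V}

/-- `q` is a quadratic form polarising to `f` -/
structure IsQ (f : LinearMap.BilinForm F V) (q : V → F) : Prop where
  add : ∀ x y, q (x + y) = q x + q y + f x y
  smul : ∀ (a : F) x, q (a • x) = a ^ 2 * q x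

theorem add_self' (x : F) : x + x = 0 := CharTwo.add_self_eq_zero x

variable (F) in
include F in
theorem vadd_self (x : V) : x + x = 0 := by
  have h : (2 : F) • x = x + x := two_smul F x
  rw [← h, CharTwo.two_eq_zero, zero_smul]

theorem sq_add (a b : F) : (a + b) ^ 2 = a ^ 2 + b ^ 2 := CharTwo.add_sq a b

/-- `q + f(v, .)²` -/
def sh (f : LinearMap.BilinForm F V) (q : V → F) (v : V) : V → F := fun x => q x + f v x ^ 2

theorem sh_apply (q : V → F) (v x : V) : sh f q v x = q x + f v x ^ 2 := rfl

theorem IsQ.sh {q : V → F} (hq : IsQ f q) (v : V) : IsQ f (sh f q v) := by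
  refine ⟨fun x y => ?_, fun a x => ?_⟩
  · rw [sh_apply, sh_apply, sh_apply, hq.add, map_add, sq_add]
    ring
  · rw [sh_apply, sh_apply, hq.smul, map_smul, smul_eq_mul]
    ring

theorem sh_sh (q : V → F) (v w : V) : Rg.sh f (Rg.sh f q v) w = Rg.sh f q (v + w) := by
  funext x
  rw [sh_apply, sh_apply, sh_apply, map_add, LinearMap.add_apply, sq_add]
  ring

theorem sh_zero (q : V → F) : Rg.sh f q 0 = q := by
  funext x
  rw [sh_apply, map_zero, LinearMap.zero_apply]
  ring

theorem sh_inj (hnd : ∀ u, (∀ v, f u v = 0) → u = 0) {q : V → F} {v w : V} (h : Rg.sh f q v = Rg.sh f q w) : v = w := by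
  rw [← sub_eq_zero]
  apply hnd
  intro x
  have h1 := congrFun h x
  rw [sh_apply, sh_apply] at h1
  have h2 : (f v x + f w x) ^ 2 = 0 := by
    rw [sq_add]
    have : f v x ^ 2 = f w x ^ 2 := add_left_cancel h1
    rw [this, add_self']
  have h3 := pow_eq_zero_iff (two_ne_zero) |>.1 h2
  rw [map_sub, LinearMap.sub_apply, CharTwo.sub_eq_add, h3]

theorem IsQ.zero {q : V → F} (hq : IsQ f q) : q 0 = 0 := by
  have := hq.smul 0 0
  rw [zero_smul] at this
  rw [this]
  ring

theorem IsQ.symm {q : V → F} (hq : IsQ f q) (x y : V) : f x y = f y x := by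
  have h1 := hq.add x y
  have h2 := hq.add y x
  rw [add_comm y x, h1] at h2
  linear_combination h2

theorem IsQ.self {q : V → F} (hq : IsQ f q) (x : V) : f x x = 0 := by
  have h1 := hq.add x x
  rw [vadd_self F, hq.zero, add_self', zero_add] at h1
  exact h1.symm

/-- the difference of two forms -/
theorem exists_sh [FiniteDimensional F V] (hnd : ∀ u, (∀ v, f u v = 0) → u = 0) {q q' : V → F} (hq : IsQ f q)
    (hq' : IsQ f q') : ∃ v, q' = Rg.sh f q v := by
  have hperf : Function.Bijective (fun a : F => a ^ 2) := by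
    rw [← Finite.injective_iff_bijective]
    intro a b hab
    have h1 : (a + b) ^ 2 = 0 := by
      rw [sq_add, show a ^ 2 = b ^ 2 from hab, add_self']
    have h2 := pow_eq_zero_iff (two_ne_zero) |>.1 h1
    exact (CharTwo.add_eq_zero).1 h2
  obtain ⟨s, hs⟩ : ∃ s : F → F, ∀ a, s a ^ 2 = a := by
    choose s hs using hperf.2
    exact ⟨s, hs⟩
  have hinj := hperf.1
  let l : V →ₗ[F] F :=
    { toFun := fun x => s (q x + q' x)
      map_add' := fun x y => by
        apply hinj
        change s _ ^ 2 = (s _ + s _) ^ 2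
        rw [sq_add, hs, hs, hs, hq.add, hq'.add]
        have := add_self' (f x y)
        linear_combination this
      map_smul' := fun a x => by
        apply hinj
        change s _ ^ 2 = (a * s _) ^ 2
        rw [mul_pow, hs, hs, hq.smul, hq'.smul]
        ring }
  obtain ⟨v, hv⟩ := (LinearMap.injective_iff_surjective_of_finrank_eq_finrank
    (f := (f : V →ₗ[F] Module.Dual F V)) (Subspace.dual_finrank_eq).symm).1 (by
      intro u w huw
      rw [← sub_eq_zero]
      apply hnd
      intro y
      rw [map_sub, huw, sub_self, LinearMap.zero_apply]) l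
  refine ⟨v, ?_⟩
  funext x
  have h1 : f v x = s (q x + q' x) := LinearMap.congr_fun hv x
  rw [sh_apply, h1, hs]
  have := add_self' (q x)
  linear_combination -this

/-! ### transvections -/

/-- the transvection `x ↦ x + c f(v, x) v` -/
def tv (hA : ∀ v, f v v = 0) (v : V) (c : F) : V ≃ₗ[F] V :=
  LinearEquiv.ofLinearMap (LinearMap.id + (c • f v).smulRight v) (LinearMap.id + (c • f v).smulRight v)
    (by
      ext x
      change (x + (c * f v x) • v) + (c * f v (x + (c * f v x) • v)) • v = x
      rw [map_add, map_smul, hA, smul_zero, add_zero, add_assoc, vadd_self F, add_zero])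
    (by
      ext x
      change (x + (c * f v x) • v) + (c * f v (x + (c * f v x) • v)) • v = x
      rw [map_add, map_smul, hA, smul_zero, add_zero, add_assoc, vadd_self F, add_zero])

theorem tv_apply (hA : ∀ v, f v v = 0) (v : V) (c : F) (x : V) : tv hA v c x = x + (c * f v x) • v := rfl

theorem symm_of_alt (hA : ∀ v, f v v = 0) (x y : V) : f x y = f y x := by
  have h := hA (x + y)
  have h1 : f x y + f y x = 0 := by
    rw [map_add, LinearMap.map_add₂, LinearMap.map_add₂, hA, hA, zero_add, add_zero] at h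
    rw [add_comm]
    exact h
  exact CharTwo.add_eq_zero.1 h1

theorem tv_mem (hA : ∀ v, f v v = 0) (v : V) (c : F) : tv hA v c ∈ Iso (fun x y => f x y) := by
  intro x y
  change f (tv hA v c x) (tv hA v c y) = f x y
  rw [tv_apply, tv_apply, map_add, map_add, LinearMap.add_apply, LinearMap.add_apply, map_smul, map_smul,
    map_smul, LinearMap.smul_apply, LinearMap.smul_apply, hA, symm_of_alt hA x v, smul_zero, smul_zero, add_zero,
    smul_eq_mul, smul_eq_mul]
  have := add_self' (c * f v x * f v y)
  linear_combination this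

theorem tv_q (hA : ∀ v, f v v = 0) {q : V → F} (hq : IsQ f q) (v : V) (c : F) (x : V) :
    q (tv hA v c x) = q x + (c + c ^ 2 * q v) * f v x ^ 2 := by
  rw [tv_apply, hq.add, hq.smul, map_smul, smul_eq_mul, symm_of_alt hA x v]
  ring

/-- `sh f q v` is conjugate to `q` if the trace of `q v` is zero -/
theorem exists_tv (hA : ∀ v, f v v = 0) {q : V → F} (hq : IsQ f q) {v : V} (h : T (q v) = 0) :
    ∃ c : F, ∀ x, q (tv hA v c x) = Rg.sh f q v x := by
  obtain ⟨s, hs⟩ := T_eq_zero.1 h
  rcases eq_or_ne (q v) 0 with h0 | h0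
  · refine ⟨1, fun x => ?_⟩
    rw [tv_q hA hq, h0, sh_apply]
    ring
  · refine ⟨s / q v, fun x => ?_⟩
    rw [tv_q hA hq, sh_apply]
    have : s / q v + (s / q v) ^ 2 * q v = 1 := by
      field_simp
      rw [← hs]
      ring
    rw [this, one_mul]

/-- **forms of the same type are conjugate** -/
theorem same_type (hA : ∀ v, f v v = 0) {q : V → F} (hq : IsQ f q) {v v' : V} (h : T (q v) = T (q v')) :
    ∃ t ∈ Iso (fun x y => f x y), ∀ x, Rg.sh f q v (t x) = Rg.sh f q v' x := by
  have h1 : T (Rg.sh f q v (v + v')) = 0 := by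
    rw [sh_apply, hq.add, map_add (f v), hA, zero_add]
    have h2 : q v + q v' + f v v' + f v v' ^ 2 = (q v + q v') + (f v v' ^ 2 + f v v') := by ring
    rw [h2, map_add, map_add, h, T_eq_zero.2 ⟨f v v', rfl⟩, add_zero]
    have h3 : ∀ a : ZMod 2, a + a = 0 := by decide
    exact h3 _
  obtain ⟨c, hc⟩ := exists_tv hA (hq.sh v) h1
  refine ⟨tv hA (v + v') c, tv_mem hA (v + v') c, fun x => ?_⟩
  rw [hc, sh_sh, ← add_assoc, vadd_self F, zero_add]

/-- the quadratic form of the library -/
def IsQ.toQ {q : V → F} (hq : IsQ f q) : QuadraticForm F V :=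
  QuadraticMap.ofPolar q (fun a x => by rw [hq.smul, pow_two, smul_eq_mul])
    (fun x x' y => by
      change q (x + x' + y) - q (x + x') - q y = (q (x + y) - q x - q y) + (q (x' + y) - q x' - q y)
      rw [hq.add (x + x') y, hq.add x y, hq.add x' y, map_add, LinearMap.add_apply]
      ring)
    (fun a x y => by
      change q (a • x + y) - q (a • x) - q y = a • (q (x + y) - q x - q y)
      rw [hq.add, hq.add x y, map_smul, LinearMap.smul_apply, smul_eq_mul, smul_eq_mul]
      ring)

theorem IsQ.toQ_apply {q : V → F} (hq : IsQ f q) (x : V) : hq.toQ x = q x := rfl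

theorem IsQ.polar {q : V → F} (hq : IsQ f q) (x y : V) : QuadraticMap.polar hq.toQ x y = f x y := by
  change q (x + y) - q x - q y = f x y
  rw [hq.add]
  ring

theorem IsQ.nondeg {q : V → F} (hq : IsQ f q) (hnd : ∀ u, (∀ v, f u v = 0) → u = 0) : Nondeg hq.toQ := by
  intro x hx
  apply hnd
  intro y
  rw [← hq.polar]
  exact hx y

end

end Cfsg.Agent.H383.Rg
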