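import Cfsg.Agent.H383.Rg.Stab

/-!
# S3691, case C-: an element of order `r` and the fixed space of a normal 2-subgroup (helper383)

* `fpf` : an element of odd order fixing no form conjugate to `q` has no fixed vectors;
* `card_inv` : the subgroups invariant under an element of prime order `r`, `orderOf (2 : ZMod r) = n`, `|V| = 2 ^ (2 n)`;
* `exists_W` : the fixed space of a normal 2-subgroup is a maximal totally isotropic subspace, invariant, unique.
-/

set_option autoImplicit false
set_option linter.unusedSectionVars false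

namespace Cfsg.Agent.H383.Rg

open Module QuadraticMap
open Cfsg.Agent.LieClassical.OrthCore Cfsg.Agent.LieClassical.OrthTrans
open Cfsg.Agent.BpCl (Iso)
open Cfsg.Agent.H934.ArfO (T_eq_zero T_sq exists_T_one)

local notation "Tr" => Cfsg.Agent.H934.ArfO.T

variable {F V : Type*} [Field F] [Finite F] [CharP F 2] [AddCommGroup V] [Module F V]
  {f : LinearMap.BilinForm F V}

theorem nat_odd_cast {r : ℕ} (hr : Odd r) : (r : F) = 1 := by
  obtain ⟨k, rfl⟩ := hr
  push_cast
  rw [CharTwo.two_eq_zero, zero_mul, zero_add]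

/-- the sum over the powers of `y` is fixed -/
theorem sum_fix {A : Type*} [AddCommGroup A] {r : ℕ} {y : V ≃ₗ[F] V} (hy : y ^ r = 1) (φ : V → A) (v : V) :
    ∑ i ∈ Finset.range r, φ ((y ^ i) (y v)) = ∑ i ∈ Finset.range r, φ ((y ^ i) v) := by
  have h1 := Finset.sum_range_succ (fun i => φ ((y ^ i) v)) r
  have h2 := Finset.sum_range_succ' (fun i => φ ((y ^ i) v)) r
  rw [hy] at h1
  rw [h1] at h2
  have h3 : ∀ i, (y ^ (i + 1)) v = (y ^ i) (y v) := by
    intro i
    rw [pow_succ]
    rfl
  simp only [h3, pow_zero] at h2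
  exact (add_right_cancel h2).symm

theorem pow_Iso {y : V ≃ₗ[F] V} (hy : y ∈ Iso (F := F) fun x y => f x y) (i : ℕ) (u v : V) :
    f ((y ^ i) u) ((y ^ i) v) = f u v :=
  (Iso (F := F) fun x y => f x y).pow_mem hy i u v

/-- **no fixed vectors** -/
theorem fpf [FiniteDimensional F V] (hA : ∀ v, f v v = 0) (hnd : ∀ u, (∀ v, f u v = 0) → u = 0) {q : V → F}
    (hq : IsQ f q) {y : V ≃ₗ[F] V} (hy : y ∈ Iso (F := F) fun x y => f x y) {r : ℕ} (hr : Odd r) (hyr : y ^ r = 1)
    (hno : ∀ x ∈ Iso (F := F) (fun x y => f x y), ¬ ∀ z, q (x⁻¹ (y (x z))) = q z) {e : V} (he : y e = e) : e = 0 := by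
  by_contra he0
  -- a fixed form
  have hq' : IsQ f (fun v => ∑ i ∈ Finset.range r, q ((y ^ i) v)) := by
    refine ⟨fun a b => ?_, fun a b => ?_⟩
    · simp only [map_add, hq.add]
      rw [Finset.sum_add_distrib, Finset.sum_add_distrib]
      congr 1
      simp only [pow_Iso hy]
      rw [Finset.sum_const, Finset.card_range, nsmul_eq_mul, nat_odd_cast hr, one_mul]
    · simp only [map_smul, hq.smul]
      rw [Finset.mul_sum]
  set q' : V → F := fun v => ∑ i ∈ Finset.range r, q ((y ^ i) v) with hq'd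
  have hfix : ∀ v, q' (y v) = q' v := fun v => sum_fix hyr q v
  -- a fixed vector not singular
  have hpe : ∀ {e : V}, y e = e → ∀ i, (y ^ i) e = e := by
    intro e he i
    induction i with
    | zero => rfl
    | succ i ih =>
      rw [pow_succ]
      change (y ^ i) (y e) = e
      rw [he, ih]
  obtain ⟨e1, he1, hq1⟩ : ∃ e1, y e1 = e1 ∧ q' e1 ≠ 0 := by
    by_cases h0 : q' e = 0
    · obtain ⟨v, hv⟩ : ∃ v, f e v = 1 := by
        by_contra hcon
        push Not at hcon
        apply he0
        apply hnd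
        intro v
        by_contra h1
        exact hcon ((f e v)⁻¹ • v) (by rw [map_smul, smul_eq_mul, inv_mul_cancel₀ h1])
      set s : V := ∑ i ∈ Finset.range r, (y ^ i) v with hs
      have hys : y s = s := by
        have h1 := sum_fix hyr (fun v => v) v
        rw [hs, map_sum]
        rw [← h1]
        refine Finset.sum_congr rfl fun i _ => ?_
        change (y * y ^ i) v = (y ^ i * y) v
        rw [← pow_succ', pow_succ]
      have hes : f e s = 1 := by
        rw [hs, map_sum]
        have h1 : ∀ i ∈ Finset.range r, f e ((y ^ i) v) = 1 := by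
          intro i _
          have h2 := pow_Iso hy i e v
          rw [hpe he, hv] at h2
          exact h2
        rw [Finset.sum_congr rfl h1, Finset.sum_const, Finset.card_range, nsmul_eq_mul, nat_odd_cast hr, one_mul]
      by_cases h1 : q' s = 0
      · refine ⟨e + s, by rw [map_add, he, hys], ?_⟩
        rw [hq'.add, h0, h1, hes, add_zero, zero_add]
        exact one_ne_zero
      · exact ⟨s, hys, h1⟩
    · exact ⟨e, he, h0⟩
  obtain ⟨c, hc⟩ := exists_T_one F
  obtain ⟨a, ha⟩ := exists_sq (F := F) (c / q' e1)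
  have hw : Tr (q' (a • e1)) = 1 := by
    rw [hq'.smul, ha, div_mul_cancel₀ _ hq1, hc]
  have hyw : y (a • e1) = a • e1 := by rw [map_smul, he1]
  have hfix2 : ∀ v, sh f q' (a • e1) (y v) = sh f q' (a • e1) v := by
    intro v
    rw [sh_apply, sh_apply, hfix]
    have h1 : f (y (a • e1)) (y v) = f (a • e1) v := hy _ _
    rw [hyw] at h1
    rw [h1]
  obtain ⟨x, hx, h1 | h1⟩ := orb_two hA hnd hq hq' hw
  · refine hno x hx fun z => ?_
    rw [← h1, ← h1]
    have h2 : x (x⁻¹ (y (x z))) = y (x z) := x.apply_symm_apply _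
    rw [h2, hfix]
  · refine hno x hx fun z => ?_
    rw [← h1, ← h1]
    have h2 : x (x⁻¹ (y (x z))) = y (x z) := x.apply_symm_apply _
    rw [h2, hfix2]

/-- sizes of the invariant subgroups -/
theorem card_inv {A : Type*} [AddCommGroup A] [Finite A] {n r : ℕ} (hr : r.Prime) (hrn : orderOf (2 : ZMod r) = n)
    {k : ℕ} (hk : Nat.card A = 2 ^ k) (y : A → A) (hyr : y^[r] = id) (h0 : y 0 = 0)
    (hfpf : ∀ a, y a = a → a = 0) : n ∣ k := by
  classical
  have := Fact.mk hr
  have := Fintype.ofFinite A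
  have h1 : Fintype.card A ≡ Fintype.card (Function.fixedPoints y) [MOD r] := by
    have h2 := Equiv.Perm.card_fixedPoints_modEq (f := (show Function.End A from y)) (p := r) (n := 1) (by
      rw [pow_one]
      funext a
      have h3 := congrFun hyr a
      have h4 : ∀ (m : ℕ) (g : Function.End A) (a : A), (g ^ m) a = (g : A → A)^[m] a := by
        intro m g
        induction m with
        | zero => intro a; rfl
        | succ m ih =>
          intro a
          rw [pow_succ]
          exact ih (g a)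
      rw [h4]
      exact h3)
    convert h2
  have h2 : Fintype.card (Function.fixedPoints y) = 1 := by
    rw [Fintype.card_eq_one_iff]
    exact ⟨⟨0, h0⟩, fun a => Subtype.ext (hfpf a.1 a.2)⟩
  rw [h2, ← Nat.card_eq_fintype_card, hk] at h1
  rw [← hrn, orderOf_dvd_iff_pow_eq_one]
  have h3 := (ZMod.natCast_eq_natCast_iff _ _ _).2 h1
  push_cast at h3
  exact h3

/-- the sizes of the invariant subgroups of `V` -/
theorem card_inv_V [Finite V] {n r : ℕ} (hn : 0 < n) (hr : r.Prime) (hrn : orderOf (2 : ZMod r) = n)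
    (hV : Nat.card V = 2 ^ (2 * n)) {y : V ≃ₗ[F] V} (hyr : y ^ r = 1) (hfpf : ∀ v, y v = v → v = 0)
    (X : AddSubgroup V) (hX : ∀ v ∈ X, y v ∈ X) : Nat.card X = 1 ∨ Nat.card X = 2 ^ n ∨ X = ⊤ := by
  obtain ⟨k, hk, hk2⟩ := (Nat.dvd_prime_pow Nat.prime_two).1 (hV ▸ X.card_addSubgroup_dvd_card)
  have h1 : n ∣ k := by
    refine card_inv hr hrn hk2 (fun v => ⟨y v, hX v v.2⟩) ?_ (Subtype.ext (map_zero y))
      (fun a ha => Subtype.ext (hfpf a.1 (congrArg Subtype.val ha)))
    funext v
    have h2 : ∀ (m : ℕ) (v : X), ((fun v : X => (⟨y v, hX v v.2⟩ : X))^[m] v : V) = (y ^ m) v := by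
      intro m
      induction m with
      | zero => intro v; rfl
      | succ m ih =>
        intro v
        rw [Function.iterate_succ_apply, ih, pow_succ]
        rfl
    apply Subtype.ext
    rw [h2, hyr]
    rfl
  obtain ⟨j, rfl⟩ := h1
  have h3 : j ≤ 2 := by
    by_contra hcon
    have : n * 3 ≤ n * j := Nat.mul_le_mul_left n (by omega)
    omega
  rcases (by omega : j = 0 ∨ j = 1 ∨ j = 2) with rfl | rfl | rfl
  · left; rw [hk2]; simp
  · right; left; rw [hk2, mul_one]
  · right; right
    rw [← AddSubgroup.card_eq_iff_eq_top, hk2, hV, mul_comm]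

/-- a 2-group has a nonzero fixed vector in an invariant subgroup -/
theorem exists_fixed_vec [Finite V] {N : Subgroup (V ≃ₗ[F] V)} (hN : IsPGroup 2 N) (X : AddSubgroup V) (hX0 : X ≠ ⊥)
    (hX : ∀ g ∈ N, ∀ v ∈ X, g v ∈ X) : ∃ v ∈ X, v ≠ 0 ∧ ∀ g ∈ N, g v = v := by
  have : Fact (Nat.Prime 2) := ⟨Nat.prime_two⟩
  let act : MulAction N X :=
    { smul := fun g v => ⟨g.1 v, hX g.1 g.2 v v.2⟩
      one_smul := fun v => rfl
      mul_smul := fun g h v => rfl }
  have hcard : 2 ∣ Nat.card X := by
    obtain ⟨v, hv0⟩ := AddSubgroup.ne_bot_iff_exists_ne_zero.1 hX0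
    have h1 : addOrderOf v = 2 := by
      apply addOrderOf_eq_prime
      · apply Subtype.ext
        change 2 • v.1 = 0
        rw [two_smul, vadd_self F]
      · exact hv0
    rw [← h1]
    exact addOrderOf_dvd_natCard _
  obtain ⟨v, hv, hv0⟩ := hN.exists_fixed_point_of_prime_dvd_card_of_fixed_point (α := X) hcard (a := 0) (by
    intro g
    exact Subtype.ext (map_zero g.1))
  refine ⟨v.1, v.2, fun h => hv0 (Subtype.ext h.symm), fun g hg => ?_⟩
  exact congrArg Subtype.val (hv ⟨g, hg⟩)

/-- **the fixed space of a normal 2-subgroup** -/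
theorem exists_W [FiniteDimensional F V] [Finite V] (hA : ∀ v, f v v = 0) (hnd : ∀ u, (∀ v, f u v = 0) → u = 0)
    {n r : ℕ} (hn : 0 < n) (hr : r.Prime) (hrn : orderOf (2 : ZMod r) = n) (hV : Nat.card V = 2 ^ (2 * n))
    {D0 : Subgroup (V ≃ₗ[F] V)} (hDI : D0 ≤ Iso (F := F) fun x y => f x y) {y : V ≃ₗ[F] V} (hyD : y ∈ D0)
    (hyr : y ^ r = 1) (hfpf : ∀ v, y v = v → v = 0) {N : Subgroup (V ≃ₗ[F] V)} (hN : IsPGroup 2 N) (hN1 : N ≠ ⊥)
    (hND : N ≤ D0) (hNn : ∀ x ∈ D0, ∀ g ∈ N, x * g * x⁻¹ ∈ N) :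
    ∃ W : Submodule F V, (∀ w, w ∈ W ↔ ∀ g ∈ N, g w = w) ∧ Nat.card W = 2 ^ n ∧ (∀ u ∈ W, ∀ v ∈ W, f u v = 0) ∧
      (∀ u, (∀ w ∈ W, f u w = 0) → u ∈ W) ∧ (∀ x ∈ D0, ∀ w ∈ W, x w ∈ W) ∧
      ∀ X : AddSubgroup V, (∀ x ∈ D0, ∀ v ∈ X, x v ∈ X) → Nat.card X = 2 ^ n → X = W.toAddSubgroup := by
  have hinvapp : ∀ (x : V ≃ₗ[F] V) (v : V), x (x⁻¹ v) = v := fun x v => x.apply_symm_apply v
  have h2n : 2 ^ n < 2 ^ (2 * n) := Nat.pow_lt_pow_right (by norm_num) (by omega)
  have h1n : 1 < 2 ^ n := Nat.one_lt_two_pow (by omega)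
  let W : Submodule F V :=
    { carrier := {w | ∀ g ∈ N, g w = w}
      add_mem' := fun {a b} ha hb g hg => by rw [map_add, ha g hg, hb g hg]
      zero_mem' := fun g _ => map_zero g
      smul_mem' := fun c v hv g hg => by rw [map_smul, hv g hg] }
  have hW : ∀ w, w ∈ W ↔ ∀ g ∈ N, g w = w := fun w => Iff.rfl
  have hWinv : ∀ x ∈ D0, ∀ w ∈ W, x w ∈ W := by
    intro x hx w hw g hg
    have h1 := hw _ (hNn x⁻¹ (inv_mem hx) g hg)
    rw [inv_inv] at h1
    have h2 : (x⁻¹ * g * x) w = x⁻¹ (g (x w)) := rfl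
    rw [h2] at h1
    have h3 := congrArg x h1
    rwa [hinvapp] at h3
  have hW0 : W ≠ ⊥ := by
    obtain ⟨v, -, hv0, hv⟩ := exists_fixed_vec hN (⊤ : AddSubgroup V) (by
      intro h
      have h1 : Nat.card (⊤ : AddSubgroup V) = 1 := by rw [h]; exact AddSubgroup.card_bot
      rw [AddSubgroup.card_top, hV] at h1
      omega) (fun _ _ _ _ => AddSubgroup.mem_top _)
    intro h
    apply hv0
    have h1 : v ∈ W := hv
    rwa [h, Submodule.mem_bot] at h1
  have hWt : W ≠ ⊤ := by
    intro h
    apply hN1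
    rw [Subgroup.eq_bot_iff_forall]
    intro g hg
    apply LinearEquiv.ext
    intro v
    have h1 : v ∈ W := by rw [h]; exact Submodule.mem_top
    exact h1 g hg
  have hWc : Nat.card W = 2 ^ n := by
    rcases card_inv_V hn hr hrn hV hyr hfpf W.toAddSubgroup (fun v hv => hWinv y hyD v hv) with h | h | h
    · exfalso
      apply hW0
      rw [Submodule.eq_bot_iff]
      intro w hw
      have h1 := AddSubgroup.card_eq_one.1 h
      have h2 : w ∈ W.toAddSubgroup := hw
      rwa [h1, AddSubgroup.mem_bot] at h2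
    · exact h
    · exfalso
      apply hWt
      rw [Submodule.eq_top_iff']
      intro w
      have h2 : w ∈ W.toAddSubgroup := by rw [h]; exact AddSubgroup.mem_top _
      exact h2
  -- the perpendicular space
  let P : Submodule F V :=
    { carrier := {u | ∀ w ∈ W, f u w = 0}
      add_mem' := fun {a b} ha hb w hw => by rw [map_add, LinearMap.add_apply, ha w hw, hb w hw, add_zero]
      zero_mem' := fun w _ => by rw [map_zero, LinearMap.zero_apply]
      smul_mem' := fun c v hv w hw => by rw [map_smul, LinearMap.smul_apply, hv w hw, smul_zero] }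
  have hPinv : ∀ x ∈ D0, ∀ w ∈ P, x w ∈ P := by
    intro x hx u hu w hw
    have h1 := hDI hx u (x⁻¹ w)
    change f (x u) (x (x⁻¹ w)) = f u (x⁻¹ w) at h1
    rw [hinvapp] at h1
    rw [h1]
    exact hu _ (hWinv _ (inv_mem hx) w hw)
  have hP0 : P ≠ ⊥ := by
    intro h
    apply hWt
    apply Submodule.eq_top_of_finrank_eq
    apply le_antisymm (Submodule.finrank_le W)
    let φ : V →ₗ[F] (Module.Dual F W) := (LinearMap.lcomp F F W.subtype).comp f
    have hφ : Function.Injective φ := by
      rw [← LinearMap.ker_eq_bot, eq_bot_iff]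
      intro u hu
      rw [← h]
      intro w hw
      have h1 := LinearMap.congr_fun (LinearMap.mem_ker.1 hu) ⟨w, hw⟩
      exact h1
    have h1 := LinearMap.finrank_le_finrank_of_injective hφ
    rwa [Subspace.dual_finrank_eq] at h1
  have hti : W ≤ P := by
    have h1 : Nat.card (W ⊓ P : Submodule F V) ≤ 2 ^ n := by
      rw [← hWc]
      exact Nat.card_le_card_of_injective (Submodule.inclusion (inf_le_left : W ⊓ P ≤ W))
        (Submodule.inclusion_injective _)
    rcases card_inv_V hn hr hrn hV hyr hfpf (W ⊓ P).toAddSubgroup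
      (fun v hv => ⟨hWinv y hyD v hv.1, hPinv y hyD v hv.2⟩) with h | h | h
    · exfalso
      obtain ⟨v, hv, hv0, hvN⟩ := exists_fixed_vec hN P.toAddSubgroup (by
        intro h
        apply hP0
        rw [Submodule.eq_bot_iff]
        intro w hw
        have h2 : w ∈ P.toAddSubgroup := hw
        rwa [h, AddSubgroup.mem_bot] at h2) (fun g hg v hv => hPinv g (hND hg) v hv)
      have h2 : v ∈ (W ⊓ P).toAddSubgroup := ⟨hvN, hv⟩
      rw [AddSubgroup.card_eq_one.1 h, AddSubgroup.mem_bot] at h2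
      exact hv0 h2
    · have h2 : W ⊓ P = W := by
        apply Submodule.toAddSubgroup_injective
        apply AddSubgroup.eq_of_le_of_card_ge
        · exact fun v hv => hv.1
        · rw [h]; exact hWc.le
      exact inf_eq_left.1 h2
    · exfalso
      have h2 : Nat.card (W ⊓ P).toAddSubgroup = 2 ^ (2 * n) := by
        rw [h, AddSubgroup.card_top, hV]
      have h3 : Nat.card (W ⊓ P).toAddSubgroup ≤ 2 ^ n := h1
      omega
  have hPW : P = W := by
    rcases card_inv_V hn hr hrn hV hyr hfpf P.toAddSubgroup (fun v hv => hPinv y hyD v hv) with h | h | h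
    · exfalso
      apply hP0
      rw [Submodule.eq_bot_iff]
      intro w hw
      have h2 : w ∈ P.toAddSubgroup := hw
      rwa [AddSubgroup.card_eq_one.1 h, AddSubgroup.mem_bot] at h2
    · symm
      apply Submodule.toAddSubgroup_injective
      apply AddSubgroup.eq_of_le_of_card_ge
      · exact fun v hv => hti hv
      · rw [h]; exact hWc.ge
    · exfalso
      apply hW0
      rw [Submodule.eq_bot_iff]
      intro w hw
      -- `f v w = 0` for all `v`, symmetric
      have h3 : ∀ v, f v w = 0 := by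
        intro v
        have h4 : v ∈ P.toAddSubgroup := by rw [h]; exact AddSubgroup.mem_top _
        exact h4 w hw
      exact hnd w fun v => by rw [symm_of_alt hA w v, h3]
  refine ⟨W, hW, hWc, fun u hu v hv => hti hu v hv, fun u hu => ?_, hWinv, fun X hX hXc => ?_⟩
  · rw [← hPW]
    exact hu
  · have hXt : X ≠ ⊤ := by
      rintro rfl
      rw [AddSubgroup.card_top, hV] at hXc
      omega
    rcases card_inv_V hn hr hrn hV hyr hfpf (X ⊓ W.toAddSubgroup)
      (fun v hv => ⟨hX y hyD v hv.1, hWinv y hyD v hv.2⟩) with h | h | h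
    · exfalso
      obtain ⟨v, hv, hv0, hvN⟩ := exists_fixed_vec hN X (by
        rintro rfl
        rw [AddSubgroup.card_bot] at hXc
        omega) (fun g hg v hv => hX g (hND hg) v hv)
      have h2 : v ∈ X ⊓ W.toAddSubgroup := ⟨hv, hvN⟩
      rw [AddSubgroup.card_eq_one.1 h, AddSubgroup.mem_bot] at h2
      exact hv0 h2
    · have h2 : X ⊓ W.toAddSubgroup = X := by
        apply AddSubgroup.eq_of_le_of_card_ge inf_le_left
        rw [h, hXc]
      have h3 : X ⊓ W.toAddSubgroup = W.toAddSubgroup := by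
        apply AddSubgroup.eq_of_le_of_card_ge inf_le_right
        rw [h]
        exact hWc.le
      rw [← h2, h3]
    · exfalso
      apply hXt
      rw [eq_top_iff, ← h]
      exact inf_le_left

end Cfsg.Agent.H383.Rg
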