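import Cfsg.Agent.H383.Rg.AllTv

/-!
# S3691, case C-: elements of odd order of the orthogonal group, characteristic 2 (helper383)

* `odd_mem_E` : an element of odd order of `O(q)` is in `E(q)`, dimension at least 4.
-/

set_option autoImplicit false
set_option linter.unusedSectionVars false

namespace Cfsg.Agent.H383.Rg

open Module QuadraticMap
open Cfsg.Agent.LieClassical.OrthCore Cfsg.Agent.LieClassical.OrthTrans
open Cfsg.Agent.BpCl (Iso)

variable {F V : Type*} [Field F] [Finite F] [CharP F 2] [AddCommGroup V] [Module F V]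
  {f : LinearMap.BilinForm F V}

theorem rf_apply {q : V → F} (hq : IsQ f q) {v : V} (hv : hq.toQ v ≠ 0) (x : V) :
    refl hq.toQ v hv x = x + ((q v)⁻¹ * f v x) • v := by
  rw [refl_apply, hq.polar, vsub F]
  rfl

/-- orthogonal reflections of the same norm -/
theorem rf_rf_same {q : V → F} (hq : IsQ f q) {v w : V} (hv : hq.toQ v ≠ 0) (hw : hq.toQ w ≠ 0) (h : q v = q w)
    (ho : f v w = 0) : refl hq.toQ v hv * refl hq.toQ w hw ∈ E hq.toQ := by
  have hA := hq.self
  have hs := symm_of_alt hA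
  have hu : hq.toQ (v + w) = 0 := by
    change q (v + w) = 0
    rw [hq.add, ho, h, add_zero, add_self']
  have hqv : q v ≠ 0 := hv
  have hw' : polar hq.toQ (v + w) ((q v)⁻¹ • v) = 0 := by
    rw [hq.polar, map_smul, map_add, LinearMap.add_apply, hA, zero_add, hs w v, ho, smul_zero]
  have e : refl hq.toQ v hv * refl hq.toQ w hw = siegel hq.toQ (v + w) ((q v)⁻¹ • v) hu hw' := by
    apply LinearEquiv.ext
    intro x
    change refl hq.toQ v hv (refl hq.toQ w hw x) = _
    rw [rf_apply, rf_apply, sgl_apply hq hu hw', ← h]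
    simp only [map_add, map_smul, LinearMap.add_apply, LinearMap.smul_apply, smul_eq_mul, hA, ho, mul_zero, add_zero,
      hq.smul, smul_add, smul_smul]
    match_scalars
    · ring
    · field_simp
      linear_combination -(add_self' (f v x))
    · field_simp
      linear_combination -(add_self' (f v x)) - (add_self' (f w x))
  rw [e]
  exact siegel_mem_E hu hw'

/-- a nonsingular vector orthogonal to a nondegenerate pair -/
theorem exists_ns_perp {q : V → F} (hq : IsQ f q) (hnd : ∀ u, (∀ v, f u v = 0) → u = 0) (hd : 3 ≤ finrank F V)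
    {v v' : V} (h : f v v' ≠ 0) : ∃ p, f v p = 0 ∧ f v' p = 0 ∧ q p ≠ 0 := by
  have hA := hq.self
  have hs := symm_of_alt hA
  obtain ⟨p, hp0, hp⟩ := exists_perp_ne (Q := hq.toQ) ![v, v'] (by omega)
  have hvp : f v p = 0 := by rw [← hq.polar]; exact hp 0
  have hv'p : f v' p = 0 := by rw [← hq.polar]; exact hp 1
  by_cases hqp : q p = 0
  · obtain ⟨z, hz⟩ : ∃ z, f p z = 1 := by
      by_contra hcon
      push Not at hcon
      apply hp0
      apply hnd
      intro v
      by_contra h1
      exact hcon ((f p v)⁻¹ • v) (by rw [map_smul, smul_eq_mul, inv_mul_cancel₀ h1])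
    set p' : V := z + (f v' z / f v v') • v + (f v z / f v v') • v' with hp'
    have h1 : f v p' = 0 := by
      rw [hp', map_add, map_add, map_smul, map_smul, hA, smul_zero, add_zero, smul_eq_mul, div_mul_cancel₀ _ h, add_self']
    have h2 : f v' p' = 0 := by
      rw [hp', map_add, map_add, map_smul, map_smul, hA, smul_zero, add_zero, smul_eq_mul, hs v' v, div_mul_cancel₀ _ h,
        add_self']
    have h3 : f p p' = 1 := by
      rw [hp', map_add, map_add, map_smul, map_smul, hs p v, hs p v', hvp, hv'p, smul_zero, smul_zero, add_zero, add_zero,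
        hz]
    by_cases h4 : q p' = 0
    · refine ⟨p + p', by rw [map_add, hvp, h1, add_zero], by rw [map_add, hv'p, h2, add_zero], ?_⟩
      rw [hq.add, hqp, h4, h3, add_zero, zero_add]
      exact one_ne_zero
    · exact ⟨p', h1, h2, h4⟩
  · exact ⟨p, hvp, hv'p, hqp⟩

/-- **all reflections agree modulo `E(q)`** -/
theorem rf_rf {q : V → F} (hq : IsQ f q) (hnd : ∀ u, (∀ v, f u v = 0) → u = 0) (hd : 3 ≤ finrank F V)
    {v w : V} (hv : hq.toQ v ≠ 0) (hw : hq.toQ w ≠ 0) : refl hq.toQ v hv * refl hq.toQ w hw ∈ E hq.toQ := by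
  have hs := symm_of_alt hq.self
  -- orthogonal vectors
  have key : ∀ {v w : V} (hv : hq.toQ v ≠ 0) (hw : hq.toQ w ≠ 0), f v w = 0 →
      refl hq.toQ v hv * refl hq.toQ w hw ∈ E hq.toQ := by
    intro v w hv hw ho
    have hqw : q w ≠ 0 := hw
    have hqv : q v ≠ 0 := hv
    obtain ⟨a, ha⟩ := exists_sq (F := F) (q v / q w)
    have ha0 : a ≠ 0 := by
      rintro rfl
      rw [zero_pow two_ne_zero] at ha
      exact div_ne_zero hqv hqw ha.symm
    have h1 : q (a • w) = q v := by rw [hq.smul, ha, div_mul_cancel₀ _ hqw]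
    have hw' : hq.toQ (a • w) ≠ 0 := by
      change q (a • w) ≠ 0
      rw [h1]; exact hqv
    rw [← refl_smul hw ha0 hw']
    exact rf_rf_same hq hv hw' h1.symm (by rw [map_smul, ho, smul_zero])
  by_cases h0 : f v w = 0
  · exact key hv hw h0
  · obtain ⟨p, h1, h2, h3⟩ := exists_ns_perp hq hnd hd h0
    have hp : hq.toQ p ≠ 0 := h3
    have e : refl hq.toQ v hv * refl hq.toQ w hw =
        (refl hq.toQ v hv * refl hq.toQ p hp) * (refl hq.toQ p hp * refl hq.toQ w hw) := by
      have := refl_mul_self hp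
      calc refl hq.toQ v hv * refl hq.toQ w hw = refl hq.toQ v hv * 1 * refl hq.toQ w hw := by rw [mul_one]
        _ = _ := by rw [← this]; group
    rw [e]
    exact mul_mem (key hv hp h1) (key hp hw (by rw [hs]; exact h2))

/-- **`O(q) = E(q) ∪ E(q) r`** -/
theorem E_or [FiniteDimensional F V] {q : V → F} (hq : IsQ f q) (hnd : ∀ u, (∀ v, f u v = 0) → u = 0)
    (hd : 3 ≤ finrank F V) {g : V ≃ₗ[F] V} (hg : g ∈ O hq.toQ) : g ∈ E hq.toQ ∨
      ∃ (v : V) (hv : hq.toQ v ≠ 0), ∃ e ∈ E hq.toQ, g = e * refl hq.toQ v hv := by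
  rw [O_eq_closure (hq.nondeg hnd)] at hg
  induction hg using Subgroup.closure_induction with
  | mem x hx =>
    rcases hx with ⟨v, hv, rfl⟩ | hx
    · exact Or.inr ⟨v, hv, 1, one_mem _, by rw [one_mul]⟩
    · exact Or.inl (Subgroup.subset_closure hx)
  | one => exact Or.inl (one_mem _)
  | mul x y _ _ hx hy =>
    rcases hx with hx | ⟨v, hv, e, he, rfl⟩
    · rcases hy with hy | ⟨w, hw, e', he', rfl⟩
      · exact Or.inl (mul_mem hx hy)
      · exact Or.inr ⟨w, hw, x * e', mul_mem hx he', by rw [mul_assoc]⟩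
    · rcases hy with hy | ⟨w, hw, e', he', rfl⟩
      · refine Or.inr ⟨v, hv, e * (refl hq.toQ v hv * y * (refl hq.toQ v hv)⁻¹),
          mul_mem he (conj_mem_E (refl_mem_O hv) hy), by group⟩
      · left
        have e1 : e * refl hq.toQ v hv * (e' * refl hq.toQ w hw) =
            e * (refl hq.toQ v hv * e' * (refl hq.toQ v hv)⁻¹) * (refl hq.toQ v hv * refl hq.toQ w hw) := by group
        rw [e1]
        exact mul_mem (mul_mem he (conj_mem_E (refl_mem_O hv) he')) (rf_rf hq hnd hd hv hw)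
  | inv x _ hx =>
    rcases hx with hx | ⟨v, hv, e, he, rfl⟩
    · exact Or.inl (inv_mem hx)
    · refine Or.inr ⟨v, hv, (refl hq.toQ v hv) * e⁻¹ * (refl hq.toQ v hv)⁻¹,
        conj_mem_E (refl_mem_O hv) (inv_mem he), ?_⟩
      rw [mul_inv_rev, refl_inv]
      calc refl hq.toQ v hv * e⁻¹ = refl hq.toQ v hv * e⁻¹ * 1 := by rw [mul_one]
        _ = _ := by rw [← refl_mul_self hv]; group

/-- **elements of odd order** -/
theorem odd_mem_E [FiniteDimensional F V] {q : V → F} (hq : IsQ f q) (hnd : ∀ u, (∀ v, f u v = 0) → u = 0)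
    (hd : 3 ≤ finrank F V) {g : V ≃ₗ[F] V} (hg : ∀ v, q (g v) = q v) {r : ℕ} (hr : Odd r) (hgr : g ^ r = 1) :
    g ∈ E hq.toQ := by
  have hgO : g ∈ O hq.toQ := hg
  -- every element of `O` is in `E` or `E r₀`
  have key : ∀ g ∈ Subgroup.closure (reflSet hq.toQ ∪ siegelSet hq.toQ), g ∈ E hq.toQ ∨
      ∃ (v : V) (hv : hq.toQ v ≠ 0), ∃ e ∈ E hq.toQ, g = e * refl hq.toQ v hv := by
    intro g hg
    induction hg using Subgroup.closure_induction with
    | mem x hx =>
      rcases hx with ⟨v, hv, rfl⟩ | hx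
      · exact Or.inr ⟨v, hv, 1, one_mem _, by rw [one_mul]⟩
      · exact Or.inl (Subgroup.subset_closure hx)
    | one => exact Or.inl (one_mem _)
    | mul x y _ _ hx hy =>
      rcases hx with hx | ⟨v, hv, e, he, rfl⟩
      · rcases hy with hy | ⟨w, hw, e', he', rfl⟩
        · exact Or.inl (mul_mem hx hy)
        · exact Or.inr ⟨w, hw, x * e', mul_mem hx he', by rw [mul_assoc]⟩
      · rcases hy with hy | ⟨w, hw, e', he', rfl⟩
        · refine Or.inr ⟨v, hv, e * (refl hq.toQ v hv * y * (refl hq.toQ v hv)⁻¹),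
            mul_mem he (conj_mem_E (refl_mem_O hv) hy), by group⟩
        · left
          have e1 : e * refl hq.toQ v hv * (e' * refl hq.toQ w hw) =
              e * (refl hq.toQ v hv * e' * (refl hq.toQ v hv)⁻¹) * (refl hq.toQ v hv * refl hq.toQ w hw) := by group
          rw [e1]
          exact mul_mem (mul_mem he (conj_mem_E (refl_mem_O hv) he')) (rf_rf hq hnd hd hv hw)
    | inv x _ hx =>
      rcases hx with hx | ⟨v, hv, e, he, rfl⟩
      · exact Or.inl (inv_mem hx)
      · refine Or.inr ⟨v, hv, (refl hq.toQ v hv) * e⁻¹ * (refl hq.toQ v hv)⁻¹,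
          conj_mem_E (refl_mem_O hv) (inv_mem he), ?_⟩
        rw [mul_inv_rev, refl_inv]
        calc refl hq.toQ v hv * e⁻¹ = refl hq.toQ v hv * e⁻¹ * 1 := by rw [mul_one]
          _ = _ := by rw [← refl_mul_self hv]; group
  have hsq : ∀ g ∈ O hq.toQ, g * g ∈ E hq.toQ := by
    intro g hg
    rw [O_eq_closure (hq.nondeg hnd)] at hg
    rcases key g hg with h | ⟨v, hv, e, he, rfl⟩
    · exact mul_mem h h
    · have e1 : e * refl hq.toQ v hv * (e * refl hq.toQ v hv) =
          e * (refl hq.toQ v hv * e * (refl hq.toQ v hv)⁻¹) * (refl hq.toQ v hv * refl hq.toQ v hv) := by group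
      rw [e1, refl_mul_self, mul_one]
      exact mul_mem he (conj_mem_E (refl_mem_O hv) he)
  obtain ⟨k, rfl⟩ := hr
  have h1 : g = (g ^ (k + 1) * g ^ (k + 1)) := by
    rw [← pow_add, show k + 1 + (k + 1) = (2 * k + 1) + 1 by ring, pow_succ, hgr, one_mul]
  rw [h1]
  exact hsq _ (pow_mem hgO _)

end Cfsg.Agent.H383.Rg
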