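import Cfsg.Agent.H383.Rg.Act

/-!
# S3691, case C-: the groups containing `E(q)` (helper383)

* `Sd.pre L` : the preimage of `L`; `Sd.T_le` : if it contains all transvections then `T ≤ L`;
* `Sd.stab_of_le` : if it contains `E(q)` and `¬ T ≤ L` then `L` fixes `q`;
* `orb_two` : one of two forms of different type is conjugate to a given one; `exists_zero_form` : a form vanishing on a
  totally isotropic subspace
-/

set_option autoImplicit false
set_option linter.unusedSectionVars false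

namespace Cfsg.Agent.H383.Rg

open Module QuadraticMap
open Cfsg.Agent.LieClassical.OrthCore Cfsg.Agent.LieClassical.OrthTrans Cfsg.Agent.LieClassical.OrthFinite
open Cfsg.Agent.BpCl (Iso)
open Cfsg.Agent.H454.Reg Cfsg.Agent.H449.Reg
open Cfsg.Agent.H934.ArfO (T_eq_zero T_sq exists_T_one)

local notation "Tr" => Cfsg.Agent.H934.ArfO.T

universe u v

section

variable {F V : Type*} [Field F] [Finite F] [CharP F 2] [AddCommGroup V] [Module F V]
  {f : LinearMap.BilinForm F V}

theorem two_eq {a : ZMod 2} (h : a ≠ 0) : a = 1 := by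
  revert a
  decide

/-- one of two forms of different type is conjugate to a given one -/
theorem orb_two [FiniteDimensional F V] (hA : ∀ v, f v v = 0) (hnd : ∀ u, (∀ v, f u v = 0) → u = 0) {q q' : V → F}
    (hq : IsQ f q) (hq' : IsQ f q') {e : V} (he : Tr (q' e) = 1) :
    ∃ t ∈ Iso (F := F) (fun x y => f x y), (∀ z, q' (t z) = q z) ∨ (∀ z, sh f q' e (t z) = q z) := by
  obtain ⟨v, rfl⟩ := exists_sh hnd hq' hq
  by_cases h : Tr (q' v) = 0
  · obtain ⟨c, hc⟩ := exists_tv hA hq' h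
    exact ⟨tv hA v c, tv_mem hA v c, Or.inl hc⟩
  · obtain ⟨t, ht, h1⟩ := same_type hA hq' (v := e) (v' := v) (by rw [he, two_eq h])
    exact ⟨t, ht, Or.inr h1⟩

/-- a form vanishing on a totally isotropic subspace -/
theorem exists_zero_form [FiniteDimensional F V] (hnd : ∀ u, (∀ v, f u v = 0) → u = 0) {q : V → F} (hq : IsQ f q)
    {W : Submodule F V} (hW : ∀ u ∈ W, ∀ v ∈ W, f u v = 0) : ∃ q0 : V → F, IsQ f q0 ∧ ∀ w ∈ W, q0 w = 0 := by
  choose s hs using exists_sq (F := F)
  have hinj : ∀ a b : F, a ^ 2 = b ^ 2 → a = b := by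
    intro a b hab
    have h1 : (a + b) ^ 2 = 0 := by rw [sq_add, hab, add_self']
    exact CharTwo.add_eq_zero.1 (pow_eq_zero_iff (two_ne_zero) |>.1 h1)
  let l : W →ₗ[F] F :=
    { toFun := fun x => s (q x)
      map_add' := fun x y => by
        apply hinj
        rw [sq_add, hs, hs, hs, Submodule.coe_add, hq.add, hW _ x.2 _ y.2, add_zero]
      map_smul' := fun a x => by
        apply hinj
        change s _ ^ 2 = (a * s _) ^ 2
        rw [mul_pow, hs, hs, Submodule.coe_smul, hq.smul] }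
  obtain ⟨l', hl'⟩ := LinearMap.exists_extend l
  obtain ⟨v, hv⟩ := (LinearMap.injective_iff_surjective_of_finrank_eq_finrank
    (f := (f : V →ₗ[F] Module.Dual F V)) (Subspace.dual_finrank_eq).symm).1 (by
      intro u w huw
      rw [← sub_eq_zero]
      apply hnd
      intro y
      rw [map_sub, huw, sub_self, LinearMap.zero_apply]) l'
  refine ⟨sh f q v, hq.sh v, fun w hw => ?_⟩
  have h1 : f v w = s (q w) := by
    have h2 := LinearMap.congr_fun hl' ⟨w, hw⟩
    have h3 : f v w = l' w := LinearMap.congr_fun hv w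
    rw [h3]
    exact h2
  rw [sh_apply, h1, hs, add_self']

end

variable {G : Type u} [Group G] {T : Subgroup G} {F : Type*} {V : Type*} [Field F] [Finite F] [CharP F 2]
  [AddCommGroup V] [Module F V] {f : LinearMap.BilinForm F V}

namespace Sd

variable (D : Sd T f)

/-- the preimage -/
def pre (L : Subgroup G) : Subgroup (V ≃ₗ[F] V) :=
  ((L.comap T.subtype).comap D.R.π).map (Iso (F := F) fun x y => f x y).subtype

theorem mem_pre {L : Subgroup G} {x : V ≃ₗ[F] V} :
    x ∈ D.pre L ↔ ∃ h : x ∈ Iso (F := F) fun x y => f x y, (D.R.π ⟨x, h⟩ : G) ∈ L := by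
  constructor
  · rintro ⟨y, hy, rfl⟩
    exact ⟨y.2, hy⟩
  · rintro ⟨h, h1⟩
    exact ⟨⟨x, h⟩, h1, rfl⟩

theorem T_le [IsSimpleGroup T] {L : Subgroup G} (h : ∀ v c, tv D.alt v c ∈ D.pre L) : T ≤ L := by
  set S : Set T := {t | ∃ v c, t = D.R.π ⟨tv D.alt v c, tv_mem D.alt v c⟩} with hS
  have h1 : Subgroup.normalClosure S ≤ L.subgroupOf T := by
    rw [Subgroup.normalClosure, Subgroup.closure_le]
    intro t ht
    obtain ⟨s, ⟨v, c, rfl⟩, hc⟩ := Group.mem_conjugatesOfSet_iff.1 ht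
    obtain ⟨k, rfl⟩ := isConj_iff.1 hc
    obtain ⟨x, rfl⟩ := D.R.surj k
    have h2 : D.R.π x * D.R.π ⟨tv D.alt v c, tv_mem D.alt v c⟩ * (D.R.π x)⁻¹ =
        D.R.π ⟨tv D.alt (x.1 v) c, tv_mem D.alt (x.1 v) c⟩ := by
      rw [← map_mul, ← map_inv, ← map_mul]
      congr 1
      apply Subtype.ext
      apply LinearEquiv.ext
      intro z
      obtain ⟨z, rfl⟩ := x.1.surjective z
      change x.1 (tv D.alt v c (x.1⁻¹ (x.1 z))) = tv D.alt (x.1 v) c (x.1 z)
      have h3 : x.1⁻¹ (x.1 z) = z := x.1.symm_apply_apply z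
      have h4 : f (x.1 v) (x.1 z) = f v z := x.2 v z
      rw [h3, tv_apply, tv_apply, map_add, map_smul, h4]
    rw [h2]
    obtain ⟨_, h3⟩ := D.mem_pre.1 (h (x.1 v) c)
    exact h3
  rcases IsSimpleGroup.eq_bot_or_eq_top_of_normal (Subgroup.normalClosure S) Subgroup.normalClosure_normal with h2 | h2
  · exfalso
    obtain ⟨u, v, huv⟩ := exists_one D.nd D.ne
    have h3 : D.R.π ⟨tv D.alt u 1, tv_mem D.alt u 1⟩ ∈ Subgroup.normalClosure S :=
      Subgroup.subset_normalClosure ⟨u, 1, rfl⟩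
    rw [h2, Subgroup.mem_bot] at h3
    have h4 := pi_inj (R := D.R) D.nd D.ne (h3.trans (map_one _).symm)
    have h5 := congrArg (fun x : Iso (F := F) fun x y => f x y => x.1 v) h4
    change tv D.alt u 1 v = v at h5
    rw [tv_apply, huv, mul_one, one_smul] at h5
    have h6 : u = 0 := left_eq_add.1 h5.symm
    rw [h6, map_zero, LinearMap.zero_apply] at huv
    exact zero_ne_one huv
  · rw [h2] at h1
    exact Subgroup.subgroupOf_eq_top.1 (top_le_iff.1 h1)

/-- **a group containing `E(q)` fixes `q`** -/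
theorem stab_of_le [FiniteDimensional F V] [IsSimpleGroup T] {L : Subgroup G} (hL : ¬ T ≤ L) {q : V → F}
    (hq : IsQ f q) (hd : 4 ≤ finrank F V) (hF : 2 < Nat.card F ∨ 6 ≤ finrank F V) (hE : E hq.toQ ≤ D.pre L) {g : G}
    (hg : g ∈ L) : D.ac g q = q := by
  obtain ⟨w, hw⟩ := exists_sh D.nd hq (D.ac_isQ g hq)
  by_cases hw0 : w = 0
  · rw [hw, hw0, sh_zero]
  exfalso
  apply hL
  apply D.T_le
  have h2 : E (hq.sh w).toQ ≤ D.pre L := by
    intro s hs
    -- pull back by `g`
    obtain ⟨s', hs', e⟩ := E_semi (f := f) (D.lf_add g⁻¹) (D.lf_smul g⁻¹) (D.lf_form g⁻¹) (hq.sh w) hq (by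
      intro v
      rw [← hw, ac, sg_inv_apply]) s hs
    obtain ⟨h3, h4⟩ := D.mem_pre.1 (hE hs')
    have hsI : s ∈ Iso (F := F) fun x y => f x y := by
      intro x y
      have h5 := polar_map (E_le_O hs) x y
      rwa [(hq.sh w).polar, (hq.sh w).polar] at h5
    rw [mem_pre]
    refine ⟨hsI, ?_⟩
    have h5 := (D.spec g).ind.2 ⟨s', h3⟩ ⟨s, hsI⟩ (by
      intro v
      change s ((D.lf g).1 v) = (D.lf g).1 (s' v)
      have h6 := e ((D.lf g).1 v)
      rw [lf_inv_apply] at h6
      rw [h6, lf_apply_inv])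
    rw [← h5]
    exact L.mul_mem (L.mul_mem hg h4) (L.inv_mem hg)
  refine all_tv D.alt hq hw0 hE h2 D.nd hd ?_
  rcases hF with h | h
  · exact Or.inl h
  · right
    intro x y hxy
    obtain ⟨s, hs0, hs1, hs2⟩ := exists_sing_perp (Q := hq.toQ) ![x, y] (by omega)
    refine ⟨s, hs0, hs1, ?_, ?_⟩
    · rw [← hq.polar]; exact hs2 0
    · rw [← hq.polar]; exact hs2 1

/-- the stabiliser of a form -/
def stab (q : V → F) : Subgroup G where
  carrier := {g | D.ac g q = q}
  mul_mem' {a b} ha hb := by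
    change D.ac (a * b) q = q
    rw [ac_mul, show D.ac b q = q from hb, show D.ac a q = q from ha]
  one_mem' := D.ac_one q
  inv_mem' {a} ha := by
    change D.ac a⁻¹ q = q
    have h : D.ac a q = q := ha
    rw [← h, ← ac_mul, inv_mul_cancel, ac_one, h]

theorem mem_stab {q : V → F} {g : G} : g ∈ D.stab q ↔ D.ac g q = q := Iff.rfl

/-- some element of `T` moves `q` -/
theorem exists_move {q : V → F} (hq : IsQ f q) (hd : 3 ≤ finrank F V) : ¬ T ≤ D.stab q := by
  intro hT
  obtain ⟨u, hu0, hu, -⟩ := exists_sing_perp (Q := hq.toQ) (n := 0) ![] (by omega)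
  have hu1 : q u = 0 := hu
  obtain ⟨x, hx⟩ : ∃ x, f u x ≠ 0 := by
    by_contra hcon
    push Not at hcon
    exact hu0 (D.nd u hcon)
  have h1 := hT (D.R.π ⟨tv D.alt u 1, tv_mem D.alt u 1⟩).2
  rw [mem_stab] at h1
  have h2 := D.ac_T ⟨tv D.alt u 1, tv_mem D.alt u 1⟩ q x
  rw [h1] at h2
  change q (tv D.alt u 1 x) = q x at h2
  rw [tv_q D.alt hq, hu1] at h2
  apply hx
  have h3 : f u x ^ 2 = 0 := by linear_combination h2
  exact pow_eq_zero_iff (two_ne_zero) |>.1 h3

/-- **a maximal subgroup containing `E(q)` is the stabiliser of `q`** -/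
theorem eq_stab [FiniteDimensional F V] [IsSimpleGroup T] {L : Subgroup G} (hmax : IsCoatom L) (hL : ¬ T ≤ L)
    {q : V → F} (hq : IsQ f q) (hd : 4 ≤ finrank F V) (hF : 2 < Nat.card F ∨ 6 ≤ finrank F V)
    (hE : E hq.toQ ≤ D.pre L) : L = D.stab q := by
  rcases hmax.le_iff.1 (show L ≤ D.stab q from fun g hg => D.stab_of_le hL hq hd hF hE hg) with h | h
  · exfalso
    apply D.exists_move hq (by omega)
    rw [h]
    exact le_top
  · exact h.symm

end Sd

end Cfsg.Agent.H383.Rg
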